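import Cfsg.Agent.D4.Small
import Cfsg.Agent.D4.Lift
import Cfsg.Agent.DIM5.L2

/-!
The groups `L₂(r)`.
-/

set_option autoImplicit false
set_option linter.unusedSectionVars false

open Matrix
open scoped MatrixGroups

namespace Cfsg.Agent.D4

variable {K : Type*} [Field K] {Γ X : Type*} [Group Γ] [Group X] {ρ : Γ →* M4 K} {π : Γ →* X}

namespace L2

open H90 G2Q D5.L2

variable {F : Type*} [Field F]

theorem pr_of_diag {y : SL(2, F)} (h1 : y.1 0 1 = 0) (h2 : y.1 1 0 = 0) (h3 : y.1 0 0 = y.1 1 1) :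
    pr F y = 1 :=
  (QuotientGroup.eq_one_iff _).2 (Subgroup.mem_center_iff.2 fun g => by
    apply sl2_ext <;> simp only [sl2_mul_apply, h1, h2, h3] <;> ring)

theorem inv_trace {y : SL(2, F)} (h : pr F y * pr F y = 1) (h1 : pr F y ≠ 1) : y.1.trace = 0 := by
  rw [← map_mul] at h
  rcases sl2_center ((QuotientGroup.eq_one_iff _).1 h) with e | e
  · by_contra k
    rw [trace_fin_two] at k
    have e1 := congrArg (fun x : SL(2, F) => x.1 0 1) e
    have e2 := congrArg (fun x : SL(2, F) => x.1 1 0) e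
    have e3 := congrArg (fun x : SL(2, F) => x.1 0 0) e
    have e4 := congrArg (fun x : SL(2, F) => x.1 1 1) e
    simp [sl2_mul_apply, -SpecialLinearGroup.coe_mul] at e1 e2 e3 e4
    exact h1 (pr_of_diag (mul_left_cancel₀ k (by linear_combination e1))
      (mul_left_cancel₀ k (by linear_combination e2)) (mul_left_cancel₀ k (by linear_combination e3 - e4)))
  · exact sq_neg_iff.1 e

theorem one_class [Finite F] (a b : PSL(2, F)) (ha : orderOf a = 2) (hb : orderOf b = 2) : IsConj a b := by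
  obtain ⟨a, rfl⟩ := QuotientGroup.mk'_surjective _ a
  obtain ⟨b, rfl⟩ := QuotientGroup.mk'_surjective _ b
  obtain ⟨a2, a1⟩ := (orderOf_eq_prime_iff (hp := ⟨Nat.prime_two⟩)).1 ha
  obtain ⟨b2, b1⟩ := (orderOf_eq_prime_iff (hp := ⟨Nat.prime_two⟩)).1 hb
  have ta := inv_trace (sq (pr F a) ▸ a2) a1
  have tb := inv_trace (sq (pr F b) ▸ b2) b1
  refine (pr F).map_isConj ?_
  by_cases h2 : (2 : F) = 0
  · have key : ∀ y : SL(2, F), y.1.trace = 0 → pr F y ≠ 1 → IsConj (xu 1) y := fun y ty y1 => by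
      obtain ⟨c, t, rfl⟩ := exists_xu (x := y) (by rw [ty, h2])
      have t0 : t ≠ 0 := by
        rintro rfl
        exact y1 (by rw [xu_zero, mul_one, mul_inv_cancel, map_one])
      obtain ⟨s, rfl⟩ := FiniteField.isSquare_of_char_two
        (ringChar.eq_iff.2 ((CharP.charP_iff_prime_eq_zero Nat.prime_two).2 (by exact_mod_cast h2))) t
      have s0 : s ≠ 0 := left_ne_zero_of_mul t0
      refine isConj_iff.2 ⟨c * hh (Units.mk0 s s0), ?_⟩
      have := hh_xu (Units.mk0 s s0) (1 : F)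
      rw [Units.val_mk0, mul_one] at this
      rw [← this]; group
    exact (key a ta a1).symm.trans (key b tb b1)
  · exact conj_of_trace_eq h2 (ta.trans tb.symm) (by rw [ta]; exact Ne.symm h2)
      (by rw [ta]; exact fun e => h2 (by linear_combination e))

/-- A real element is strongly real modulo the centre. -/
theorem strong {x : SL(2, F)} (h : IsConj x x⁻¹) (h1 : pr F x ≠ 1) :
    ∃ w : PSL(2, F), w * w = 1 ∧ w * pr F x * (w * pr F x) = 1 := by
  obtain ⟨z, hz⟩ := isConj_iff.1 h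
  have e' : z * x = x⁻¹ * z := by rw [← hz, inv_mul_cancel_right]
  have e : x * (z * x) = z := by rw [e', mul_inv_cancel_left]
  have tz : z.1.trace = 0 := by
    by_contra k
    rw [trace_fin_two] at k
    have e1 := congrArg (fun x : SL(2, F) => x.1 0 1) e'
    have e2 := congrArg (fun x : SL(2, F) => x.1 1 0) e'
    have e3 := congrArg (fun x : SL(2, F) => x.1 0 0) e'
    have e4 := congrArg (fun x : SL(2, F) => x.1 1 1) e'
    simp [sl2_mul_apply, -SpecialLinearGroup.coe_mul, adjugate_fin_two] at e1 e2 e3 e4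
    exact h1 (pr_of_diag (mul_left_cancel₀ k (by linear_combination e1))
      (mul_left_cancel₀ k (by linear_combination e2)) (mul_left_cancel₀ k (by linear_combination e3 - e4)))
  have zz : pr F z * pr F z = 1 := by
    rw [← map_mul, sq_neg_iff.2 tz, pr_neg, map_one]
  refine ⟨pr F z, zz, ?_⟩
  rw [← map_mul, ← map_mul, mul_assoc, e, map_mul, zz]

/-- Elements of `SL₂(F)` are real or unipotent up to sign. -/
theorem real_or' [Finite F] (x : SL(2, F)) : IsConj x x⁻¹ ∨ ∃ y a, pr F x = pr F (y * xu a * y⁻¹) := by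
  by_cases h2 : (2 : F) = 0
  · exact Or.inl (real_sq (i := 1) (by linear_combination h2) x)
  by_cases h1 : x.1.trace = 2
  · obtain ⟨y, a, e⟩ := exists_xu h1
    exact Or.inr ⟨y, a, congrArg _ e⟩
  by_cases h1' : x.1.trace = -2
  · obtain ⟨y, a, e⟩ := exists_xu (x := -x) (by rw [SpecialLinearGroup.coe_neg, trace_neg, h1', neg_neg])
    exact Or.inr ⟨y, a, (pr_neg x).symm.trans (congrArg _ e)⟩
  · exact Or.inl (conj_of_trace_eq h2 (trace_inv x).symm h1 h1')

theorem card_le {τ : Fˣ → Fin 4} [Finite F] (h : ∀ s s', τ s = τ s' → s = s' ∨ s = -s') :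
    Nat.card F ≤ 9 := by
  classical
  have := Fintype.ofFinite F
  have : (Finset.univ : Finset Fˣ).card ≤ 2 * (Finset.univ : Finset (Fin 4)).card :=
    Finset.card_le_mul_card_image_of_maps_to (f := τ) (fun s _ => Finset.mem_univ _) 2 fun b _ => by
      by_cases e : ∃ s, τ s = b
      · obtain ⟨s, rfl⟩ := e
        refine (Finset.card_le_card (t := {s, -s}) fun s' hs => ?_).trans Finset.card_le_two
        simpa using h _ _ (Finset.mem_filter.1 hs).2
      · rw [Finset.filter_eq_empty_iff.2 fun s _ e' => e ⟨s, e'⟩]; simp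
  rw [Finset.card_univ, Fintype.card_units, ← Nat.card_eq_fintype_card, Finset.card_univ,
    Fintype.card_fin] at this
  omega

/-- The weights of the unipotent subgroup. -/
theorem wts [IsAlgClosed K] [Finite F] (hi : Function.Injective ρ) (u : F → Γ) (m : Fˣ → Γ)
    (ad : ∀ a b, u (a + b) = u a * u b) (h1 : u 1 ≠ 1) {l : ℕ} (hl : (l : K) ≠ 0)
    (ho : ∀ t, u t ^ l = 1) (hm : ∀ s t, m s * u t * (m s)⁻¹ = u (s * s * t)) : Nat.card F ≤ 9 := by
  obtain ⟨B, d, hd⟩ := exists_diag ρ u (fun s t => by rw [← ad, ← ad, add_comm]) fun t => ⟨l, hl, ho t⟩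
  obtain ⟨k, hk⟩ : ∃ k, d 1 k ≠ 1 := by
    by_contra e
    push Not at e
    exact h1 (Sm.eq_one_of_diag (Sm.cnj_inj hi B) (hd 1) e)
  choose τ _ hτ using fun s : Fˣ => wt_perm (cnj ρ B) (m s)
  have key : ∀ (s : Fˣ) t, d (s * s * t) (τ s k) = d t k := fun s t =>
    hτ s _ _ _ (hd t) (by rw [hm, hd]) k
  refine card_le (τ := fun s => τ s k) fun s s' e => ?_
  by_contra hne
  have h0 : (s : F) * s - s' * s' ≠ 0 := fun e => hne (by
    rcases mul_self_eq_mul_self_iff.1 (sub_eq_zero.1 e) with e | e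
    exacts [Or.inl (Units.ext e), Or.inr (Units.ext e)])
  have add : ∀ a b i, d (a + b) i = d a i * d b i := fun a b i => by
    have := Sm.diag_mul (hd a) (hd b)
    rw [← ad, hd] at this
    exact congrFun (diagonal_injective this) i
  obtain ⟨t, ht⟩ : ∃ t, (s * s - s' * s') * t = s * s * (1 : F) := ⟨_, mul_div_cancel₀ _ h0⟩
  have e1 := add (s' * s' * t) (s * s * 1) (τ s k)
  rw [← ht, ← add_mul, add_sub_cancel, ht, key, key] at e1
  beta_reduce at e
  rw [e, key, left_eq_mul₀ (Sm.diag_ne (hd t) k)] at e1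
  exact hk e1

theorem four_le [Finite Γ] (h : Hyp ρ π) {r : ℕ} (e : IsL2 X r) : 4 ≤ r := by
  obtain ⟨F, _, _, rfl, ⟨e⟩⟩ := e
  have := h.simple
  have := h.finiteX
  by_contra k
  have c := H9.gcd_mul_card_psl_two (F := F)
  rw [← Nat.card_congr e.toEquiv] at c
  have := Fintype.one_lt_card (α := F)
  have : Fintype.card F = 2 ∨ Fintype.card F = 3 := by omega
  rcases this with a | a <;> rw [a] at c <;> norm_num at c <;> have := S0496.result h.nonab (by omega) <;> omega

end L2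

open L2 H90 G2Q D5.L2

variable [IsAlgClosed K] [Finite Γ]

theorem Hyp.l2_ker (h : Hyp ρ π) {r : ℕ} (e : IsL2 X r) (z : Γ) (hz : π z = 1) : z * z = 1 := by
  have h4 := L2.four_le h e
  obtain ⟨F, _, _, rfl, ⟨e⟩⟩ := e
  by_cases a : Fintype.card F = 4
  · have := Fact.mk Nat.prime_five
    obtain ⟨e1⟩ := S0252.result a
    obtain ⟨e2⟩ := S0253.result (ZMod.card 5)
    exact h.ker_two (e.trans (e1.trans e2.symm)) (S2086.result (ZMod.card 5) 2 le_rfl (by simp) (by simp))
      (n := 1) odd_one (zmod_pow (Nat.gcd_dvd_left _ _)) hz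
  by_cases b : Fintype.card F = 9
  · obtain ⟨e1⟩ := S0254.result b
    exact h.ker_two (e.trans e1) (S2116.result 6 (Or.inl rfl)) (n := 3) (by decide) (zmod_pow dvd_rfl) hz
  · exact h.ker_two e (S2086.result rfl 2 le_rfl (fun _ => h4) (by simp [a, b]))
      (n := 1) odd_one (zmod_pow (Nat.gcd_dvd_left _ _)) hz

theorem Hyp.l2_sub (h : Hyp ρ π) (hπ : Function.Injective π) {F : Type*} [Field F] [Finite F]
    (f : PSL(2, F) →* X) (hf : Function.Injective f) (l : ℕ) [CharP F l] (hl : (l : K) ≠ 0) :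
    Nat.card F ≤ 9 := by
  obtain ⟨φ, hφ⟩ : ∃ φ : SL(2, F) →* Γ, ∀ x, π (φ x) = f (pr F x) :=
    ⟨(MulEquiv.ofBijective π ⟨hπ, h.surj⟩).symm.toMonoidHom.comp (f.comp (pr F)),
      fun _ => (MulEquiv.ofBijective π ⟨hπ, h.surj⟩).apply_symm_apply _⟩
  exact L2.wts h.inj (fun t => φ (xu t)) (fun s => φ (hh s)) (fun a b => by rw [xu_add, map_mul])
    (fun e => one_ne_zero (pr_xu (hf (by rw [← hφ, e, map_one, map_one])))) hl
    (fun t => by rw [← map_pow, xu_pow, CharP.cast_eq_zero, zero_mul, xu_zero, map_one])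
    fun s t => by rw [← map_inv, ← map_mul, ← map_mul, hh_xu]

/-- Elements over involutions are real if the kernel has exponent two. -/
theorem Hyp.tr_inv_sq (h : Hyp ρ π) (n : NoRf ρ) (k2 : ∀ z, π z = 1 → z * z = 1) {g : Γ}
    (hg : π g * π g = 1) : (ρ g⁻¹).trace = (ρ g).trace := by
  by_cases h1 : π g = 1
  · rw [inv_eq_of_mul_eq_one_left (k2 g h1)]
  rw [← map_mul] at hg
  by_cases h2 : (2 : K) = 0
  · obtain ⟨c, hc⟩ := (h.ker _).1 hg
    have c1 : c = 1 := rt8_two h2 (by rw [show 8 = 4 * 2 from rfl, pow_mul, h.fourth hc, one_pow])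
    rw [c1, one_smul, ← map_one ρ] at hc
    rw [inv_eq_of_mul_eq_one_left (h.inj hc)]
  · rw [h.inv_tr n h2 hg h1, h.inv_tr n h2 (g := g⁻¹) (by rw [← _root_.mul_inv_rev, map_inv, hg, inv_one])
      (by rwa [map_inv, Ne, inv_eq_one])]

/-- Elements over strongly real elements are real. -/
theorem Hyp.tr_strong (h : Hyp ρ π) (n : NoRf ρ) (k2 : ∀ z, π z = 1 → z * z = 1)
    (one : ∀ a b : X, orderOf a = 2 → orderOf b = 2 → IsConj a b) {g : Γ} {w : X}
    (hw : w * w = 1) (hw' : w * π g * (w * π g) = 1) : (ρ g⁻¹).trace = (ρ g).trace := by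
  by_cases h1 : w = 1
  · rw [h1, one_mul] at hw'
    exact h.tr_inv_sq n k2 hw'
  by_cases h2 : w * π g = 1
  · exact h.tr_inv_sq n k2 (by rw [eq_inv_of_mul_eq_one_right h2, ← _root_.mul_inv_rev, hw, inv_one])
  obtain ⟨k, hk⟩ := isConj_iff.1 (h.real_lift k2 one (g := g)
    (orderOf_eq_prime (hp := ⟨Nat.prime_two⟩) (by rw [sq, hw]) h1)
    (orderOf_eq_prime (hp := ⟨Nat.prime_two⟩) (by rw [sq, hw']) h2))
  rw [← hk, trace_conj]

/-- Elements over unipotent elements of odd order are real if the kernel has exponent two. -/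
theorem Hyp.tr_unip (h : Hyp ρ π) (k2 : ∀ z, π z = 1 → z * z = 1) (p : ℕ) [Fact p.Prime] [CharP K p]
    (c4 : Nat.Coprime p 4) {g : Γ} (hg : π g ^ p = 1) : (ρ g⁻¹).trace = (ρ g).trace := by
  obtain ⟨g', e, o⟩ := h.exists_lift c4 hg
  obtain ⟨z, hz, rfl⟩ := h.exists_ker_of_eq e.symm
  obtain ⟨c, hc⟩ := (h.ker z).1 hz
  rw [_root_.mul_inv_rev, inv_eq_of_mul_eq_one_left (k2 z hz), map_mul, map_mul, hc, mul_smul_comm,
    smul_mul_assoc, mul_one, one_mul, trace_smul, trace_smul, trace_unip ρ p (g := g') (k := 1) (by rw [pow_one, o]),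
    trace_unip ρ p (g := g'⁻¹) (k := 1) (by rw [pow_one, inv_pow, o, inv_one])]

theorem Hyp.l2 (h : Hyp ρ π) (n : NoRf ρ) {r : ℕ} (e : IsL2 X r) :
    Real ρ ∨ (r = 7 ∧ (7 : K) ≠ 0) := by
  have h4 := L2.four_le h e
  have k2 := h.l2_ker e
  obtain ⟨F, _, _, rfl, ⟨e⟩⟩ := e
  obtain ⟨l, hl⟩ := CharP.exists F
  have lp := CharP.char_is_prime F l
  have one : ∀ a b : X, orderOf a = 2 → orderOf b = 2 → IsConj a b := fun a b ha hb => by
    have := e.symm.toMonoidHom.map_isConj
      (one_class (e a) (e b) (by rw [MulEquiv.orderOf_eq, ha]) (by rw [MulEquiv.orderOf_eq, hb]))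
    simpa using this
  have re : ∀ (g : Γ) (x : SL(2, F)), pr F x = e (π g) → IsConj x x⁻¹ → (ρ g⁻¹).trace = (ρ g).trace :=
    fun g x hx hc => by
      by_cases h1 : pr F x = 1
      · refine h.tr_inv_sq n k2 (e.injective ?_)
        rw [map_mul, ← hx, h1, one_mul, map_one]
      · obtain ⟨w, w1, w2⟩ := strong hc h1
        refine h.tr_strong n k2 one (w := e.symm w) (by rw [← map_mul, w1, map_one]) (e.injective ?_)
        rw [map_mul, map_mul, e.apply_symm_apply, ← hx, w2, map_one]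
  by_cases h3 : Fintype.card F % 4 = 3
  swap
  · obtain ⟨i, hi⟩ := FiniteField.isSquare_neg_one_iff.2 h3
    refine Or.inl fun g => ?_
    obtain ⟨x, hx⟩ := QuotientGroup.mk'_surjective _ (e (π g))
    exact re g x hx (real_sq hi.symm x)
  have l2 : l ≠ 2 := by
    rintro rfl
    have := FiniteField.even_card_of_char_two (ringChar.eq F 2)
    omega
  have c4 : Nat.Coprime l 4 := Nat.Coprime.pow_right 2 ((Nat.coprime_primes lp Nat.prime_two).2 l2)
  have xl : ∀ t : F, xu t ^ l = 1 := fun t => by rw [xu_pow, CharP.cast_eq_zero, zero_mul, xu_zero]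
  by_cases hK : (l : K) = 0
  · have := Fact.mk lp
    have : CharP K l := (CharP.charP_iff_prime_eq_zero lp).2 hK
    refine Or.inl fun g => ?_
    obtain ⟨x, hx⟩ := QuotientGroup.mk'_surjective _ (e (π g))
    rcases real_or' x with a | ⟨y, a, ha⟩
    · exact re g x hx a
    · refine h.tr_unip k2 l c4 (e.injective ?_)
      rw [map_pow, ← hx, ha, ← map_pow, conj_pow, xl, mul_one, mul_inv_cancel, map_one, map_one]
  choose u hu ho using fun t : F => h.exists_lift (x := e.symm (pr F (xu t))) c4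
    (by rw [← map_pow, ← map_pow, xl, map_one, map_one])
  choose m hm using fun s : Fˣ => h.surj (e.symm (pr F (hh s)))
  have h9 := L2.wts h.inj u m (fun a b => h.lift_unique
      (by rw [map_mul, hu, hu, hu, xu_add, map_mul, map_mul]) c4 (ho _) (by
        have : Commute (u a) (u b) := h.comm_of_lift c4 (ho b) (by
          rw [hu, hu, ← map_mul, ← map_mul, ← map_mul, ← map_mul, ← xu_add, ← xu_add, add_comm])
        rw [this.mul_pow, ho, ho, one_mul]))
    (fun k => one_ne_zero (pr_xu (e.symm.injective (by rw [← hu, k, map_one, map_one])))) hK ho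
    fun s t => h.conj_lift c4 (ho _) (ho _) (by
      rw [hm, hu, hu, ← map_inv, ← map_inv, ← map_mul, ← map_mul, ← map_mul, ← map_mul, hh_xu])
  rw [Nat.card_eq_fintype_card] at h9
  have a : Fintype.card F = 7 := by omega
  obtain rfl : l = 7 := (Nat.prime_dvd_prime_iff_eq lp (by norm_num)).1
    ((CharP.cast_eq_zero_iff F l 7).1 (a ▸ FiniteField.cast_card_eq_zero F))
  exact Or.inr ⟨a, by exact_mod_cast hK⟩

end Cfsg.Agent.D4
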