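import Cfsg.Agent.D4.Defs4
import Cfsg.Agent.H19.A8a
import Cfsg.Agent.H14.L27

/-!
The group `L₂(7)` fixes a simplex of alternating forms.

The point stabiliser `S₄` is generated by involutions `t₁, t₂, t₃`, where `t₁, t₃` generate a four-group. Lifts of
involutions square to `-1`. Over the algebraic closure an alternating form is fixed by the lifts as soon as it satisfies
`2 + 2 + 1` linear equations.
-/

set_option autoImplicit false

open Matrix
open scoped MatrixGroups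

namespace Cfsg.Agent.D4

variable {K : Type*} [Field K] {Γ X : Type*} [Group Γ] [Group X] {ρ : Γ →* M4 K} {π : Γ →* X}

namespace L27a

/-- alternating matrices -/
def am : V6 K →ₗ[K] M4 K where
  toFun x := !![0, x 0, x 1, x 2; -x 0, 0, x 3, x 4; -x 1, -x 3, 0, x 5; -x 2, -x 4, -x 5, 0]
  map_add' x y := by ext i j; fin_cases i <;> fin_cases j <;> simp [add_comm]
  map_smul' c x := by ext i j; fin_cases i <;> fin_cases j <;> simp

theorem am_apply (x : V6 K) :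
    am x = !![0, x 0, x 1, x 2; -x 0, 0, x 3, x 4; -x 1, -x 3, 0, x 5; -x 2, -x 4, -x 5, 0] := rfl

theorem am_alt (x : V6 K) : (am x)ᵀ = -am x := by
  ext i j; fin_cases i <;> fin_cases j <;> simp [am_apply]

theorem am_ne {x : V6 K} (h : am x = 0) : x = 0 := by
  have e := fun i j => congrFun (congrFun h i) j
  ext i
  fin_cases i
  · simpa [am_apply] using e 0 1
  · simpa [am_apply] using e 0 2
  · simpa [am_apply] using e 0 3
  · simpa [am_apply] using e 1 2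
  · simpa [am_apply] using e 1 3
  · simpa [am_apply] using e 2 3

/-- an entry of `P A Q` -/
def ent (P Q : M4 K) (k l : Fin 4) : M4 K →ₗ[K] K where
  toFun A := (P * A * Q) k l
  map_add' A B := by simp [mul_add, add_mul]
  map_smul' c A := by simp

theorem exists_alt (f : Fin 5 → M4 K →ₗ[K] K) : ∃ A : M4 K, A ≠ 0 ∧ Aᵀ = -A ∧ ∀ i, f i A = 0 := by
  have := LinearMap.ker_ne_bot_of_finrank_lt (f := LinearMap.pi fun i => f i ∘ₗ am) (by simp)
  obtain ⟨x, hx, x0⟩ := (Submodule.ne_bot_iff _).1 this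
  exact ⟨am x, fun e => x0 (am_ne e), am_alt x, fun i => congrFun (LinearMap.mem_ker.1 hx) i⟩

theorem alt_ent {A : M4 K} (hA : Aᵀ = -A) (k l : Fin 4) : A l k = -A k l := congrFun (congrFun hA k) l

theorem alt_diag (h2 : (2 : K) ≠ 0) {A : M4 K} (hA : Aᵀ = -A) (k : Fin 4) : A k k = 0 :=
  (mul_eq_zero.1 (by linear_combination alt_ent hA k k : 2 * A k k = 0)).resolve_left h2

theorem fixA (h2 : (2 : K) ≠ 0) {c : K} (hc : c * c = -1) {A : M4 K} (hA : Aᵀ = -A) (e1 : A 0 1 = 0)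
    (e2 : A 2 3 = 0) : diagonal ![c, c, -c, -c] * A * (diagonal ![c, c, -c, -c])ᵀ = A := by
  have d := alt_diag h2 hA
  have e3 : A 1 0 = 0 := by rw [alt_ent hA, e1, neg_zero]
  have e4 : A 3 2 = 0 := by rw [alt_ent hA, e2, neg_zero]
  have k : ∀ x : K, c * x * c = -x := fun x => by linear_combination x * hc
  ext i j
  rw [diagonal_transpose, mul_diagonal, diagonal_mul]
  fin_cases i <;> fin_cases j <;> simp [d, e1, e2, e3, e4, k]

theorem fixB (h2 : (2 : K) ≠ 0) {c : K} (hc : c * c = -1) {A y : M4 K} (hA : Aᵀ = -A) (e1 : A 0 1 = 0)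
    (e2 : A 2 3 = 0) (y2 : y * y = -1) (hy : diagonal ![c, c, -c, -c] * y = -(y * diagonal ![c, c, -c, -c]))
    (e : (y * A) 2 3 = (y * A) 3 2) : y * A * yᵀ = A := by
  have d := alt_diag h2 hA
  have a := alt_ent hA
  have c0 : c ≠ 0 := fun e => by simp [e] at hc
  have z : ∀ i j, (![c, c, -c, -c] : V4 K) i = ![c, c, -c, -c] j → y i j = 0 := fun i j hij => by
    have := congrFun (congrFun hy i) j
    rw [neg_apply, diagonal_mul, mul_diagonal, ← hij] at this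
    have h0 : (![c, c, -c, -c] : V4 K) i ≠ 0 := by fin_cases i <;> simpa using c0
    exact (mul_eq_zero.1 (by linear_combination this : (2 * (![c, c, -c, -c] : V4 K) i) * y i j = 0)).resolve_left
      (mul_ne_zero h2 h0)
  have z00 := z 0 0 rfl
  have z01 := z 0 1 rfl
  have z10 := z 1 0 rfl
  have z11 := z 1 1 rfl
  have z22 := z 2 2 rfl
  have z23 := z 2 3 rfl
  have z32 := z 3 2 rfl
  have z33 := z 3 3 rfl
  have r := fun i j => congrFun (congrFun y2 i) j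
  have r00 := r 0 0
  have r01 := r 0 1
  have r10 := r 1 0
  have r11 := r 1 1
  simp [mul_apply, Fin.sum_univ_four, z00, z01, z10, z11] at r00 r01 r10 r11
  simp only [mul_apply, Fin.sum_univ_four, z22, z23, z32, z33, zero_mul, add_zero] at e
  have key : y 0 2 * A 1 2 + y 0 3 * A 1 3 = y 1 2 * A 0 2 + y 1 3 * A 0 3 := by
    linear_combination (y 0 2 * y 1 3 - y 0 3 * y 1 2) * e - (A 0 2 * y 1 2 + A 0 3 * y 1 3) * r00 -
      (A 1 2 * y 1 2 + A 1 3 * y 1 3) * r01 + (A 0 2 * y 0 2 + A 0 3 * y 0 3) * r10 +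
      (A 1 2 * y 0 2 + A 1 3 * y 0 3) * r11
  have s : (y * A)ᵀ = y * A := by
    ext i j
    fin_cases i <;> fin_cases j <;>
      simp [mul_apply, Fin.sum_univ_four, z00, z01, z10, z11, z22, z23, z32, z33, d, e1, e2, a 0 1, a 2 3, a 0 2,
        a 0 3, a 1 2, a 1 3] <;> first | linear_combination key | linear_combination -key | linear_combination e |
        linear_combination -e
  rw [transpose_mul, hA] at s
  calc y * A * yᵀ = -(y * (-A * yᵀ)) := by simp [mul_assoc]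
    _ = A := by rw [s, ← mul_assoc, y2]; simp

theorem std [IsAlgClosed K] (h2 : (2 : K) ≠ 0) {g : Γ} (g4 : g ^ 4 = 1) (hg : ρ g * ρ g = -1) (ht : (ρ g).trace = 0) :
    ∃ (B : (M4 K)ˣ) (c : K), c * c = -1 ∧ cnj ρ B g = diagonal ![c, c, -c, -c] := by
  obtain ⟨B, d, hd⟩ := exists_diag ρ (fun _ : Unit => g) (fun _ _ => rfl) fun _ =>
    ⟨4, by rw [show ((4 : ℕ) : K) = 2 * 2 by norm_num]; exact mul_ne_zero h2 h2, g4⟩
  have hd' := hd ()
  generalize d () = w at hd'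
  have e0 : ∀ k, w k * w k = -1 := fun k => by
    have : cnj ρ B g * cnj ρ B g = -1 := by rw [← map_mul, cnj_apply, map_mul, hg]; simp
    have := congrFun (congrFun this k) k
    simpa [hd'] using this
  have e1 : ∀ k, w k = w 0 ∨ w k = -w 0 := fun k => mul_self_eq_mul_self_iff.1 (by rw [e0, e0])
  rw [← trace_cnj B, hd', trace_diagonal, Fin.sum_univ_four] at ht
  have w0 : w 0 ≠ 0 := fun e => by simpa [e] using e0 0
  have n2 : 2 * w 0 ≠ 0 := mul_ne_zero h2 w0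
  have pm : ∀ τ : Equiv.Perm (Fin 4), w ∘ τ = ![w 0, w 0, -w 0, -w 0] →
      ∃ (B : (M4 K)ˣ) (c : K), c * c = -1 ∧ cnj ρ B g = diagonal ![c, c, -c, -c] := fun τ e =>
    ⟨B * ⟨(τ⁻¹).permMatrix K, τ.permMatrix K, by rw [← permMatrix_mul]; simp, by rw [← permMatrix_mul]; simp⟩, w 0,
      e0 0, by
      rw [cnj_mul, cnj_apply, hd', ← e]
      change τ.toPEquiv.toMatrix * diagonal w * (τ⁻¹).toPEquiv.toMatrix = _
      rw [PEquiv.toMatrix_toPEquiv_mul, PEquiv.mul_toMatrix_toPEquiv]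
      ext i j
      simp [diagonal_apply, Equiv.Perm.inv_def]⟩
  rcases e1 1 with a | a <;> rcases e1 2 with b | b <;> rcases e1 3 with e | e <;> rw [a, b, e] at ht
  · exact (mul_ne_zero h2 n2 (by linear_combination ht)).elim
  · exact (n2 (by linear_combination ht)).elim
  · exact (n2 (by linear_combination ht)).elim
  · exact pm 1 (by ext i; fin_cases i <;> simp [a, b, e])
  · exact (n2 (by linear_combination ht)).elim
  · exact pm (Equiv.swap 1 2) (by ext i; fin_cases i <;> first | rfl | assumption)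
  · exact pm (Equiv.swap 1 3) (by ext i; fin_cases i <;> first | rfl | assumption)
  · exact (n2 (by linear_combination -ht)).elim

theorem back {B : (M4 K)ˣ} {g : Γ} {A : M4 K}
    (e : cnj ρ B g * (B⁻¹.val * A * B⁻¹.valᵀ) * (cnj ρ B g)ᵀ = B⁻¹.val * A * B⁻¹.valᵀ) : ρ g * A * (ρ g)ᵀ = A := by
  have t : B⁻¹.valᵀ * B.valᵀ = 1 := by rw [← transpose_mul, Units.mul_inv, transpose_one]
  have := congrArg (fun M => B.val * M * B.valᵀ) e
  simp only [cnj_apply, transpose_mul, mul_assoc, Units.mul_inv_cancel_left, t, mul_one] at this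
  rwa [← mul_assoc B⁻¹.valᵀ, t, one_mul, ← mul_assoc] at this

theorem anti {x y : M4 K} (hx : x * x = -1) (hy : y * y = -1) (h : x * y * (x * y) = -1) : x * y = -(y * x) := by
  have : x * (x * y * (x * y)) * y = (x * x) * (y * x) * (y * y) := by noncomm_ring
  rw [h, hx, hy] at this
  simpa using congrArg Neg.neg this

theorem tr0 (h2 : (2 : K) ≠ 0) {x y : M4 K} (hy : y * y = -1) (h : x * y = -(y * x)) : x.trace = 0 := by
  have e : (x * y * y).trace = -(x * y * y).trace := by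
    conv_lhs => rw [h, neg_mul, trace_neg, mul_assoc, trace_mul_comm]
  rw [mul_assoc, hy] at e
  simp only [mul_neg, mul_one, trace_neg, neg_neg] at e
  exact (mul_eq_zero.1 (by linear_combination -e : 2 * x.trace = 0)).resolve_left h2

theorem exists_fix [IsAlgClosed K] (hρ : Function.Injective ρ) (h2 : (2 : K) ≠ 0) {x1 x2 x3 x4 : Γ}
    (s1 : ρ x1 * ρ x1 = -1) (s2 : ρ x2 * ρ x2 = -1) (s3 : ρ x3 * ρ x3 = -1) (s4 : ρ x4 * ρ x4 = -1)
    (s13 : ρ x1 * ρ x3 = -(ρ x3 * ρ x1)) (s24 : ρ x2 * ρ x4 = -(ρ x4 * ρ x2)) :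
    ∃ A : M4 K, A ≠ 0 ∧ Aᵀ = -A ∧ ∀ g ∈ [x1, x2, x3], ρ g * A * (ρ g)ᵀ = A := by
  have p4 : ∀ g, ρ g * ρ g = -1 → g ^ 4 = 1 := fun g e => hρ (by
    rw [show g ^ 4 = (g * g) * (g * g) by simp [pow_succ, mul_assoc], map_mul, map_mul, e, map_one]; simp)
  obtain ⟨B, c, hc, eB⟩ := std h2 (p4 _ s1) s1 (tr0 h2 s3 s13)
  obtain ⟨C, d, hd, eC⟩ := std h2 (p4 _ s2) s2 (tr0 h2 s4 s24)
  obtain ⟨A, A0, hA, e⟩ := exists_alt ![ent B⁻¹.val B⁻¹.valᵀ 0 1, ent B⁻¹.val B⁻¹.valᵀ 2 3, ent C⁻¹.val C⁻¹.valᵀ 0 1,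
    ent C⁻¹.val C⁻¹.valᵀ 2 3,
    ent (cnj ρ B x3 * B⁻¹.val) B⁻¹.valᵀ 2 3 - ent (cnj ρ B x3 * B⁻¹.val) B⁻¹.valᵀ 3 2]
  have al : ∀ P : M4 K, (P * A * Pᵀ)ᵀ = -(P * A * Pᵀ) := fun P => by simp [transpose_mul, hA, mul_assoc]
  refine ⟨A, A0, hA, ?_⟩
  simp only [List.mem_cons, List.not_mem_nil, or_false, forall_eq_or_imp, forall_eq]
  refine ⟨back (B := B) ?_, back (B := C) ?_, back (B := B) ?_⟩
  · rw [eB]; exact fixA h2 hc (al _) (e 0) (e 1)
  · rw [eC]; exact fixA h2 hd (al _) (e 2) (e 3)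
  · refine fixB h2 hc (al _) (e 0) (e 1) ?_ ?_ ?_
    · rw [← map_mul, cnj_apply, map_mul, s3]; simp
    · rw [← eB, ← map_mul, ← map_mul, cnj_apply, cnj_apply, map_mul, map_mul, s13]; simp
    · rw [← mul_assoc, ← mul_assoc]
      exact sub_eq_zero.1 (e 4)

theorem desc {L : Type*} [Field L] [Algebra K L] (l : L →ₗ[K] K) (g : M4 K) (A : M4 L) :
    (g.map (algebraMap K L) * A * (g.map (algebraMap K L))ᵀ).map l = g * A.map l * gᵀ := by
  ext i j
  simp only [map_apply, mul_apply, transpose_apply, map_sum, Finset.sum_mul]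
  refine Finset.sum_congr rfl fun k _ => Finset.sum_congr rfl fun m _ => ?_
  rw [mul_comm _ (algebraMap K L _), ← Algebra.smul_def, ← Algebra.smul_def, map_smul, map_smul, smul_eq_mul,
    smul_eq_mul, mul_comm]

theorem exists_fix' (hρ : Function.Injective ρ) (h2 : (2 : K) ≠ 0) {x1 x2 x3 x4 : Γ}
    (s1 : ρ x1 * ρ x1 = -1) (s2 : ρ x2 * ρ x2 = -1) (s3 : ρ x3 * ρ x3 = -1) (s4 : ρ x4 * ρ x4 = -1)
    (s13 : ρ x1 * ρ x3 = -(ρ x3 * ρ x1)) (s24 : ρ x2 * ρ x4 = -(ρ x4 * ρ x2)) :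
    ∃ A : M4 K, A ≠ 0 ∧ Aᵀ = -A ∧ ∀ g ∈ [x1, x2, x3], ρ g * A * (ρ g)ᵀ = A := by
  let f := algebraMap K (AlgebraicClosure K)
  have m : ∀ a b, ext f ρ a * ext f ρ b = (ρ a * ρ b).map f := fun a b => by rw [← map_mul, ← map_mul, ext_apply]
  have n : ∀ M : M4 K, (-M).map f = -M.map f := fun M => by ext; simp
  have s : ∀ a, ρ a * ρ a = -1 → ext f ρ a * ext f ρ a = -1 := fun a e => by rw [m, e, n]; simp
  obtain ⟨A, A0, hA, e⟩ := exists_fix (ρ := ext f ρ) (fun a b e => hρ (Matrix.map_injective f.injective e))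
    (by rw [← map_ofNat f 2]; exact (map_ne_zero f).2 h2) (s _ s1) (s _ s2) (s _ s3) (s _ s4) (by rw [m, m, s13, n])
    (by rw [m, m, s24, n])
  obtain ⟨i, j, hij⟩ : ∃ i j, A i j ≠ 0 := by
    by_contra hc
    push Not at hc
    exact A0 (Matrix.ext hc)
  obtain ⟨l, hl⟩ : ∃ l : Module.Dual K (AlgebraicClosure K), l (A i j) ≠ 0 := by
    by_contra hc
    push Not at hc
    exact hij ((Module.forall_dual_apply_eq_zero_iff K _).1 hc)
  refine ⟨A.map l, fun e => hl (congrFun (congrFun e i) j), ?_, fun g hg => ?_⟩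
  · ext k m
    simp [alt_ent hA k m]
  · rw [← desc]
    exact congrArg (fun M => M.map l) (e g hg)

/-! ### The group `GL₃(2)` on seven points -/

/-- the non-zero vectors -/
def vv : Fin 7 → Fin 3 → ZMod 2 := ![![1, 0, 0], ![0, 1, 0], ![1, 1, 0], ![0, 0, 1], ![1, 0, 1], ![0, 1, 1], ![1, 1, 1]]

/-- their numbers -/
def ix (w : Fin 3 → ZMod 2) : Fin 7 := Fin.ofNat 7 ((w 0).val + 2 * (w 1).val + 4 * (w 2).val + 6)

theorem vv_ix : ∀ w, w ≠ 0 → vv (ix w) = w := by decide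

theorem ix_vv : ∀ i, ix (vv i) = i := by decide

theorem vv_ne : ∀ i, vv i ≠ 0 := by decide

theorem gl_ne (g : GL (Fin 3) (ZMod 2)) (i : Fin 7) : g.val *ᵥ vv i ≠ 0 := fun e => vv_ne i (by
  rw [← one_mulVec (vv i), ← g.inv_mul, ← mulVec_mulVec, e, mulVec_zero])

/-- the action on the points -/
def ph : GL (Fin 3) (ZMod 2) →* Equiv.Perm (Fin 7) :=
  MonoidHom.toHomPerm
    { toFun := fun g i => ix (g.val *ᵥ vv i)
      map_one' := funext fun i => by rw [Units.val_one, one_mulVec, ix_vv]; rfl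
      map_mul' := fun g h => funext fun i => by
        change _ = ix (g.val *ᵥ vv (ix (h.val *ᵥ vv i)))
        rw [vv_ix _ (gl_ne h i), mulVec_mulVec, Units.val_mul] }

theorem ph_iff {g : GL (Fin 3) (ZMod 2)} {i j : Fin 7} : ph g i = j ↔ g.val *ᵥ vv i = vv j :=
  ⟨fun e => by rw [← e]; exact (vv_ix _ (gl_ne g i)).symm, fun e => by
    change ix (g.val *ᵥ vv i) = j
    rw [e, ix_vv]⟩

theorem ph_tr : ∀ i j : Fin 7, i ≠ j → ∃ g, ph g 0 = i ∧ ph g 1 = j := by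
  have : ∀ i j : Fin 7, i ≠ j → ∃ k : Fin 7, (of ![vv i, vv j, vv k])ᵀ.det ≠ 0 ∧
      (of ![vv i, vv j, vv k])ᵀ *ᵥ vv 0 = vv i ∧ (of ![vv i, vv j, vv k])ᵀ *ᵥ vv 1 = vv j := by
    simp only [det_fin_three]
    decide +kernel
  intro i j hij
  obtain ⟨k, h, h0, h1⟩ := this i j hij
  exact ⟨GeneralLinearGroup.mkOfDetNeZero _ h, ph_iff.2 h0, ph_iff.2 h1⟩

theorem ph_few (g : GL (Fin 3) (ZMod 2)) (h : ∀ i, 3 ≤ i → ph g i = i) : ph g = 1 := by
  have h3 := ph_iff.1 (h 3 (by decide))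
  have h4 := ph_iff.1 (h 4 (by decide))
  have h5 := ph_iff.1 (h 5 (by decide))
  have : ∀ i : Fin 7, 3 ≤ i ∨ vv i = vv 3 + vv 4 ∨ vv i = vv 3 + vv 5 ∨ vv i = vv 4 + vv 5 := by decide
  ext i : 1
  rcases this i with e | e | e | e
  · exact h i e
  all_goals exact ph_iff.2 (by rw [Equiv.Perm.one_apply, e, mulVec_add]; congr 1)

/-- the involutions -/
def tm : Fin 4 → Matrix (Fin 3) (Fin 3) (ZMod 2) :=
  ![!![1, 0, 0; 0, 1, 1; 0, 0, 1], !![1, 0, 0; 0, 1, 0; 0, 1, 1], !![1, 0, 1; 0, 1, 1; 0, 0, 1],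
    !![1, 1, 0; 0, 1, 0; 0, 0, 1]]

theorem tm_sq : ∀ i, tm i * tm i = 1 ∧ tm i ≠ 1 := by decide +kernel

theorem tm_sq' : (tm 0 * tm 2 * (tm 0 * tm 2) = 1 ∧ tm 0 * tm 2 ≠ 1) ∧ tm 1 * tm 3 * (tm 1 * tm 3) = 1 ∧
    tm 1 * tm 3 ≠ 1 := by decide +kernel

/-- the same as units -/
def tu (i : Fin 4) : GL (Fin 3) (ZMod 2) := ⟨tm i, tm i, (tm_sq i).1, (tm_sq i).1⟩

/-- the elements of the point stabiliser as words -/
def wds : List (List (Fin 4)) := 
  [[], [0], [1], [2], [0, 1], [0, 2], [1, 0], [1, 2], [2, 1], [0, 1, 0], [0, 1, 2], [0, 2, 1], [1, 0, 2], [1, 2, 1], [2, 1, 0], [0, 1, 0, 2], [0, 1, 2, 1], [0, 2, 1, 0], [1, 0, 2, 1], [1, 2, 1, 0], [0, 1, 0, 2, 1], [0, 1, 2, 1, 0], [1, 0, 2, 1, 0], [0, 1, 0, 2, 1, 0]]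

theorem stab : ∀ b c e f h i : ZMod 2, e * i - f * h ≠ 0 →
    ∃ l ∈ wds, (∀ k ∈ l, k ≠ 3) ∧ !![1, b, c; 0, e, f; 0, h, i] = (l.map tm).prod := by
  decide +kernel

theorem mem_stab (T : Subgroup (GL (Fin 3) (ZMod 2))) (hT : ∀ k, k ≠ 3 → tu k ∈ T) {g : GL (Fin 3) (ZMod 2)}
    (hg : ph g 0 = 0) : g ∈ T := by
  have e := fun k => congrFun (ph_iff.1 hg) k
  have e0 := e 0
  have e1 := e 1
  have e2 := e 2
  simp [vv, mulVec, dotProduct, Fin.sum_univ_three] at e0 e1 e2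
  have d := g.det_ne_zero
  rw [det_fin_three, e0, e1, e2] at d
  obtain ⟨l, -, hl, el⟩ := stab (g.val 0 1) (g.val 0 2) (g.val 1 1) (g.val 1 2) (g.val 2 1) (g.val 2 2)
    (by simpa using d)
  have : g = (l.map tu).prod := Units.ext (by
    rw [← Units.coeHom_apply, ← Units.coeHom_apply, map_list_prod, List.map_map]
    change g.val = (l.map tm).prod
    rw [← el, ← e0, ← e1]
    conv_rhs => rw [e1, ← e2]
    ext i j
    fin_cases i <;> fin_cases j <;> simp [e1, e2])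
  rw [this]
  exact T.list_prod_mem fun x hx => by
    obtain ⟨k, hk, rfl⟩ := List.mem_map.1 hx
    exact hT k (hl k hk)

end L27a

open L27a in
theorem Hyp.exists_spx [Finite Γ] (h : Hyp ρ π) (e : IsL2 X 7) (s : Sq7 ρ π) :
    ∃ φ A, Spx ρ φ A := by
  obtain ⟨F, _, _, hF, ⟨e1⟩⟩ := e
  obtain ⟨e2⟩ := H14.L27.equiv hF
  have := h.finiteX
  have := h.simple
  obtain ⟨ε⟩ := H19.A8.gl3_of_168 (G := X) ((Nat.card_congr (e1.trans e2).toEquiv).trans H14.L27.card)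
  let ψ : Γ →* GL (Fin 3) (ZMod 2) := ε.toMonoidHom.comp π
  have hψ : Function.Surjective ψ := ε.surjective.comp h.surj
  choose x hx using fun k => hψ (tu k)
  have sq : ∀ g, (ψ g).val * (ψ g).val = 1 ∧ (ψ g).val ≠ 1 → ρ g * ρ g = -1 := fun g hg => s.sq g (by
    rw [← ε.orderOf_eq]
    exact orderOf_eq_prime (by rw [pow_two]; exact Units.ext hg.1) fun e => hg.2 (congrArg Units.val e))
  have s0 : ∀ k, ρ (x k) * ρ (x k) = -1 := fun k => sq _ (by rw [hx]; exact tm_sq k)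
  obtain ⟨A, A0, hA, fx⟩ := exists_fix' h.inj s.two (s0 0) (s0 1) (s0 2) (s0 3)
    (anti (s0 0) (s0 2) (by rw [← map_mul]; exact sq _ (by rw [map_mul, hx, hx]; exact tm_sq'.1)))
    (anti (s0 1) (s0 3) (by rw [← map_mul]; exact sq _ (by rw [map_mul, hx, hx]; exact tm_sq'.2)))
  let S : Subgroup Γ :=
    { carrier := {g | ρ g * A * (ρ g)ᵀ = A}
      one_mem' := by simp
      mul_mem' := fun {a b} ha hb => by
        simp only [Set.mem_ofPred_eq, map_mul, transpose_mul] at *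
        rw [show ρ a * ρ b * A * ((ρ b)ᵀ * (ρ a)ᵀ) = ρ a * (ρ b * A * (ρ b)ᵀ) * (ρ a)ᵀ by noncomm_ring, hb, ha]
      inv_mem' := fun {a} ha => by
        simp only [Set.mem_ofPred_eq] at *
        conv_lhs => rw [← ha]
        rw [show ρ a⁻¹ * (ρ a * A * (ρ a)ᵀ) * (ρ a⁻¹)ᵀ = (ρ a⁻¹ * ρ a) * A * (ρ a⁻¹ * ρ a)ᵀ by
          rw [transpose_mul]; noncomm_ring, inv_mul_rho]
        simp }
  refine ⟨ph.comp ψ, A, fun i j hij => ?_, fun g => ph_few _, A0, hA, fun g hg => ?_⟩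
  · obtain ⟨g, hg⟩ := ph_tr i j hij
    obtain ⟨k, rfl⟩ := hψ g
    exact ⟨k, hg⟩
  · obtain ⟨k, hk, ek⟩ := mem_stab (S.map ψ) (fun k hk => ⟨x k, fx _ (by fin_cases k <;> simp at hk ⊢), hx k⟩) hg
    obtain ⟨z, hz, rfl⟩ := h.exists_ker_of_eq (ε.injective ek).symm
    obtain ⟨c, hc⟩ := (h.ker z).1 hz
    have c2 : c * c = 1 := smul_one_inj (by
      have := congrArg ρ (s.ker z hz)
      rwa [map_mul, hc, smul_mul_smul_comm, mul_one, map_one, ← one_smul K (1 : M4 K), smul_smul, mul_one] at this)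
    refine S.mul_mem (?_ : ρ z * A * (ρ z)ᵀ = A) hk
    simp [hc, smul_smul, c2]

end Cfsg.Agent.D4
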