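import Cfsg.Agent.D4.L27c0
import Cfsg.Agent.D4.L27b

/-!
The group `L₂(7)` is not maximal: the seven alternating forms which it permutes form a simplex, and a three-cycle on the
vertices is induced by a product of two reflections.
-/

set_option autoImplicit false

open Matrix
open scoped MatrixGroups

namespace Cfsg.Agent.D4

open Cfsg.Geo

namespace L27c

section
variable {K : Type*} [Field K] {Γ X : Type*} [Group Γ] [Group X] {ρ : Γ →* M4 K} {π : Γ →* X}
  {φ : Γ →* Equiv.Perm (Fin 7)} {w : Fin 7 → M4 K} {b : K}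

/-- the simplex -/
structure Sx (ρ : Γ →* M4 K) (φ : Γ →* Equiv.Perm (Fin 7)) (w : Fin 7 → M4 K) (b : K) : Prop where
  isA : ∀ i, IsA (w i)
  act : ∀ g i, ρ g * w i * (ρ g)ᵀ = w (φ g i)
  gram : ∀ i j, be (w i) (w j) = if i = j then -6 * b else b
  ne : b ≠ 0

theorem nofix (h : Hyp ρ π) {g0 : Γ} (h0 : (ρ g0⁻¹).trace ≠ (ρ g0).trace) {T : M4 K}
    (hT : ∀ g, ρ g * T * (ρ g)ᵀ = T) : T = 0 := by
  have key : ∀ g, ρ g * T = T * (ρ g⁻¹)ᵀ := fun g => by
    conv_rhs => rw [← hT g, mul_assoc, ← transpose_mul, inv_mul_rho, transpose_one, mul_one]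
  rcases h.irr (LinearMap.range T.mulVecLin) (by
    rintro g _ ⟨x, rfl⟩
    exact ⟨(ρ g⁻¹)ᵀ *ᵥ x, by rw [mulVecLin_apply, mulVecLin_apply, mulVec_mulVec, mulVec_mulVec, key]⟩) with e | e
  · exact ext_iff_mulVec.2 fun v => by
      rw [zero_mulVec]; exact LinearMap.congr_fun (LinearMap.range_eq_bot.1 e) v
  · obtain ⟨T', hT'⟩ := (mulVec_surjective_iff_isUnit.1 (LinearMap.range_eq_top.1 e)).exists_right_inv
    refine (h0 ?_).elim
    rw [← mul_one (ρ g0), ← hT', ← mul_assoc, key, trace_mul_cycle, mul_eq_one_comm.1 hT', one_mul, trace_transpose]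

theorem exists_sx [Finite Γ] (h : Hyp ρ π) (e : IsL2 X 7) (s : Sq7 ρ π) {A : M4 K} (sp : Spx ρ φ A) :
    ∃ w b, Sx ρ φ w b ∧ ∀ i, ∃ g, w i = ρ g * A * (ρ g)ᵀ := by
  obtain ⟨g0, h0⟩ : ∃ g0, (ρ g0⁻¹).trace ≠ (ρ g0).trace := by
    obtain ⟨F, _, _, hF, ⟨e1⟩⟩ := e
    obtain ⟨e2⟩ := H14.L27.equiv hF
    have := h.finiteX
    have : Fact (Nat.Prime 7) := ⟨by norm_num⟩
    obtain ⟨x, hx⟩ := exists_prime_orderOf_dvd_card' (G := X) 7 (by
      rw [(Nat.card_congr (e1.trans e2).toEquiv).trans H14.L27.card]; norm_num)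
    obtain ⟨g, rfl, g7⟩ := h.exists_lift (x := x) (n := 7) (by norm_num) (hx ▸ pow_orderOf_eq_one x)
    exact ⟨g, s.sev g g7 (by rintro rfl; simp at hx)⟩
  have hA := isA_of s.two sp.alt
  have am : ∀ (g k : Γ) (B : M4 K), ρ (g * k) * B * (ρ (g * k))ᵀ = ρ g * (ρ k * B * (ρ k)ᵀ) * (ρ g)ᵀ :=
    fun g k B => by rw [map_mul, transpose_mul]; noncomm_ring
  choose g hg using fun i : Fin 7 => (let ⟨j, hj⟩ := exists_ne i; let ⟨g, hg⟩ := sp.tr i j hj.symm; ⟨g, hg.1⟩ :
    ∃ g, φ g 0 = i)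
  let w : Fin 7 → M4 K := fun i => ρ (g i) * A * (ρ (g i))ᵀ
  have isA : ∀ i, IsA (w i) := fun i => hA.act _
  have act : ∀ k i, ρ k * w i * (ρ k)ᵀ = w (φ k i) := fun k i => by
    have := sp.fix ((g (φ k i))⁻¹ * (k * g i)) (by
      rw [map_mul, map_mul, map_inv, Equiv.Perm.mul_apply, Equiv.Perm.mul_apply, hg, Equiv.Perm.inv_eq_iff_eq, hg])
    rw [← am, ← mul_inv_cancel_left (g (φ k i)) (k * g i), am, this]
  have inv : ∀ k i j, be (w (φ k i)) (w (φ k j)) = be (w i) (w j) := fun k i j => by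
    rw [← act, ← act, (isA i).be_act (isA j) (h.det k) (mul_inv_rho ρ k)]
  have g1 : ∀ i, be (w i) (w i) = be (w 0) (w 0) := fun i => by rw [← inv (g i) 0 0, hg]
  have g2 : ∀ i j, i ≠ j → be (w i) (w j) = be (w 0) (w 1) := fun i j hij => by
    obtain ⟨k, rfl, rfl⟩ := sp.tr i j hij
    exact inv k 0 1
  have sum : ∑ i, w i = 0 := nofix h h0 fun k => by
    rw [Finset.mul_sum, Finset.sum_mul, Finset.sum_congr rfl fun i _ => act k i, Equiv.sum_comp (φ k) w]
  have ab : be (w 0) (w 0) = -6 * be (w 0) (w 1) := by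
    have := be_zero (w 0)
    rw [← sum, Fin.sum_univ_seven] at this
    simp only [be_add, g2 0 2 (by decide), g2 0 3 (by decide), g2 0 4 (by decide), g2 0 5 (by decide),
      g2 0 6 (by decide)] at this
    linear_combination this
  have gram : ∀ i j, be (w i) (w j) = if i = j then -6 * be (w 0) (w 1) else be (w 0) (w 1) := fun i j => by
    split_ifs with e
    · rw [← e, g1, ab]
    · exact g2 i j e
  refine ⟨w, be (w 0) (w 1), ⟨isA, act, gram, fun b0 => ?_⟩, fun i => ⟨g i, rfl⟩⟩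
  have z : ∀ i j, be (w i) (w j) = 0 := fun i j => by rw [gram, b0]; simp
  have w0 : w 0 ≠ 0 := fun e => sp.ne (by
    have := act (g 0)⁻¹ 0
    rw [e, mul_zero, zero_mul] at this
    rw [← sp.fix _ (hg 0)]; exact e)
  rcases exists_null isA z (fun i => (mul_eq_zero.1 ((be_self _).symm.trans (z i i))).resolve_left s.two)
    (List.finRange 7) with ⟨f, f0, hf⟩ | ⟨v, v0, hv⟩
  · rcases h.dual.irr (⨅ i, LinearMap.ker (w i).mulVecLin) (fun k x hx => by
      simp only [Submodule.mem_iInf, LinearMap.mem_ker, mulVecLin_apply] at hx ⊢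
      intro i
      have : w i * dual ρ k = ρ k * w (φ k⁻¹ i) := by
        rw [← act, ← mul_assoc, ← mul_assoc, mul_inv_rho, one_mul, dual_apply]
      rw [mulVec_mulVec, this, ← mulVec_mulVec, hx, mulVec_zero]) with e | e
    · exact f0 ((Submodule.eq_bot_iff _).1 e f ((Submodule.mem_iInf _).2 fun i => hf i (List.mem_finRange i)))
    · exact w0 (ext_iff_mulVec.2 fun x => by
        rw [zero_mulVec]; exact (Submodule.mem_iInf _).1 (e ▸ Submodule.mem_top (x := x)) 0)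
  · rcases h.irr (⨅ i, LinearMap.ker (hat (w i)).mulVecLin) (fun k x hx => by
      simp only [Submodule.mem_iInf, LinearMap.mem_ker, mulVecLin_apply] at hx ⊢
      intro i
      have : hat (w i) * ρ k = (ρ k⁻¹)ᵀ * hat (w (φ k⁻¹ i)) := by
        have e1 : φ k (φ k⁻¹ i) = i := by simp
        conv_lhs => rw [← e1, ← act, (isA _).hat_act' (h.det k) (mul_inv_rho ρ k), mul_assoc, inv_mul_rho, mul_one]
      rw [mulVec_mulVec, this, ← mulVec_mulVec, hx, mulVec_zero]) with e | e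
    · exact v0 ((Submodule.eq_bot_iff _).1 e v ((Submodule.mem_iInf _).2 fun i => hv i (List.mem_finRange i)))
    · have : hat (w 0) = 0 := ext_iff_mulVec.2 fun x => by
        rw [zero_mulVec]; exact (Submodule.mem_iInf _).1 (e ▸ Submodule.mem_top (x := x)) 0
      refine w0 ?_
      rw [← (isA 0).hat_hat, this, ← zero_smul K (0 : M4 K), hat_smul, zero_smul, zero_smul]

theorem Sx.indep (x : Sx ρ φ w b) (h7 : (7 : K) ≠ 0) {i j : Fin 7} {ε : K} (e : w i = ε • w j) : i = j := by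
  by_contra hij
  obtain ⟨l, h1, h2⟩ := (by decide : ∀ i j : Fin 7, ∃ l, l ≠ i ∧ l ≠ j) i j
  have a1 := congrArg (be (w l)) e
  have a2 := congrArg (be (w i)) e
  rw [be_smul, x.gram, x.gram] at a1 a2
  rw [if_neg h1, if_neg h2] at a1
  rw [if_pos rfl, if_neg hij] at a2
  exact mul_ne_zero h7 x.ne (by linear_combination -a2 + a1)

theorem Sx.quad (x : Sx ρ φ w b) (h2 : (2 : K) ≠ 0) (h7 : (7 : K) ≠ 0) {i j k : Fin 7} {ε ε' : K}
    (h' : ε' = 1 ∨ ε' = -1) (h : ε = 1 ∨ ε = -1) (e : ε' • w k + w i = (2 : K) • ε • w j) : ε • w j = w i := by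
  obtain ⟨l, h1, h3, h4⟩ := (by decide : ∀ i j k : Fin 7, ∃ l, l ≠ i ∧ l ≠ j ∧ l ≠ k) i j k
  have a1 := congrArg (be (w l)) e
  have a2 := congrArg (be (w i)) e
  simp only [be_add, be_smul, x.gram] at a1 a2
  rw [if_neg h1, if_neg h3, if_neg h4] at a1
  have a3 : ε' + 1 = 2 * ε := mul_right_cancel₀ x.ne (by linear_combination a1)
  have e1 : ε' = 1 := h'.resolve_right fun e' => by
    rcases h with e'' | e''
    · exact h2 (by linear_combination e' - a3 - 2 * e'')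
    · exact h2 (by linear_combination a3 - e' + 2 * e'')
  have e2 : ε = 1 := mul_left_cancel₀ h2 (by linear_combination e1 - a3)
  subst e1 e2
  by_cases hij : i = j
  · rw [hij, one_smul]
  rw [if_neg hij, if_pos trivial] at a2
  split_ifs at a2
  · exact (mul_ne_zero h2 (mul_ne_zero h7 x.ne) (by linear_combination -a2)).elim
  · exact (mul_ne_zero h7 x.ne (by linear_combination -a2)).elim

theorem Sx.pf (x : Sx ρ φ w b) (h2 : (2 : K) ≠ 0) {i j : Fin 7} (hij : i ≠ j) : pf (w i - w j) = -7 * b :=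
  mul_left_cancel₀ h2 (by
    rw [← be_self]
    simp only [be_sub, be_sub', x.gram, if_neg hij, if_neg hij.symm, if_true]
    ring)

/-- the three-cycle -/
def cyc (w : Fin 7 → M4 K) (b : K) : M4 K := (-7 * b)⁻¹ • ((w 0 - w 1) * hat (w 1 - w 2))

theorem Sx.c_ne (x : Sx ρ φ w b) (h7 : (7 : K) ≠ 0) : -7 * b ≠ 0 := mul_ne_zero (neg_ne_zero.2 h7) x.ne

theorem Sx.det_cyc (x : Sx ρ φ w b) (h2 : (2 : K) ≠ 0) (h7 : (7 : K) ≠ 0) : (cyc w b).det = 1 :=
  det_rot ((x.isA 0).sub (x.isA 1)) (x.c_ne h7) (x.pf h2 (by decide)) (x.pf h2 (by decide))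

theorem Sx.cyc_act (x : Sx ρ φ w b) (h2 : (2 : K) ≠ 0) (h7 : (7 : K) ≠ 0) (i : Fin 7) :
    cyc w b * w i * (cyc w b)ᵀ = w (![1, 2, 0, 3, 4, 5, 6] i) := by
  have c0 := x.c_ne h7
  have b0 := x.ne
  rw [cyc, rot ((x.isA 0).sub (x.isA 1)) ((x.isA 1).sub (x.isA 2)) (x.isA i) c0 (x.pf h2 (by decide))
    (x.pf h2 (by decide)) (by simp [be_sub, be_sub', x.gram]; ring)]
  simp only [be_sub, x.gram]
  fin_cases i <;> simp <;> match_scalars <;> field_simp <;> ring

end

variable {F : Type*} [Field F] [Fintype F] {H P S : Subgroup (GL (Fin 4) F)} {φ : P →* Equiv.Perm (Fin 7)}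
  {w : Fin 7 → M4 F} {b : F}

theorem not_max (h : IsResidualCore H P) (e : IsL2 (P ⧸ (scalars (Fin 4) F).subgroupOf P) 7)
    (s : Sq7 (rhoC P) (piC P)) (x : Sx (rhoC P) φ w b) (few : ∀ g, (∀ i, 3 ≤ i → φ g i = i) → φ g = 1)
    (hS : S ≤ specialLinear (Fin 4) F) (hc : ∃ g ∈ S, g.val = cyc w b)
    (hT : ∀ m k : Fin 4, m ≠ k → ∀ A : M4 F, (∀ u ∈ S, ∀ v f : V4 F, f ⬝ᵥ v = 0 → u.val = 1 + vecMulVec v f →
      v m = 0 → ∀ l, (A *ᵥ f) m * v l = 0) → A m k = 0) : ¬ IsMaximalIn S H := by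
  rintro ⟨hlt, hmax⟩
  have hy := hyp_of_coreC h
  let M : Submonoid (GL (Fin 4) F) :=
    { carrier := {g | ∀ i, ∃ j, ∃ ε : F, (ε = 1 ∨ ε = -1) ∧ g.val * w i * g.valᵀ = ε • w j}
      one_mem' := fun i => ⟨i, 1, Or.inl rfl, by simp⟩
      mul_mem' := fun {g k} hg hk i => by
        obtain ⟨j, ε, hε, e1⟩ := hk i
        obtain ⟨l, δ, hδ, e2⟩ := hg j
        refine ⟨l, ε * δ, by rcases hε with rfl | rfl <;> rcases hδ with rfl | rfl <;> simp, ?_⟩
        rw [Units.val_mul, transpose_mul, show g.val * k.val * w i * (k.valᵀ * g.valᵀ) =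
          g.val * (k.val * w i * k.valᵀ) * g.valᵀ by noncomm_ring, e1, mul_smul_comm, smul_mul_assoc, e2, smul_smul] }
  let St : Subgroup (GL (Fin 4) F) :=
    { M with
      inv_mem' := fun {g} hg => by
        obtain ⟨n, hn⟩ := mem_powers_iff_mem_zpowers.2 (inv_mem (Subgroup.mem_zpowers g))
        exact hn ▸ M.pow_mem hg n }
  have nf : ∀ g ∈ H, ∃ (y : P) (ε : F), (ε = 1 ∨ ε = -1) ∧ ∀ i, g.val * w i * g.valᵀ = ε • w (φ y i) := fun g hg => by
    obtain ⟨y, hy', c, ec⟩ := l27_norm h e s hg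
    have d := H99.mem_sl.1 (hS (hlt.le hg))
    rw [ec, det_smul, show (y : M4 F).det = 1 from hy.det ⟨y, hy'⟩, Fintype.card_fin, mul_one] at d
    refine ⟨⟨y, hy'⟩, c * c, mul_self_eq_one_iff.1 (by linear_combination d), fun i => ?_⟩
    rw [ec, transpose_smul, smul_mul_assoc, smul_mul_smul_comm, ← x.act]
    rfl
  obtain ⟨g, gS, eg⟩ := hc
  have gSt : g ∈ St := fun i => ⟨_, 1, Or.inl rfl, by rw [eg, x.cyc_act s.two s.seven, one_smul]⟩
  rcases hmax (St ⊓ S) (le_inf (fun g hg i => let ⟨_, ε, h1, h2⟩ := nf g hg; ⟨_, ε, h1, h2 i⟩) hlt.le) inf_le_right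
    with e1 | e1
  · obtain ⟨y, ε, -, e2⟩ := nf g (e1 ▸ ⟨gSt, gS⟩)
    have e3 := fun i => x.indep s.seven ((eg ▸ x.cyc_act s.two s.seven i).symm.trans (e2 i))
    have := e3 0
    rw [few y fun i hi => (e3 i).symm.trans (by revert i; decide)] at this
    exact absurd this (by decide)
  · have fx : ∀ u ∈ S, ∀ v f : V4 F, f ⬝ᵥ v = 0 → u.val = 1 + vecMulVec v f → u.val * w 0 * u.valᵀ = w 0 :=
      fun u hu v f hf eu => by
        have uS : u ∈ St := (e1.ge hu).1
        obtain ⟨j, ε, hε, e2⟩ := uS 0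
        obtain ⟨k, δ, hδ, e3⟩ := uS j
        have := tv_quad (x.isA 0) hf
        rw [← eu, e2, mul_smul_comm, smul_mul_assoc, e3, smul_smul] at this
        rw [e2]
        exact x.quad s.two s.seven (by rcases hε with rfl | rfl <;> rcases hδ with rfl | rfl <;> simp) hε this
    have z : ∀ m k, m ≠ k → w 0 m k = 0 := fun m k hmk =>
      hT m k hmk _ fun u hu v f hf eu hm => tv_fix (eu ▸ fx u hu v f hf eu) hm
    have := x.gram 0 1
    simp [be, z] at this
    exact x.ne this.symm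

end L27c

open L27c

variable {F : Type*} [Field F] [Fintype F] {H P : Subgroup (GL (Fin 4) F)}

theorem l27_sl (h : IsResidualCore H P) (e : IsL2 (P ⧸ (scalars (Fin 4) F).subgroupOf P) 7)
    (s : Sq7 (rhoC P) (piC P)) : ¬ IsMaximalIn (specialLinear (Fin 4) F) H := by
  have hy := hyp_of_coreC h
  obtain ⟨φ, A, sp⟩ := hy.exists_spx e s
  obtain ⟨w, b, x, -⟩ := exists_sx hy e s sp
  have mk : ∀ M : M4 F, M.det = 1 → ∃ g ∈ specialLinear (Fin 4) F, g.val = M := fun M hM =>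
    ⟨GeneralLinearGroup.mkOfDetNeZero M (by rw [hM]; exact one_ne_zero), H99.mem_sl.2 hM, rfl⟩
  refine not_max h e s x sp.few le_rfl (mk _ (x.det_cyc s.two s.seven)) fun m k hmk A hA => ?_
  obtain ⟨l, h1, h2⟩ := (by decide : ∀ m k : Fin 4, ∃ l, m ≠ l ∧ k ≠ l) m k
  have d : (Pi.single k 1 : V4 F) ⬝ᵥ Pi.single l 1 = 0 := by simp [h2]
  obtain ⟨u, hu, eu⟩ := mk (1 + vecMulVec (Pi.single l 1) (Pi.single k 1)) (by rw [det_one_add_vv, d, add_zero])
  simpa using hA u hu _ _ d eu (by simp [h1]) l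

theorem l27_su {q : ℕ} (hF : Fintype.card F = q ^ 2) (h : IsResidualCore H P)
    (e : IsL2 (P ⧸ (scalars (Fin 4) F).subgroupOf P) 7) (s : Sq7 (rhoC P) (piC P)) :
    ¬ IsMaximalIn (GU 4 F q ⊓ specialLinear (Fin 4) F) H := by
  intro hm
  have : Fact (Fintype.card F = q ^ 2) := ⟨hF⟩
  have hy := hyp_of_coreC h
  let σ := H10.cj F q
  have mm : ∀ B : M4 F, (B.map σ).map σ = B := fun B => by ext; simp [σ, H10.cj_cj]
  have star : ∀ (g : P) (B : M4 F), IsA B →
      (hat (rhoC P g * B * (rhoC P g)ᵀ)).map σ = rhoC P g * (hat B).map σ * (rhoC P g)ᵀ := fun g B hB => by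
    have u : (rhoC P g)ᵀ * (rhoC P g).map σ = 1 := (H10.isIsom_iff _).1 (hm.1.le (h.le g.2)).1
    have u' : rhoC P g * ((rhoC P g).map σ)ᵀ = 1 := by
      simpa using congrArg transpose (mul_eq_one_comm.1 u)
    rw [hB.hat_act' (hy.det g) u', Matrix.map_mul, Matrix.map_mul, transpose_transpose, mm, ← transpose_map, mm]
  obtain ⟨φ, A, sp, sA⟩ : ∃ φ A, Spx (rhoC P) φ A ∧ (hat A).map σ = A := by
    obtain ⟨φ, A, sp⟩ := hy.exists_spx e s
    have hA := isA_of s.two sp.alt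
    by_cases e0 : A + (hat A).map σ = 0
    · obtain ⟨θ, θ0, hθ⟩ := H10.exists_skew (F := F) (q := q)
      refine ⟨φ, θ • A, ⟨sp.tr, sp.few, smul_ne_zero θ0 sp.ne, by rw [transpose_smul, sp.alt, smul_neg],
        fun g hg => by rw [mul_smul_comm, smul_mul_assoc, sp.fix g hg]⟩, ?_⟩
      rw [hat_smul, Matrix.map_smul' _ _ _ (map_mul σ), eq_neg_of_add_eq_zero_right e0, hθ, smul_neg, neg_smul, neg_neg]
    · refine ⟨φ, A + (hat A).map σ, ⟨sp.tr, sp.few, e0, ?_, fun g hg => ?_⟩, ?_⟩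
      · rw [transpose_add, sp.alt, ((isA_hat A).map σ).alt, neg_add]
      · rw [mul_add, add_mul, ← star g A hA, sp.fix g hg]
      · rw [hat_add, hat_map, hA.hat_hat, Matrix.map_add _ (map_add σ), mm, add_comm]
  obtain ⟨w, b, x, hw⟩ := exists_sx hy e s sp
  have sw : ∀ i, (hat (w i)).map σ = w i := fun i => by
    obtain ⟨g, eg⟩ := hw i
    rw [eg, star g A (isA_of s.two sp.alt), sA]
  have sw' : ∀ i j, (hat (w i - w j)).map σ = w i - w j := fun i j => by
    rw [hat_sub, Matrix.map_sub _ (map_sub σ), sw, sw]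
  have mk : ∀ M : M4 F, M.det = 1 → H10.IsIsom q M → ∃ g ∈ GU 4 F q ⊓ specialLinear (Fin 4) F, g.val = M :=
    fun M hM hI => ⟨GeneralLinearGroup.mkOfDetNeZero M (by rw [hM]; exact one_ne_zero), ⟨hI, H99.mem_sl.2 hM⟩, rfl⟩
  refine not_max h e s x sp.few inf_le_right (mk _ (x.det_cyc s.two s.seven) ((H10.isIsom_iff _).2 ?_))
    (fun m k hmk A hA => ?_) hm
  · have a1 := (x.isA 0).sub (x.isA 1)
    have a2 := (x.isA 1).sub (x.isA 2)
    have p1 := x.pf s.two (show (0 : Fin 7) ≠ 1 by decide)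
    have p2 := x.pf s.two (show (1 : Fin 7) ≠ 2 by decide)
    have c0 := x.c_ne s.seven
    have sc : σ (-7 * b) = -7 * b := by rw [← p1, ← pf_hat, ← pf_map, sw', pf_hat]
    have m1 : (w 0 - w 1).map σ = hat (w 0 - w 1) := by
      conv_lhs => rw [← sw' 0 1, mm]
    change (cyc w b)ᵀ * (cyc w b).map σ = 1
    rw [cyc, Matrix.map_smul' _ _ _ (map_mul σ), Matrix.map_mul, sw', m1, map_inv₀, sc, transpose_smul, transpose_mul,
      a1.alt, (isA_hat _).alt, neg_mul_neg, smul_mul_smul_comm, mul_assoc, ← mul_assoc (w 0 - w 1), a1.sq,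
      smul_mul_assoc, one_mul, mul_smul_comm, a2.sq', p1, p2, smul_smul, smul_smul]
    generalize -7 * b = c at c0
    rw [show c⁻¹ * c⁻¹ * -c * -c = 1 by field_simp, one_smul]
  · obtain ⟨l, h1, h2⟩ := (by decide : ∀ m k : Fin 4, ∃ l, m ≠ l ∧ k ≠ l) m k
    obtain ⟨θ, θ0, hθ⟩ := H10.exists_skew (F := F) (q := q)
    have key : ∀ t : F, t * σ t = -1 → A m k + σ t * A m l = 0 := fun t ht => by
      have iso : hermForm 4 F q (Pi.single k 1 + t • Pi.single l 1) (Pi.single k 1 + t • Pi.single l 1) = 0 := by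
        simp only [H10.herm_add_left, H10.herm_add_right, H10.herm_smul_left, H10.herm_smul_right,
          H10.herm_single_single, if_neg h2, if_neg h2.symm, if_true]
        linear_combination ht
      obtain ⟨u, hu, eu⟩ := mk (unitaryTransvection 4 q (Pi.single k 1 + t • Pi.single l 1) θ)
        (by rw [H10.det_ut, iso, mul_zero, add_zero]) (H10.isIsom_ut (by rw [iso, hθ]; ring))
      have := hA u hu (θ • (Pi.single k 1 + t • Pi.single l 1)) (Pi.single k 1 + σ t • Pi.single l 1)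
        (by simp [h2, h2.symm]; linear_combination θ * ht) (by
          rw [eu, unitaryTransvection, smul_vecMulVec]
          congr 3
          ext j
          change σ _ = _
          simp [Pi.single_apply, apply_ite σ]) (by simp [hmk, h1]) k
      simpa [mulVec_add, mulVec_smul, h2, θ0] using this
    obtain ⟨t, ht⟩ := H10.exists_norm_eq (F := F) (q := q) (t := -1) (by simp)
    have k1 := key t ht
    have k2 := key (-t) (by rw [map_neg, neg_mul_neg]; exact ht)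
    rw [map_neg] at k2
    exact (mul_eq_zero.1 (by linear_combination k1 + k2 : 2 * A m k = 0)).resolve_left s.two

end Cfsg.Agent.D4
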