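import Cfsg.Agent.D4.L27a
import Cfsg.Agent.H11.Wedge

/-!
Alternating `4 × 4` matrices: the Pfaffian, its polar form, and the Pfaffian adjoint.
-/

set_option autoImplicit false

open Matrix
open scoped MatrixGroups

namespace Cfsg.Agent.D4.L27c

open L27a

variable {K : Type*} [Field K] {A B C : M4 K}

/-- the polar form of the Pfaffian -/
def be (B C : M4 K) : K :=
  B 0 1 * C 2 3 + B 2 3 * C 0 1 - B 0 2 * C 1 3 - B 1 3 * C 0 2 + B 0 3 * C 1 2 + B 1 2 * C 0 3

theorem be_self (B : M4 K) : be B B = 2 * pf B := by simp only [be, pf]; ring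

theorem be_comm (B C : M4 K) : be B C = be C B := by simp only [be]; ring

theorem be_add (A B C : M4 K) : be A (B + C) = be A B + be A C := by simp only [be, Matrix.add_apply]; ring

theorem be_sub (A B C : M4 K) : be (A - B) C = be A C - be B C := by simp only [be, Matrix.sub_apply]; ring

theorem be_sub' (A B C : M4 K) : be A (B - C) = be A B - be A C := by simp only [be, Matrix.sub_apply]; ring

theorem be_smul (c : K) (A B : M4 K) : be A (c • B) = c * be A B := by simp only [be, Matrix.smul_apply, smul_eq_mul]; ring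

theorem be_zero (A : M4 K) : be A 0 = 0 := by simp [be]

/-- alternating matrices -/
def IsA (B : M4 K) : Prop := ∃ x, B = am x

theorem isA_of (h2 : (2 : K) ≠ 0) (hB : Bᵀ = -B) : IsA B := by
  refine ⟨![B 0 1, B 0 2, B 0 3, B 1 2, B 1 3, B 2 3], ?_⟩
  have a := alt_ent hB
  ext i j
  fin_cases i <;> fin_cases j <;> simp [am_apply, alt_diag h2 hB, a 0 1, a 0 2, a 0 3, a 1 2, a 1 3, a 2 3]

theorem IsA.alt (hB : IsA B) : Bᵀ = -B := by
  obtain ⟨x, rfl⟩ := hB
  exact am_alt x

theorem IsA.sub (hB : IsA B) (hC : IsA C) : IsA (B - C) := by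
  obtain ⟨x, rfl⟩ := hB
  obtain ⟨y, rfl⟩ := hC
  exact ⟨x - y, (map_sub am x y).symm⟩

theorem isA_hat (B : M4 K) : IsA (hat B) := ⟨![B 2 3, -B 1 3, B 1 2, B 0 3, -B 0 2, B 0 1], by
  ext i j
  fin_cases i <;> fin_cases j <;> simp [am_apply, hat]⟩

theorem IsA.hat_hat (hB : IsA B) : hat (hat B) = B := by
  obtain ⟨x, rfl⟩ := hB
  ext i j
  fin_cases i <;> fin_cases j <;> simp [am_apply, hat]

theorem pf_hat (B : M4 K) : pf (hat B) = pf B := by simp [pf, hat]; ring

theorem be_hat (B C : M4 K) : be (hat B) (hat C) = be B C := by simp [be, hat]; ring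

theorem hat_add (B C : M4 K) : hat (B + C) = hat B + hat C := by
  ext i j
  fin_cases i <;> fin_cases j <;> simp [hat, add_comm]

theorem hat_smul (c : K) (B : M4 K) : hat (c • B) = c • hat B := by
  ext i j
  fin_cases i <;> fin_cases j <;> simp [hat]

theorem hat_sub (B C : M4 K) : hat (B - C) = hat B - hat C := by
  rw [sub_eq_add_neg, hat_add, ← neg_one_smul K C, hat_smul, neg_one_smul, sub_eq_add_neg]

theorem hat_map (f : K →+* K) (B : M4 K) : hat (B.map f) = (hat B).map f := by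
  ext i j
  fin_cases i <;> fin_cases j <;> simp [hat]

theorem pf_map (f : K →+* K) (B : M4 K) : pf (B.map f) = f (pf B) := by simp [pf]

theorem IsA.map (hB : IsA B) (f : K →+* K) : IsA (B.map f) := by
  obtain ⟨x, rfl⟩ := hB
  refine ⟨f ∘ x, ?_⟩
  ext i j
  fin_cases i <;> fin_cases j <;> simp [am_apply]

theorem IsA.pol (hB : IsA B) (hC : IsA C) : B * hat C + C * hat B = -be B C • 1 := by
  obtain ⟨x, rfl⟩ := hB
  obtain ⟨y, rfl⟩ := hC
  ext i j
  fin_cases i <;> fin_cases j <;> simp [am_apply, hat, be] <;> ring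

theorem IsA.pol' (hB : IsA B) (hC : IsA C) : hat B * C + hat C * B = -be B C • 1 := by
  have := (isA_hat B).pol (isA_hat C)
  rwa [hB.hat_hat, hC.hat_hat, be_hat] at this

theorem IsA.sq (hB : IsA B) : B * hat B = -pf B • 1 := by
  obtain ⟨x, rfl⟩ := hB
  ext i j
  fin_cases i <;> fin_cases j <;> simp [am_apply, hat, pf, mul_apply, Fin.sum_univ_four] <;> ring

theorem IsA.sq' (hB : IsA B) : hat B * B = -pf B • 1 := by
  have := (isA_hat B).sq
  rwa [hB.hat_hat, pf_hat] at this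

theorem IsA.det (hB : IsA B) : B.det = pf B ^ 2 := by
  obtain ⟨x, rfl⟩ := hB
  simp [H11.det_four, am_apply, pf]
  ring

theorem hat_alt4 (x : V6 K) : hat (H11.alt4 x) = H11.alt4 (H11.hodge x) := by
  ext i j
  fin_cases i <;> fin_cases j <;> simp [hat, H11.alt4, H11.hodge]

theorem IsA.hat_act (hB : IsA B) (g : M4 K) : gᵀ * hat (g * B * gᵀ) * g = g.det • hat B := by
  obtain ⟨x, rfl⟩ := hB
  have e := H11.alt4_wedge gᵀ (H11.hodge (H11.wedge g x))
  rw [transpose_transpose, H11.wedge_transpose_hodge] at e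
  change gᵀ * hat (g * H11.alt4 x * gᵀ) * g = g.det • hat (H11.alt4 x)
  rw [← H11.alt4_wedge, hat_alt4, hat_alt4, ← e]
  exact map_smul am _ _

theorem IsA.act (hB : IsA B) (g : M4 K) : IsA (g * B * gᵀ) := by
  obtain ⟨x, rfl⟩ := hB
  exact ⟨H11.wedge g x, (H11.alt4_wedge g x).symm⟩

theorem IsA.hat_act' (hB : IsA B) {g g' : M4 K} (hg : g.det = 1) (e : g * g' = 1) :
    hat (g * B * gᵀ) = g'ᵀ * hat B * g' := by
  have := congrArg (fun M => g'ᵀ * M * g') (hB.hat_act g)
  simp only [hg, one_smul, mul_assoc, e, mul_one] at this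
  rwa [← mul_assoc g'ᵀ, ← transpose_mul, e, transpose_one, one_mul, ← mul_assoc, ← mul_assoc] at this

theorem IsA.be_act (hB : IsA B) (hC : IsA C) {g g' : M4 K} (hg : g.det = 1) (e : g * g' = 1) :
    be (g * B * gᵀ) (g * C * gᵀ) = be B C := by
  have h1 := (hB.act g).pol (hC.act g)
  have t : gᵀ * g'ᵀ = 1 := by rw [← transpose_mul, mul_eq_one_comm.1 e, transpose_one]
  rw [hB.hat_act' hg e, hC.hat_act' hg e, show g * B * gᵀ * (g'ᵀ * hat C * g') + g * C * gᵀ * (g'ᵀ * hat B * g') =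
    g * (B * (gᵀ * g'ᵀ) * hat C + C * (gᵀ * g'ᵀ) * hat B) * g' by noncomm_ring, t, mul_one, mul_one, hB.pol hC,
    mul_smul_comm, smul_mul_assoc, mul_one, e] at h1
  exact neg_inj.1 (smul_one_inj h1).symm

/-- reflections -/
theorem IsA.refl (hA : IsA A) (hB : IsA B) : A * hat B * A = pf A • B - be A B • A := by
  rw [eq_sub_of_add_eq (hA.pol hB), sub_mul, mul_assoc, hA.sq']
  simp only [neg_smul, neg_mul, smul_mul_assoc, one_mul, mul_neg, mul_smul_comm, mul_one]
  abel

theorem IsA.refl' (hB : IsA B) (A : M4 K) : hat A * B * hat A = pf A • hat B - be A B • hat A := by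
  have := (isA_hat A).refl (isA_hat B)
  rwa [hB.hat_hat, pf_hat, be_hat] at this

/-- the product of two reflections -/
theorem rot (hA : IsA A) (hC : IsA C) (hB : IsA B) {c : K} (hc : c ≠ 0) (e1 : pf A = c) (e2 : pf C = c)
    (e3 : be A C = -c) : (c⁻¹ • (A * hat C)) * B * (c⁻¹ • (A * hat C))ᵀ =
      B - (c⁻¹ * (be A B + be C B)) • A - (c⁻¹ * be C B) • C := by
  rw [transpose_smul, transpose_mul, (isA_hat C).alt, hA.alt, neg_mul_neg, smul_mul_assoc, smul_mul_smul_comm,
    show A * hat C * B * (hat C * A) = A * (hat C * B * hat C) * A by noncomm_ring, hB.refl' C, mul_sub, sub_mul,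
    mul_smul_comm, mul_smul_comm, smul_mul_assoc, smul_mul_assoc, hA.refl hB, hA.refl hC, e1, e2, e3]
  match_scalars <;> field_simp
  ring

theorem det_rot (hA : IsA A) {c : K} (hc : c ≠ 0) (e1 : pf A = c) (e2 : pf C = c) :
    (c⁻¹ • (A * hat C)).det = 1 := by
  rw [det_smul, det_mul, hA.det, (isA_hat C).det, pf_hat, e1, e2, Fintype.card_fin]
  field_simp

/-- a transvection acts quadratically -/
theorem tv_quad (hB : IsA B) {v f : V4 K} (h : f ⬝ᵥ v = 0) :
    (1 + vecMulVec v f) * ((1 + vecMulVec v f) * B * (1 + vecMulVec v f)ᵀ) * (1 + vecMulVec v f)ᵀ + B =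
      (2 : K) • ((1 + vecMulVec v f) * B * (1 + vecMulVec v f)ᵀ) := by
  have n2 : vecMulVec v f * vecMulVec v f = 0 := by rw [vv_mul, h, zero_smul]
  have n3 : vecMulVec v f * B * (vecMulVec v f)ᵀ = 0 := by
    obtain ⟨x, rfl⟩ := hB
    ext i j
    simp [am_apply, mul_apply, vecMulVec_apply, Fin.sum_univ_four]
    ring
  have n4 : (vecMulVec v f)ᵀ * (vecMulVec v f)ᵀ = 0 := by rw [← transpose_mul, n2, transpose_zero]
  rw [transpose_add, transpose_one, two_smul]
  generalize vecMulVec v f = N at *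
  generalize Nᵀ = N' at *
  have e1 : (1 + N) * B * (1 + N') = B + N * B + B * N' := by
    rw [show (1 + N) * B * (1 + N') = B + N * B + B * N' + N * B * N' by noncomm_ring, n3, add_zero]
  rw [e1, show (1 + N) * (B + N * B + B * N') * (1 + N') = (1 + N) * B * (1 + N') + N * B + B * N' + (N * N) * B +
    (1 + N) * (N * B * N') + N * B * N' * (1 + N') + B * (N' * N') by noncomm_ring, e1, n2, n3, n4]
  noncomm_ring

theorem tv_fix {v f : V4 K} (e : (1 + vecMulVec v f) * B * (1 + vecMulVec v f)ᵀ = B) {m : Fin 4} (hm : v m = 0)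
    (k : Fin 4) : (B *ᵥ f) m * v k = 0 := by
  have := congrFun (congrFun e m) k
  rw [transpose_add, transpose_one, mul_add, mul_one, add_mul, one_mul, add_mul] at this
  simp only [Matrix.add_apply, mul_apply, vecMulVec_apply, hm, zero_mul, Finset.sum_const_zero, add_zero, transpose_apply,
    add_eq_left] at this
  rw [← this, mulVec, dotProduct, Finset.sum_mul]
  exact Finset.sum_congr rfl fun _ _ => by ring

/-- a totally singular family has a common null vector -/
theorem exists_null {ι : Type*} {w : ι → M4 K} (hw : ∀ i, IsA (w i)) (h0 : ∀ i j, be (w i) (w j) = 0)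
    (h1 : ∀ i, pf (w i) = 0) (l : List ι) :
    (∃ f : V4 K, f ≠ 0 ∧ ∀ i ∈ l, w i *ᵥ f = 0) ∨ ∃ v : V4 K, v ≠ 0 ∧ ∀ i ∈ l, hat (w i) *ᵥ v = 0 := by
  induction l with
  | nil => exact Or.inl ⟨fun _ => 1, fun e => one_ne_zero (congrFun e 0), by simp⟩
  | cons k l ih =>
    rcases ih with ⟨f, f0, hf⟩ | ⟨v, v0, hv⟩
    · by_cases e : w k *ᵥ f = 0
      · exact Or.inl ⟨f, f0, List.forall_mem_cons.2 ⟨e, hf⟩⟩
      · refine Or.inr ⟨_, e, List.forall_mem_cons.2 ⟨?_, fun i hi => ?_⟩⟩
        · rw [mulVec_mulVec, (hw k).sq', h1]; simp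
        · rw [mulVec_mulVec, eq_sub_of_add_eq ((hw i).pol' (hw k)), h0, sub_mulVec, ← mulVec_mulVec, hf i hi]; simp
    · by_cases e : hat (w k) *ᵥ v = 0
      · exact Or.inr ⟨v, v0, List.forall_mem_cons.2 ⟨e, hv⟩⟩
      · refine Or.inl ⟨_, e, List.forall_mem_cons.2 ⟨?_, fun i hi => ?_⟩⟩
        · rw [mulVec_mulVec, (hw k).sq, h1]; simp
        · rw [mulVec_mulVec, eq_sub_of_add_eq ((hw i).pol (hw k)), h0, sub_mulVec, ← mulVec_mulVec, hv i hi]; simp

end Cfsg.Agent.D4.L27c
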