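import Cfsg.Agent.DIM5.Defs
import Cfsg.Agent.H90.SL2Ring
import Cfsg.Agent.S0801

/-!
Subgroups of `SL₂(R)` in characteristic three with abelian Sylow `3`-subgroups.
-/

set_option autoImplicit false

open Matrix

namespace Cfsg.Agent.D4.LQ

open H90 (ru rl r_ext r_mul r_inv r_det ru_coe rl_coe ent00 ent01 ent10 ent11 ru_neg rl_neg rl_add ru_add rl_zero
  ru_zero)

local notation "SL2" => Matrix.SpecialLinearGroup (Fin 2)

section Words
variable {R : Type*} [CommRing R]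

theorem word1 (h3 : (3 : R) = 0) {v : R} (hr : 1 - 2 * v + v ^ 2 = 0) :
    ru 1 * rl (-v) * ru 1 * rl v * ru 1 * rl v * ru 1 * rl (-v) * ru 1 = rl (1 : R) := by
  apply r_ext <;> simp only [r_mul, ru_coe, rl_coe, ent00, ent01, ent10, ent11]
  · linear_combination ((3) * v ^ 1 + (1) * v ^ 2) * hr + ((-1) * v ^ 1) * h3
  · linear_combination ((-4) * v ^ 0 + (2) * v ^ 1 + (1) * v ^ 2) * hr + ((3) * v ^ 0 + (-2) * v ^ 1) * h3
  · linear_combination ((5) * v ^ 0 + (4) * v ^ 1 + (1) * v ^ 2) * hr + ((-2) * v ^ 0 + (2) * v ^ 1) * h3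
  · linear_combination ((3) * v ^ 1 + (1) * v ^ 2) * hr + ((-1) * v ^ 1) * h3

theorem word2 (h3 : (3 : R) = 0) {v : R} (hr : -1 + v ^ 2 = 0) :
    ru 1 * rl v * ru 1 * rl v * ru 1 * rl (-v) * ru 1 * rl (-v) * ru 1 = rl (1 : R) := by
  apply r_ext <;> simp only [r_mul, ru_coe, rl_coe, ent00, ent01, ent10, ent11]
  · linear_combination ((-6) * v ^ 0 + (1) * v ^ 1 + (1) * v ^ 2) * hr + ((-2) * v ^ 0 + (-1) * v ^ 1) * h3
  · linear_combination ((-8) * v ^ 0 + (1) * v ^ 2) * hr + ((-1) * v ^ 0) * h3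
  · linear_combination ((-5) * v ^ 0 + (1) * v ^ 2) * hr + ((-2) * v ^ 0) * h3
  · linear_combination ((-6) * v ^ 0 + (-1) * v ^ 1 + (1) * v ^ 2) * hr + ((-2) * v ^ 0 + (1) * v ^ 1) * h3

theorem word3 (h3 : (3 : R) = 0) {v : R} (hr : -1 + v - v ^ 2 + v ^ 3 = 0) :
    ru 1 * rl v * ru 1 * rl (-v) * ru 1 * rl v * ru (-1) * rl v * ru 1 * rl (-v) * ru 1 * rl v * ru 1 =
      rl (2 + 2 * v + 2 * v ^ 2 : R) := by
  apply r_ext <;> simp only [r_mul, ru_coe, rl_coe, ent00, ent01, ent10, ent11]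
  · linear_combination ((-3) * v ^ 0 + (4) * v ^ 1 + (-1) * v ^ 3) * hr +
      ((-1) * v ^ 0 + (4) * v ^ 1 + (-3) * v ^ 2) * h3
  · linear_combination ((1) * v ^ 0 + (5) * v ^ 1 + (-1) * v ^ 2 + (-1) * v ^ 3) * hr +
      ((2) * v ^ 0 + (4) * v ^ 1 + (-5) * v ^ 2) * h3
  · linear_combination ((-4) * v ^ 0 + (2) * v ^ 1 + (1) * v ^ 2 + (-1) * v ^ 3) * hr +
      ((-2) * v ^ 0 + (2) * v ^ 1 + (-2) * v ^ 2) * h3
  · linear_combination ((-3) * v ^ 0 + (4) * v ^ 1 + (-1) * v ^ 3) * hr +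
      ((-1) * v ^ 0 + (4) * v ^ 1 + (-3) * v ^ 2) * h3

theorem map_ru {S : Type*} [CommRing S] (f : R →+* S) (t : R) :
    Matrix.SpecialLinearGroup.map f (ru t) = ru (f t) := by
  apply Subtype.ext; ext i j; fin_cases i <;> fin_cases j <;> simp

theorem map_rl {S : Type*} [CommRing S] (f : R →+* S) (t : R) :
    Matrix.SpecialLinearGroup.map f (rl t) = rl (f t) := by
  apply Subtype.ext; ext i j; fin_cases i <;> fin_cases j <;> simp

theorem rl_pow (t : R) (n : ℕ) : rl t ^ n = rl (n * t) := by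
  induction n with
  | zero => simp [rl_zero]
  | succ n ih => rw [pow_succ, ih, ← rl_add]; congr 1; push_cast; ring

theorem ru_pow (t : R) (n : ℕ) : ru t ^ n = ru (n * t) := by
  induction n with
  | zero => simp [ru_zero]
  | succ n ih => rw [pow_succ, ih, ← ru_add]; congr 1; push_cast; ring

/-- matrices with entries in a subring -/
def ent (S : Subring R) : Subgroup (SL2 R) where
  carrier := {g | ∀ i j, g.1 i j ∈ S}
  one_mem' i j := by
    change (1 : Matrix (Fin 2) (Fin 2) R) i j ∈ S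
    rw [one_apply]; split_ifs
    exacts [S.one_mem, S.zero_mem]
  mul_mem' {a b} ha hb i j := by
    rw [r_mul]; exact S.add_mem (S.mul_mem (ha _ _) (hb _ _)) (S.mul_mem (ha _ _) (hb _ _))
  inv_mem' {a} ha i j := by
    rw [r_inv]
    fin_cases i <;> fin_cases j
    exacts [ha 1 1, S.neg_mem (ha 0 1), S.neg_mem (ha 1 0), ha 0 0]

/-- the lower unitriangular group -/
def low (R : Type*) [CommRing R] : Subgroup (SL2 R) where
  carrier := {g | ∃ t, g = rl t}
  one_mem' := ⟨0, rl_zero.symm⟩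
  mul_mem' := by
    rintro _ _ ⟨s, rfl⟩ ⟨t, rfl⟩
    exact ⟨s + t, (rl_add s t).symm⟩
  inv_mem' := by
    rintro _ ⟨s, rfl⟩
    exact ⟨-s, (rl_neg s).symm⟩

end Words

theorem lift_syl {G G' : Type*} [Group G] [Group G'] [Finite G] (f : G →* G') (hp : ∀ g, f g ^ 3 = 1) {y : G}
    (hy : y ^ 3 = 1) (h : G) : ∃ Q : Subgroup G, IsPGroup 3 Q ∧ y ∈ Q ∧ ∃ q ∈ Q, f q = f h := by
  haveI : Fact (Nat.Prime 3) := ⟨by norm_num⟩
  have h1 : IsPGroup 3 (Subgroup.zpowers y) := by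
    rintro ⟨_, k, rfl⟩
    refine ⟨1, Subtype.ext ?_⟩
    change (y ^ k) ^ (3 ^ 1) = 1
    rw [pow_one, ← _root_.zpow_natCast, ← _root_.zpow_mul, mul_comm, _root_.zpow_mul, _root_.zpow_natCast, hy, _root_.one_zpow]
  obtain ⟨Q, hQ⟩ := h1.exists_le_sylow
  have h2 : IsPGroup 3 (⊤ : Subgroup f.range) := by
    rintro ⟨⟨_, g, rfl⟩, _⟩
    exact ⟨1, Subtype.ext (Subtype.ext (by simpa using hp g))⟩
  have h3 := (Q.mapSurjective f.rangeRestrict_surjective).is_maximal' h2 le_top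
  rw [Sylow.coe_mapSurjective] at h3
  obtain ⟨q, hq, e⟩ : f.rangeRestrict h ∈ (Q : Subgroup G).map f.rangeRestrict := h3 ▸ Subgroup.mem_top _
  exact ⟨Q, Q.isPGroup', hQ (Subgroup.mem_zpowers y), q, hq, congrArg Subtype.val e⟩

variable {K : Type*} [Field K]

/-- Dickson's lemma -/
theorem dick (lf : D5.LF K) (h2 : (2 : K) ≠ 0) {l : K} (l0 : l ≠ 0) (hl : l ^ 2 ≠ -1) (H : Subgroup (SL2 K))
    (hx : ru 1 ∈ H) (hy : rl l ∈ H) : rl 1 ∈ H := by
  obtain ⟨K0, hf, hK⟩ := lf {l}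
  have hle : Subfield.closure {l} ≤ K0 := Subfield.closure_le.2 (by simpa using hK)
  haveI : Finite (Subfield.closure ({l} : Set K)) :=
    Finite.of_injective _ (Set.inclusion_injective (show ((Subfield.closure {l} : Subfield K) : Set K) ⊆ K0 from hle))
  set F := Subfield.closure ({l} : Set K) with hF
  letI := Fintype.ofFinite F
  let lam : F := ⟨l, Subfield.subset_closure rfl⟩
  have hgen : Subfield.closure ({lam} : Set F) = ⊤ := by
    have : F ≤ (Subfield.closure ({lam} : Set F)).map F.subtype :=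
      Subfield.closure_le.2 (by
        rintro _ rfl
        exact ⟨lam, Subfield.subset_closure rfl, rfl⟩)
    refine eq_top_iff.2 fun r _ => ?_
    obtain ⟨r', hr', e⟩ := this r.2
    rwa [← (Subtype.ext e : r' = r)]
  have h2' : (2 : F) ≠ 0 := fun e => h2 (by
    have := congrArg F.subtype e
    rwa [map_ofNat, map_zero] at this)
  rcases S0801.result h2' lam (fun e => l0 (congrArg Subtype.val e)) hgen with ⟨ht, -⟩ | ⟨-, e, -⟩
  · let w : SL2 K := ru 1 * rl (-1) * ru 1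
    let θ : SL2 F →* SL2 K := (MulAut.conj w).toMonoidHom.comp (Matrix.SpecialLinearGroup.map F.subtype)
    have e1 : ∀ t : F, θ (ru t) = rl (-(t : K)) := fun t => by
      have := H90.r_w_ru (t := (1 : K)) (t' := 1) (by simp) (t : K)
      simp only [one_pow, mul_one] at this
      rw [← this]
      simp [θ, w, map_ru, mul_assoc]
    have e2 : ∀ t : F, θ (rl t) = ru (-(t : K)) := fun t => by
      have := H90.r_w_rl (t := (1 : K)) (t' := 1) (by simp) (t : K)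
      simp only [one_pow, mul_one] at this
      rw [← this]
      simp [θ, w, map_rl, mul_assoc]
    have hle : (⊤ : Subgroup (SL2 F)) ≤ H.comap θ := by
      rw [← ht, Subgroup.closure_le]
      rintro g (hg | hg)
      · rw [show g = rl 1 from Subtype.ext hg]
        change θ _ ∈ H
        rw [e2, ru_neg]
        exact H.inv_mem hx
      · rw [show g = ru lam from Subtype.ext hg]
        change θ _ ∈ H
        rw [e1, rl_neg]
        exact H.inv_mem hy
    have : θ (ru (-1)) ∈ H := hle (Subgroup.mem_top _)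
    rw [e1] at this
    simpa using this
  · exact absurd (by simpa using congrArg F.subtype e) hl

variable {R : Type*} [CommRing R]

/-- The lifting lemma. -/
theorem lift (lf : D5.LF K) (k3 : (3 : K) = 0) (h3 : (3 : R) = 0) (χ : R →+* K) {Δ : Subgroup (SL2 R)} [Finite Δ]
    (ab : ∀ Q : Subgroup Δ, IsPGroup 3 Q → ∀ a ∈ Q, ∀ b ∈ Q, a * b = b * a) {z : R} (hc : ∀ β, β * z = 0 → β = 0)
    (z0 : χ z ≠ 0) (hz : χ z ^ 2 ≠ -1) (hx : ru 1 ∈ Δ) (hy : rl z ∈ Δ) :
    ∃ v ∈ Subring.closure {z}, rl v ∈ Δ ∧ χ v = 1 := by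
  have k2 : (2 : K) ≠ 0 := fun e => one_ne_zero (α := K) (by linear_combination k3 - e)
  let φ : SL2 R →* SL2 K := Matrix.SpecialLinearGroup.map χ
  let H : Subgroup (SL2 R) := Δ ⊓ ent (Subring.closure {z})
  have hx' : ru 1 ∈ H := ⟨hx, fun i j => by
    fin_cases i <;> fin_cases j
    exacts [one_mem _, one_mem _, zero_mem _, one_mem _]⟩
  have hy' : rl z ∈ H := ⟨hy, fun i j => by
    fin_cases i <;> fin_cases j
    exacts [one_mem _, zero_mem _, Subring.subset_closure rfl, one_mem _]⟩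
  obtain ⟨g, hg, eg⟩ : rl 1 ∈ H.map φ := dick lf k2 z0 hz _ ⟨_, hx', by simp [φ, map_ru]⟩ ⟨_, hy', map_rl χ z⟩
  let H0 : Subgroup (SL2 R) := H ⊓ (low K).comap φ
  have hle : H0 ≤ Δ := inf_le_left.trans inf_le_left
  haveI : Finite H0 := Finite.of_injective _ (Subgroup.inclusion_injective hle)
  have hy0 : rl z ∈ H0 := ⟨hy', χ z, map_rl χ z⟩
  have hg0 : g ∈ H0 := ⟨hg, 1, eg⟩
  obtain ⟨Q, hQ, yQ, q, qQ, eq⟩ := lift_syl (φ.comp H0.subtype) (by
    rintro ⟨a, ha, t, et⟩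
    change φ a ^ 3 = 1
    rw [et, rl_pow, Nat.cast_ofNat, k3, zero_mul, rl_zero]) (y := ⟨rl z, hy0⟩) (Subtype.ext (by
      change rl z ^ 3 = 1
      rw [rl_pow, Nat.cast_ofNat, h3, zero_mul, rl_zero])) ⟨g, hg0⟩
  have ec : q.1 * rl z = rl z * q.1 := congrArg Subtype.val (ab (Q.map (Subgroup.inclusion hle)) (hQ.map _)
    _ ⟨q, qQ, rfl⟩ _ ⟨_, yQ, rfl⟩)
  obtain ⟨k, hk⟩ := hQ ⟨q, qQ⟩
  have hk' : q.1 ^ 3 ^ k = 1 := congrArg (fun x : Q => ((x : H0) : SL2 R)) hk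
  have eq' : φ q.1 = rl 1 := eq.trans eg
  have qe : ∀ i j, q.1.1 i j ∈ Subring.closure {z} := q.2.1.2
  have qΔ : q.1 ∈ Δ := hle q.2
  generalize q.1 = u at ec hk' eq' qe qΔ
  have c00 := congrArg (fun x : SL2 R => x.1 0 0) ec
  have c10 := congrArg (fun x : SL2 R => x.1 1 0) ec
  simp only [r_mul, rl_coe, ent00, ent01, ent10, ent11] at c00 c10
  have b0 : u.1 0 1 = 0 := hc _ (by linear_combination c00)
  have ad : u.1 1 1 = u.1 0 0 := sub_eq_zero.1 (hc _ (by linear_combination c10))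
  have a2 : u.1 0 0 * u.1 0 0 = 1 := by
    have := r_det u
    rw [b0, ad] at this
    linear_combination this
  have pw : ∀ n : ℕ, (u ^ n).1 0 1 = 0 ∧ (u ^ n).1 0 0 = u.1 0 0 ^ n := fun n => by
    induction n with
    | zero => simp
    | succ n ih => rw [pow_succ, r_mul, r_mul, ih.1, ih.2, b0, pow_succ]; simp
  have a1 : u.1 0 0 = 1 := by
    have e1 := (pw (3 ^ k)).2
    obtain ⟨m, hm⟩ : Odd (3 ^ k) := Odd.pow (by decide)
    rw [hk', hm, pow_succ, pow_mul, pow_two, a2, one_pow, one_mul] at e1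
    simpa using e1.symm
  have eu : u = rl (u.1 1 0) := r_ext a1 b0 rfl (ad.trans a1)
  refine ⟨u.1 1 0, qe 1 0, eu ▸ qΔ, ?_⟩
  simpa [φ] using congrArg (fun x : SL2 K => x.1 1 0) eq'

/-- The case of characteristic three. -/
theorem main3 (lf : D5.LF K) (k3 : (3 : K) = 0) (h3 : (3 : R) = 0) (χ1 χ2 : R →+* K) {Δ : Subgroup (SL2 R)}
    [Finite Δ] (ab : ∀ Q : Subgroup Δ, IsPGroup 3 Q → ∀ a ∈ Q, ∀ b ∈ Q, a * b = b * a)
    (hc : ∀ t, rl t ∈ Δ → t ≠ 0 → ∀ β, β * t = 0 → β = 0)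
    (h1 : ∀ t, rl t ∈ Δ → χ1 t = 0 → t = 0) (h2 : ∀ t, rl t ∈ Δ → χ2 t = 0 → t = 0)
    (c1 : ∀ v, χ1 v = 1 → χ2 v = 1 → 1 - 2 * v + v ^ 2 = 0) (c2 : ∀ v, χ1 v = 1 → χ2 v = -1 → -1 + v ^ 2 = 0)
    (c3 : ∀ v, χ1 v = 1 → χ2 v ^ 2 = -1 → -1 + v - v ^ 2 + v ^ 3 = 0)
    {z : R} (z0 : z ≠ 0) (hz : χ1 z ^ 2 ≠ -1) (hx : ru 1 ∈ Δ) (hy : rl z ∈ Δ) : rl 1 ∈ Δ := by
  have k2 : (2 : K) ≠ 0 := fun e => one_ne_zero (α := K) (by linear_combination k3 - e)
  have hn : ∀ {t}, rl t ∈ Δ → rl (-t) ∈ Δ := fun h => by rw [rl_neg]; exact Δ.inv_mem h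
  have hX : ru (-1) ∈ Δ := by rw [ru_neg]; exact Δ.inv_mem hx
  have d1 : ∀ v, rl v ∈ Δ → χ1 v = 1 → χ2 v = 1 → rl 1 ∈ Δ := fun v hv e1 e2 => by
    have hv' := hn hv
    rw [← word1 h3 (c1 v e1 e2)]
    repeat first | assumption | apply Δ.mul_mem
  have d2 : ∀ v, rl v ∈ Δ → χ1 v = 1 → χ2 v = -1 → rl 1 ∈ Δ := fun v hv e1 e2 => by
    have hv' := hn hv
    rw [← word2 h3 (c2 v e1 e2)]
    repeat first | assumption | apply Δ.mul_mem
  obtain ⟨v, -, hv, e1⟩ := lift lf k3 h3 χ1 ab (hc z hy z0) (fun e => z0 (h1 z hy e)) hz hx hy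
  have v0 : v ≠ 0 := fun e => by simp [e] at e1
  have w0 : χ2 v ≠ 0 := fun e => v0 (h2 v hv e)
  by_cases e2 : χ2 v ^ 2 = -1
  · exfalso
    have hv' := hn hv
    have : rl (2 + 2 * v + 2 * v ^ 2) ∈ Δ := by
      rw [← word3 h3 (c3 v e1 e2)]
      repeat first | assumption | apply Δ.mul_mem
    have e := congrArg χ2 (h1 _ this (by
      simp only [map_add, map_mul, map_pow, map_ofNat, e1]; linear_combination 2 * k3))
    simp only [map_add, map_mul, map_pow, map_ofNat, map_zero, e2] at e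
    exact mul_ne_zero k2 w0 (by linear_combination e)
  obtain ⟨v', hm, hv', e1'⟩ := lift lf k3 h3 χ2 ab (hc v hv v0) w0 e2 hx hv
  have : χ1 v' = 0 ∨ χ1 v' = 1 ∨ χ1 v' = -1 := by
    clear hv' e1'
    induction hm using Subring.closure_induction with
    | mem x hx => rw [hx]; exact Or.inr (Or.inl e1)
    | zero => simp
    | one => simp
    | add x y _ _ a b =>
      rw [map_add]
      rcases a with a | a | a <;> rcases b with b | b | b <;> rw [a, b]
      exacts [.inl (by ring), .inr (.inl (by ring)), .inr (.inr (by ring)), .inr (.inl (by ring)),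
        .inr (.inr (by linear_combination k3)), .inl (by ring), .inr (.inr (by ring)), .inl (by ring),
        .inr (.inl (by linear_combination -k3))]
    | neg x _ a => rcases a with a | a | a <;> simp [a]
    | mul x y _ _ a b => rcases a with a | a | a <;> rcases b with b | b | b <;> simp [a, b]
  rcases this with e | e | e
  · rw [h1 v' hv' e] at e1'
    simp at e1'
  · exact d1 v' hv' e e1'
  · have hs : rl (v + v') ∈ Δ := by rw [rl_add]; exact Δ.mul_mem hv hv'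
    have := congrArg χ2 (h1 _ hs (by simp [e1, e]))
    rw [map_add, e1', map_zero] at this
    exact d2 v hv e1 (by linear_combination this)

end Cfsg.Agent.D4.LQ
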