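import Cfsg.Agent.D4.Defs3
import Cfsg.Agent.D4.LQ1a
import Cfsg.Agent.D4.LQ1b

/-!
Quadratic elements: the Sylow `3`-subgroups and opposite pairs.
-/

set_option autoImplicit false

open Matrix
open scoped MatrixGroups

namespace Cfsg.Agent.D4

variable {K : Type*} [Field K] {Γ X : Type*} [Group Γ] [Group X] {ρ : Γ →* M4 K} {π : Γ →* X}
variable [IsAlgClosed K] [Finite Γ]

theorem Hyp.syl3 (h : Hyp ρ π) (n : NoTv ρ) (h3 : (3 : K) = 0) {P : Subgroup Γ}
    (hP : IsPGroup 3 P) {a b : Γ} (ha : a ∈ P) (hb : b ∈ P) : a * b = b * a :=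
  LQ.syl3 h.inj n h3 hP ha hb

theorem Hyp.syl3X (h : Hyp ρ π) (n : NoTv ρ) (h3 : (3 : K) = 0) {P : Subgroup X}
    (hP : IsPGroup 3 P) {a b : X} (ha : a ∈ P) (hb : b ∈ P) : a * b = b * a := by
  haveI : Fact (Nat.Prime 3) := ⟨by norm_num⟩
  haveI := h.finiteX
  obtain ⟨T, hT⟩ := hP.exists_le_sylow
  obtain ⟨S, rfl⟩ := Sylow.mapSurjective_surjective h.surj 3 T
  rw [Sylow.coe_mapSurjective] at hT
  obtain ⟨a, ha', rfl⟩ := hT ha
  obtain ⟨b, hb', rfl⟩ := hT hb
  rw [← map_mul, h.syl3 n h3 S.isPGroup' ha' hb', map_mul]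

def xU (A : Matrix (Fin 2) (Fin 2) K) : M4 K :=
  !![1, 0, A 0 0, A 0 1; 0, 1, A 1 0, A 1 1; 0, 0, 1, 0; 0, 0, 0, 1]

def xL (A : Matrix (Fin 2) (Fin 2) K) : M4 K :=
  !![1, 0, 0, 0; 0, 1, 0, 0; A 0 0, A 0 1, 1, 0; A 1 0, A 1 1, 0, 1]

namespace LQ

open H90 (ru rl ru_coe rl_coe)

local notation "SL2" => Matrix.SpecialLinearGroup (Fin 2)
local notation "M2" => Matrix (Fin 2) (Fin 2)

section
omit [IsAlgClosed K] [Finite Γ]

theorem xL_add (A B : M2 K) : xL (A + B) = xL A * xL B := by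
  ext i j
  fin_cases i <;> fin_cases j <;> simp [xL, mul_apply, Fin.sum_univ_four, add_comm]

theorem xL_zero : xL (0 : M2 K) = 1 := by
  ext i j
  fin_cases i <;> fin_cases j <;> rfl

theorem in_add {A B : M2 K} (a : In ρ (xL A)) (b : In ρ (xL B)) : In ρ (xL (A + B)) := by
  obtain ⟨g, a⟩ := a
  obtain ⟨k, b⟩ := b
  exact ⟨g * k, by rw [map_mul, a, b, xL_add]⟩

theorem in_neg {A : M2 K} (a : In ρ (xL A)) : In ρ (xL (-A)) := by
  obtain ⟨g, a⟩ := a
  exact ⟨g⁻¹, rho_inv_eq (by rw [a, ← xL_add, add_neg_cancel, xL_zero])⟩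

theorem xL_sing (n : NoTv ρ) {T : M2 K} (a : In ρ (xL T)) (d : T.det = 0) : T = 0 := by
  obtain ⟨g, a⟩ := a
  rw [det_fin_two] at d
  obtain ⟨v0, v1, f0, f1, e⟩ : ∃ v0 v1 f0 f1 : K, T = !![v0 * f0, v0 * f1; v1 * f0, v1 * f1] := by
    by_cases e0 : T 0 0 = 0
    · by_cases e1 : T 0 1 = 0
      · exact ⟨0, 1, T 1 0, T 1 1, by ext i j; fin_cases i <;> fin_cases j <;> simp [e0, e1]⟩
      · refine ⟨1, T 1 1 / T 0 1, T 0 0, T 0 1, ?_⟩
        ext i j; fin_cases i <;> fin_cases j <;> simp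
        · field_simp; linear_combination -d
        · field_simp
    · refine ⟨1, T 1 0 / T 0 0, T 0 0, T 0 1, ?_⟩
      ext i j; fin_cases i <;> fin_cases j <;> simp
      · field_simp
      · field_simp; linear_combination d
  have := notv_one n (g := g) (v := ![0, 0, v0, v1]) (φ := ![f0, f1, 0, 0])
    (by simp [dotProduct, Fin.sum_univ_four]) (by
      rw [a, e]
      ext i j
      fin_cases i <;> fin_cases j <;> simp [xL, vecMulVec])
  rw [a] at this
  ext i j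
  fin_cases i <;> fin_cases j
  exacts [congrFun₂ this 2 0, congrFun₂ this 2 1, congrFun₂ this 3 0, congrFun₂ this 3 1]

variable {R : Type*} [CommRing R]

/-- block matrices -/
def blk (ι : R →+* M2 K) : SL2 R →* M4 K :=
  (((reindexRingEquiv K (finProdFinEquiv : Fin 2 × Fin 2 ≃ Fin 4)).toRingHom.comp
    ((compRingEquiv (Fin 2) (Fin 2) K).toRingHom.comp ι.mapMatrix)).toMonoidHom).comp
    SpecialLinearGroup.coeMonoidHom

theorem blk_apply (ι : R →+* M2 K) (g : SL2 R) (i j : Fin 4) :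
    blk ι g i j = ι (g.1 (![0, 0, 1, 1] i) (![0, 0, 1, 1] j)) (![0, 1, 0, 1] i) (![0, 1, 0, 1] j) := by
  fin_cases i <;> fin_cases j <;> rfl

theorem blk_ru (ι : R →+* M2 K) (t : R) : blk ι (ru t) = xU (ι t) := by
  ext i j
  rw [blk_apply]
  fin_cases i <;> fin_cases j <;> simp [xU]

theorem blk_rl (ι : R →+* M2 K) (t : R) : blk ι (rl t) = xL (ι t) := by
  ext i j
  rw [blk_apply]
  fin_cases i <;> fin_cases j <;> simp [xL]

theorem blk_inj {ι : R →+* M2 K} (hι : Function.Injective ι) : Function.Injective (blk ι) := by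
  intro g k e
  have : ι.mapMatrix g.1 = ι.mapMatrix k.1 := (compRingEquiv (Fin 2) (Fin 2) K).injective
    ((reindexRingEquiv K (finProdFinEquiv : Fin 2 × Fin 2 ≃ Fin 4)).injective e)
  apply Subtype.ext
  ext i j
  exact hι (congrFun₂ this i j)

/-- the elements of `SL₂(R)` in the group -/
def Dl (ρ : Γ →* M4 K) (ι : R →+* M2 K) : Subgroup (SL2 R) where
  carrier := {g | In ρ (blk ι g)}
  one_mem' := ⟨1, by rw [map_one, map_one]⟩
  mul_mem' := fun ⟨g, a⟩ ⟨k, b⟩ => ⟨g * k, by rw [map_mul, map_mul, a, b]⟩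
  inv_mem' := fun ⟨g, a⟩ => ⟨g⁻¹, rho_inv_eq (by rw [a, ← map_mul, mul_inv_cancel, map_one])⟩

theorem exists_psi (hi : Function.Injective ρ) {ι : R →+* M2 K} (hι : Function.Injective ι) :
    ∃ ψ : Dl ρ ι →* Γ, Function.Injective ψ := by
  have : ∀ g : Dl ρ ι, ∃ k, ρ k = blk ι g := fun g => g.2
  choose f hf using this
  refine ⟨MonoidHom.mk' f fun a b => hi (by rw [map_mul, hf, hf, hf, ← map_mul]; rfl), fun a b e => ?_⟩
  exact Subtype.ext (blk_inj hι (by rw [← hf, ← hf]; exact congrArg ρ e))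

theorem exists_ring.{u} {K : Type u} [Field K] (T : M2 K) : ∃ (R : Type u) (_ : CommRing R) (ι : R →+* M2 K) (z : R),
    Function.Injective ι ∧ ι z = T ∧ ∀ S : Subring R, z ∈ S → ∀ r, r ∈ S := by
  have hc : IsMulCommutative (Subring.closure ({T} : Set (M2 K))) :=
    Subring.isMulCommutative_closure (by rintro _ rfl _ rfl; rfl)
  letI : CommRing (Subring.closure ({T} : Set (M2 K))) :=
    { (inferInstance : Ring (Subring.closure ({T} : Set (M2 K)))) with mul_comm := hc.is_comm.comm }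
  refine ⟨Subring.closure {T}, this, (Subring.closure {T}).subtype, ⟨T, Subring.subset_closure rfl⟩,
    Subtype.val_injective, rfl, fun S hS r => ?_⟩
  have : Subring.closure {T} ≤ S.map (Subring.closure {T}).subtype :=
    Subring.closure_le.2 (by rintro _ rfl; exact ⟨_, hS, rfl⟩)
  obtain ⟨r', hr', e⟩ := this r.2
  rwa [← (Subtype.ext e : r' = r)]

theorem ch2 (M : M2 K) : M * M = M.trace • M - M.det • 1 := by
  ext i j
  fin_cases i <;> fin_cases j <;> simp [mul_apply, trace_fin_two, det_fin_two] <;> ring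

/-- upper triangular matrices -/
def UT (K : Type*) [Field K] : Subring (M2 K) where
  carrier := {M | M 1 0 = 0}
  one_mem' := rfl
  zero_mem' := rfl
  mul_mem' {a b} (ha : a 1 0 = 0) (hb : b 1 0 = 0) := by
    change (a * b) 1 0 = 0
    simp [mul_apply, ha, hb]
  add_mem' {a b} (ha : a 1 0 = 0) (hb : b 1 0 = 0) := by
    change (a + b) 1 0 = 0
    simp [ha, hb]
  neg_mem' {a} (ha : a 1 0 = 0) := by
    change (-a) 1 0 = 0
    simp [ha]

/-- the diagonal entries -/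
def dg (K : Type*) [Field K] (i : Fin 2) : UT K →+* K where
  toFun M := M.1 i i
  map_one' := by simp
  map_zero' := by simp
  map_add' a b := by simp
  map_mul' a b := by
    have ha : a.1 1 0 = 0 := a.2
    have hb : b.1 1 0 = 0 := b.2
    fin_cases i <;> simp [mul_apply, ha, hb]

end

omit [Finite Γ] in
theorem exists_tri (h2 : (2 : K) ≠ 0) (T : M2 K) :
    ∃ c : M2 K →+* M2 K, (∀ M, (c M).trace = M.trace) ∧ (∀ M, (c M).det = M.det) ∧ c T ∈ UT K := by
  by_cases e : T 1 0 = 0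
  · exact ⟨RingHom.id _, fun _ => rfl, fun _ => rfl, e⟩
  haveI : NeZero (2 : K) := ⟨h2⟩
  obtain ⟨s, hs⟩ := exists_quadratic_eq_zero (neg_ne_zero.2 e)
    (IsAlgClosed.exists_eq_mul_self (discrim (-T 1 0) (T 0 0 - T 1 1) (T 0 1)))
  let P : M2 K := !![s, 1; 1, 0]
  let Q : M2 K := !![0, 1; 1, -s]
  have e1 : P * Q = 1 := by ext i j; fin_cases i <;> fin_cases j <;> simp [P, Q]
  have e2 : Q * P = 1 := mul_eq_one_comm.1 e1
  refine ⟨⟨⟨⟨fun M => Q * M * P, by simp [e2]⟩, fun M N => ?_⟩, by simp, fun M N => by simp [mul_add, add_mul]⟩,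
    fun M => ?_, fun M => ?_, ?_⟩
  · simp only [mul_assoc]
    rw [← mul_assoc P, e1, one_mul]
  · change (Q * M * P).trace = _
    rw [trace_mul_comm, ← mul_assoc, e1, one_mul]
  · change (Q * M * P).det = _
    rw [det_mul, mul_comm, ← det_mul, ← mul_assoc, e1, one_mul]
  · change (Q * T * P) 1 0 = 0
    simp [P, Q, mul_apply, vecMul, dotProduct]
    linear_combination hs

omit [IsAlgClosed K] in
theorem core3 (hi : Function.Injective ρ) (lf : LF K) (k3 : (3 : K) = 0) (n : NoTv ρ) (a : In ρ (xU 1))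
    {R : Type*} [CommRing R] {ι : R →+* M2 K} (hι : Function.Injective ι) (χ1 χ2 : R →+* K)
    (tr : ∀ r, (ι r).trace = χ1 r + χ2 r) (dt : ∀ r, (ι r).det = χ1 r * χ2 r) {z : R} (z0 : z ≠ 0)
    (hz : χ1 z ^ 2 ≠ -1) (b : In ρ (xL (ι z))) : In ρ (xL 1) := by
  haveI : CharP K 3 := (CharP.charP_iff_prime_eq_zero (by norm_num)).2 (by simpa using k3)
  haveI : CharP R 3 := ι.charP hι 3
  obtain ⟨ψ, hψ⟩ := exists_psi hi hι
  haveI : Finite (Dl ρ ι) := Finite.of_injective ψ hψ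
  have hl : ∀ t, rl t ∈ Dl ρ ι ↔ In ρ (xL (ι t)) := fun t => by rw [← blk_rl]; rfl
  have sing : ∀ t, rl t ∈ Dl ρ ι → (ι t).det = 0 → t = 0 := fun t ht d =>
    hι (by rw [xL_sing n ((hl t).1 ht) d, map_zero])
  have ch : ∀ r, ι r ^ 2 = (χ1 r + χ2 r) • ι r - (χ1 r * χ2 r) • 1 := fun r => by rw [pow_two, ch2, tr, dt]
  have := main3 lf k3 (by simpa using CharP.cast_eq_zero R 3) χ1 χ2 (Δ := Dl ρ ι)
    (fun Q hQ x hx y hy => hψ (by
      rw [map_mul, map_mul]
      exact syl3 hi n k3 (hQ.map ψ) ⟨x, hx, rfl⟩ ⟨y, hy, rfl⟩))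
    (fun t ht t0 β e => hι (by
      have u : IsUnit (ι t) := (isUnit_iff_isUnit_det _).2 (Ne.isUnit fun d => t0 (sing t ht d))
      have := congrArg ι e
      rw [map_mul, map_zero] at this
      rw [map_zero]
      exact u.mul_left_eq_zero.1 this))
    (fun t ht e => sing t ht (by rw [dt, e, zero_mul])) (fun t ht e => sing t ht (by rw [dt, e, mul_zero]))
    (fun v e1 e2 => hι (by
      simp only [map_add, map_sub, map_mul, map_pow, map_one, map_zero, map_ofNat, ch, e1, e2, two_mul]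
      module))
    (fun v e1 e2 => hι (by
      simp only [map_add, map_neg, map_pow, map_one, map_zero, ch, e1, e2]
      module))
    (fun v e1 e2 => hι (by
      have e3 : ι v ^ 3 = (χ1 v + χ2 v) • ι v ^ 2 - (χ1 v * χ2 v) • ι v := by
        rw [pow_succ, ch, sub_mul, smul_mul_assoc, smul_mul_assoc, one_mul, ← pow_two, ch]
      simp only [map_add, map_sub, map_neg, map_pow, map_one, map_zero, e3, ch, e1]
      match_scalars
      · linear_combination -e2
      · linear_combination e2))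
    z0 hz (show In ρ (blk ι (ru 1)) by rw [blk_ru, map_one]; exact a) ((hl z).2 b)
  simpa using (hl 1).1 this

theorem key3 (hi : Function.Injective ρ) (lf : LF K) (k3 : (3 : K) = 0) (n : NoTv ρ) (a : In ρ (xU 1))
    {T : M2 K} (b : In ρ (xL T)) (T0 : T ≠ 0) (hn : ¬ In ρ (xL 1)) :
    (T.trace = 0 ∧ T.det = 1) ∨ (T.trace ^ 2 = -1 ∧ T.det = -1) := by
  have k2 : (2 : K) ≠ 0 := fun e => one_ne_zero (α := K) (by linear_combination k3 - e)
  obtain ⟨R, _, ι, z, hι, rfl, hS⟩ := exists_ring T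
  obtain ⟨c, ct, cd, cT⟩ := exists_tri k2 (ι z)
  have hU : ∀ r, (c.comp ι) r ∈ UT K := hS ((UT K).comap (c.comp ι)) cT
  let χ : Fin 2 → R →+* K := fun i => (dg K i).comp ((c.comp ι).codRestrict (UT K) hU)
  have tr : ∀ r, (ι r).trace = χ 0 r + χ 1 r := fun r => by rw [← ct, trace_fin_two]; rfl
  have dt : ∀ r, (ι r).det = χ 0 r * χ 1 r := fun r => by
    have : c (ι r) 1 0 = 0 := hU r
    rw [← cd, det_fin_two, this, mul_zero, sub_zero]; rfl
  have z0 : z ≠ 0 := fun e => T0 (by rw [e, map_zero])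
  have e1 : χ 0 z ^ 2 = -1 := by_contra fun e => hn (core3 hi lf k3 n a hι (χ 0) (χ 1) tr dt z0 e b)
  have e2 : χ 1 z ^ 2 = -1 := by_contra fun e => hn (core3 hi lf k3 n a hι (χ 1) (χ 0)
    (fun r => (tr r).trans (add_comm _ _)) (fun r => (dt r).trans (mul_comm _ _)) z0 e b)
  rw [tr, dt]
  rcases sq_eq_sq_iff_eq_or_eq_neg.1 (e1.trans e2.symm) with e | e <;> rw [e]
  · exact Or.inr ⟨by linear_combination 4 * e2 - k3, by linear_combination e2⟩
  · exact Or.inl ⟨by ring, by linear_combination -e2⟩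

omit [IsAlgClosed K] [Finite Γ] in
theorem big (lf : LF K) (p : ℕ) [Fact p.Prime] [CharP K p] (h2 : (2 : K) ≠ 0) (h3 : p ≠ 3) (n : NoTv ρ)
    (a : In ρ (xU 1)) {T : M2 K} (b : In ρ (xL T)) (T0 : T ≠ 0) : In ρ (xL 1) := by
  classical
  obtain ⟨R, _, ι, z, hι, rfl, hS⟩ := exists_ring T
  haveI : CharP R p := ι.charP hι p
  letI : Algebra (ZMod p) R := ZMod.algebra R p
  obtain ⟨K0, hf, hK⟩ := lf (Finset.univ.image fun x : Fin 2 × Fin 2 => ι z x.1 x.2)
  have hm : ∀ r i j, ι r i j ∈ K0 := hS (K0.toSubring.matrix.comap ι)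
    fun i j => hK _ (Finset.mem_image.2 ⟨(i, j), Finset.mem_univ _, rfl⟩)
  haveI : Finite R := Finite.of_injective (fun r i j => (⟨ι r i j, hm r i j⟩ : K0)) fun r s e =>
    hι (by ext i j; exact congrArg Subtype.val (congrFun₂ e i j))
  have u : IsUnit (ι z) := (isUnit_iff_isUnit_det _).2 (Ne.isUnit fun d => T0 (xL_sing n b d))
  obtain ⟨z', hz'⟩ := (Finite.injective_iff_surjective.1 (show Function.Injective fun r => z * r from
    fun r s e => hι (u.mul_left_cancel (by rw [← map_mul, ← map_mul]; exact congrArg ι e)))) 1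
  have hx : ru 1 ∈ Dl ρ ι := show In ρ (blk ι (ru 1)) by rw [blk_ru, map_one]; exact a
  have hy : rl z ∈ Dl ρ ι := show In ρ (blk ι (rl z)) by rw [blk_rl]; exact b
  have hc : ∀ c : ZMod p, algebraMap (ZMod p) R c = (c.val : R) := fun c => by
    conv_lhs => rw [← ZMod.natCast_zmod_val c, map_natCast]
  have := (H90.gen_ring (k := ZMod p) (fun e => h2 (by
      have := congrArg (ZMod.castHom (dvd_refl p) K) e
      rwa [map_ofNat, map_zero] at this)) (by rwa [Nat.card_zmod]) _ R rfl z z' hz'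
    (eq_top_iff.2 fun r _ => hS (Algebra.adjoin (ZMod p) {z}).toSubring (Algebra.subset_adjoin rfl) r) (Dl ρ ι)
    (fun c => by rw [hc, ← mul_one (c.val : R), ← ru_pow]; exact pow_mem hx _)
    (fun c => by rw [hc, ← rl_pow]; exact pow_mem hy _) 1).2
  change In ρ (blk ι (rl 1)) at this
  rwa [blk_rl, map_one] at this

end LQ

theorem Hyp.pair (h : Hyp ρ π) (lf : LF K) (h2 : (2 : K) ≠ 0) (n : NoTv ρ) (a : In ρ (xU 1))
    {B C : Matrix (Fin 2) (Fin 2) K} (b : In ρ (xL B)) (c : In ρ (xL C)) (b0 : B ≠ 0) (c0 : C ≠ 0)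
    (e1 : C ≠ B) (e2 : C ≠ -B) : In ρ (xL 1) := by
  obtain ⟨p, hp, hK⟩ : ∃ p : ℕ, p.Prime ∧ CharP K p := by
    obtain ⟨K0, h0, -⟩ := lf ∅
    obtain ⟨p, hp⟩ := CharP.exists K
    exact ⟨p, (CharP.char_is_prime_or_zero K p).resolve_right (CharP.char_ne_zero_of_finite K0 p), hp⟩
  haveI := Fact.mk hp
  by_cases h3 : p = 3
  swap
  · exact LQ.big lf p h2 h3 n a b b0
  subst h3
  have k3 : (3 : K) = 0 := by simpa using CharP.cast_eq_zero K 3
  by_contra hn
  have k1 := LQ.key3 h.inj lf k3 n a b b0 hn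
  have k2 := LQ.key3 h.inj lf k3 n a c c0 hn
  have k4 := LQ.key3 h.inj lf k3 n a (LQ.in_add b c) (fun e => e2 (eq_neg_of_add_eq_zero_right e)) hn
  have k5 := LQ.key3 h.inj lf k3 n a (LQ.in_add b (LQ.in_neg c)) (fun e => e1 (add_neg_eq_zero.1 e).symm) hn
  have par : (B + C).det + (B + -C).det = 2 * B.det + 2 * C.det := by
    simp only [det_fin_two, Matrix.add_apply, Matrix.neg_apply]; ring
  rw [trace_add] at k4
  rw [trace_add, trace_neg] at k5
  generalize B.trace = s, C.trace = t, B.det = x, C.det = y, (B + C).det = u, (B + -C).det = v at k1 k2 k4 k5 par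
  clear * - k1 k2 k4 k5 par k3 h2
  rcases k1 with ⟨a1, b1⟩ | ⟨a1, b1⟩ <;> rcases k2 with ⟨a2, b2⟩ | ⟨a2, b2⟩ <;> rcases k4 with ⟨a3, b3⟩ | ⟨a3, b3⟩ <;>
    rcases k5 with ⟨a4, b4⟩ | ⟨a4, b4⟩ <;> grind

end Cfsg.Agent.D4
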