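import Cfsg.Agent.D4.Small
import Cfsg.Agent.D4.LQ1
import Cfsg.Agent.DIM5.L3

/-!
The groups `L₃(r)`.
-/

set_option autoImplicit false
set_option linter.unusedSectionVars false
set_option linter.unusedVariables false

open Matrix
open scoped MatrixGroups

namespace Cfsg.Agent.D4

variable {K : Type*} [Field K] {Γ X : Type*} [Group Γ] [Group X] {ρ : Γ →* M4 K} {π : Γ →* X}
variable [IsAlgClosed K] [Finite Γ]

section L3a

open D5 (Cov3 shift3 dg3 det_shift3 det_dg3 dg3_scalar)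

variable {F S : Type*} [Field F] [Group S] {m : S →* Matrix (Fin 3) (Fin 3) F} {f : S →* X}
variable {Q : Matrix (Fin 3) (Fin 3) F → Prop}

theorem Hyp.c3e9 (h : Hyp ρ π) (hK : (3 : K) ≠ 0) (c : Cov3 Q m f) {ω : F}
    (hω : ω ^ 2 + ω + 1 = 0) (h3 : (3 : F) ≠ 0) (qa : Q (dg3 1 ω (ω ^ 2))) (qb : Q (shift3 F))
    (qn : Q ((ω - ω ^ 2)⁻¹ • !![1, 1, 1; 1, ω, ω ^ 2; 1, ω ^ 2, ω]))
    (qk : Q ((ω - ω ^ 2)⁻¹ • !![1, 1, ω; 1, ω, 1; ω ^ 2, ω, ω])) : False := by
  have h0 : ω - ω ^ 2 ≠ 0 := fun e => h3 (by grind)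
  obtain ⟨a, ha⟩ := c.mk' _ (by rw [det_dg3]; grind) qa
  obtain ⟨b, hb⟩ := c.mk' _ det_shift3 qb
  obtain ⟨n, hn⟩ := c.mk' _ (by rw [det_smul]; simp [det_fin_three]; field_simp; grind) qn
  obtain ⟨k, hk⟩ := c.mk' _ (by rw [det_smul]; simp [det_fin_three]; field_simp; grind) qk
  generalize (ω - ω ^ 2)⁻¹ = u at hn hk
  have b3 : f b ^ 3 = 1 := by
    rw [← map_pow, c.ker]
    refine ⟨1, ?_⟩
    rw [map_pow, hb]
    ext i j
    fin_cases i <;> fin_cases j <;> simp [shift3, pow_succ]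
  refine h.e9_false hK (a := f a) (b := f b) (n := f n) (m := f k) (fun e => ?_) ?_ b3 ?_ ?_ ?_ ?_ ?_
  · obtain ⟨t, ht⟩ := (c.ker a).1 e
    have := dg3_scalar (ha ▸ ht)
    exact h0 (sub_eq_zero.2 this.2)
  · rw [← map_pow, c.ker]
    refine ⟨1, ?_⟩
    rw [map_pow, ha]
    ext i j
    fin_cases i <;> fin_cases j <;> simp [dg3, pow_succ] <;> grind
  · rw [← map_mul, ← map_mul, eq_comm]
    refine c.eq_of (t := ω) ?_
    rw [map_mul, map_mul, ha, hb]
    ext i j
    fin_cases i <;> fin_cases j <;> simp [dg3, shift3] <;> grind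
  · rw [mul_inv_eq_iff_eq_mul, ← map_mul, ← map_mul]
    refine c.eq_of (t := 1) ?_
    rw [map_mul, map_mul, ha, hb, hn]
    ext i j
    fin_cases i <;> fin_cases j <;> simp [dg3, shift3] <;> grind
  · rw [mul_inv_eq_iff_eq_mul, eq_inv_mul_iff_mul_eq, ← map_mul, ← map_mul]
    refine c.eq_of (t := 1) ?_
    rw [map_mul, map_mul, ha, hb, hn]
    ext i j
    fin_cases i <;> fin_cases j <;> simp [dg3, shift3] <;> grind
  · rw [mul_inv_eq_iff_eq_mul, ← map_mul, ← map_mul, ← map_mul]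
    refine c.eq_of (t := 1) ?_
    rw [map_mul, map_mul, map_mul, ha, hb, hk]
    ext i j
    fin_cases i <;> fin_cases j <;> simp [dg3, shift3] <;> grind
  · rw [mul_inv_eq_iff_eq_mul, show (f b)⁻¹ = f b * f b by
      rw [inv_eq_iff_mul_eq_one, ← b3, pow_three], ← map_mul, ← map_mul, ← map_mul, ← map_mul, eq_comm]
    refine c.eq_of (t := ω) ?_
    rw [map_mul, map_mul, map_mul, map_mul, ha, hb, hk]
    ext i j
    fin_cases i <;> fin_cases j <;> simp [dg3, shift3] <;> grind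

theorem Hyp.c3torus (h : Hyp ρ π) (hπ : Function.Injective π) (c : Cov3 Q m f)
    {μ : Type*} [CommGroup μ] (ι : μ →* F) (hι : Function.Injective ι)
    (qd : ∀ s t, Q (dg3 (ι s) (ι t) (ι (s * t)⁻¹))) (qb : Q (shift3 F))
    (qt : Q !![0, -1, 0; -1, 0, 0; 0, 0, -1]) {n : ℕ} (hn : (n : K) ≠ 0) (ho : ∀ s : μ, s ^ n = 1)
    {s : μ} (hs : s ^ 6 ≠ 1)
    (gen : ∀ (H : Subgroup S) (w y : S) (a b : F), m w = shift3 F → m y = dg3 a a b → w ∈ H →
      (∀ x, x * y = y * x → x ∈ H) → H = ⊤) : False := by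
  choose d0 hd using fun x : μ × μ => c.mk' _ (by
    rw [det_dg3, ← map_mul, ← map_mul, mul_inv_cancel, map_one]) (qd x.1 x.2)
  obtain ⟨w, hw⟩ := c.mk' _ det_shift3 qb
  obtain ⟨t, ht⟩ := c.mk' _ (by simp [det_fin_three]) qt
  let d : μ × μ →* S := MonoidHom.mk' d0 fun x y => c.inj (by
    rw [map_mul, hd, hd, hd, Prod.fst_mul, Prod.snd_mul, mul_mul_mul_comm, mul_inv, map_mul,
      map_mul, map_mul]
    ext i j
    fin_cases i <;> fin_cases j <;> simp [dg3])
  have hd' : ∀ a b, m (d (a, b)) = dg3 (ι a) (ι b) (ι (a * b)⁻¹) := fun a b => hd (a, b)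
  refine h.torus_false hπ (f.comp d) (σ := f w) (τ := f t) (fun a b => ?_) (fun a b => ?_) hn ho
    (fun a e => ?_) hs fun H h1 h2 => ?_
  · rw [mul_inv_eq_iff_eq_mul, MonoidHom.comp_apply, MonoidHom.comp_apply, ← map_mul, ← map_mul]
    refine c.eq_of (t := 1) ?_
    rw [map_mul, map_mul, hd', hd', hw, show (b * (a * b)⁻¹)⁻¹ = a by simp]
    ext i j
    fin_cases i <;> fin_cases j <;> simp [dg3, shift3]
  · rw [mul_inv_eq_iff_eq_mul, MonoidHom.comp_apply, MonoidHom.comp_apply, ← map_mul, ← map_mul]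
    refine c.eq_of (t := 1) ?_
    rw [map_mul, map_mul, hd', hd', ht, mul_comm b a]
    ext i j
    fin_cases i <;> fin_cases j <;> simp [dg3]
  · obtain ⟨x, hx⟩ := (c.ker _).1 e
    have := hι (dg3_scalar (hd' _ _ ▸ hx)).1
    simpa using this
  · have := gen (H.comap f) w (d (s, s)) _ _ hw (hd' s s) h1 fun x e => h2 _ (by
      rw [MonoidHom.comp_apply, ← map_mul, ← map_mul, e])
    refine eq_top_iff.2 fun x _ => ?_
    obtain ⟨y, rfl⟩ := c.surj x
    exact (this ▸ Subgroup.mem_top y : y ∈ H.comap f)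

theorem Hyp.c3inj (h : Hyp ρ π) (h2 : (2 : K) = 0) : Function.Injective π :=
  (injective_iff_map_eq_one π).2 fun g e => by
    obtain ⟨c, hc⟩ := (h.ker g).1 e
    have h4 := h.fourth hc
    have : c = 1 := sub_eq_zero.1 (pow_eq_zero_iff (n := 4) (by norm_num) |>.1 (by
      linear_combination h4 + (-2 * c ^ 3 + 3 * c ^ 2 - 2 * c + 1) * h2))
    exact h.inj (by rw [hc, this, one_smul, map_one])

theorem Hyp.c3heis (h : Hyp ρ π) (n : NoTv ρ) (f : S →* X) {x y z : S} (e : x * y = z * (y * x))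
    (hx : z * x = x * z) (hy : z * y = y * z) (h1 : f z ≠ 1) (x3 : x ^ 3 = 1) (y3 : y ^ 3 = 1)
    (hz : z ^ 3 = 1) (hc : IsConj z z⁻¹) : False := by
  have e' : f x * f y = f z * (f y * f x) := by rw [← map_mul, e, map_mul, map_mul]
  have hx' : f z * f x = f x * f z := by rw [← map_mul, hx, map_mul]
  have hy' : f z * f y = f y * f z := by rw [← map_mul, hy, map_mul]
  have p3 : ∀ {a : S}, a ^ 3 = 1 → f a ^ 3 = 1 := fun e => by rw [← map_pow, e, map_one]
  by_cases h3 : (3 : K) = 0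
  swap
  · exact h.heis_false Nat.prime_three (by norm_num) (by exact_mod_cast h3) e' hx' hy' h1 (p3 hz)
      (by rw [← map_inv]; exact f.map_isConj hc)
  have := h.finiteX
  have pz : ∀ {a : X}, a ^ 3 = 1 → IsPGroup 3 (Subgroup.zpowers a) := fun {a} e g => ⟨1, by
    obtain ⟨_, k, rfl⟩ := g
    exact Subtype.ext (by
      change (a ^ k) ^ (3 ^ 1) = 1
      rw [pow_one, ← _root_.zpow_natCast, ← _root_.zpow_mul, mul_comm, _root_.zpow_mul,
        _root_.zpow_natCast, e, _root_.one_zpow])⟩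
  have x3' := p3 x3
  have y3' := p3 y3
  have z3' := p3 hz
  generalize f x = a, f y = b, f z = c at *
  have nm : ∀ (g : X) (s : Set X), (∀ t ∈ s, g * t * g⁻¹ ∈ Subgroup.closure s) →
      Subgroup.zpowers g ≤ Subgroup.normalizer (Subgroup.closure s : Set X) := fun g s hs =>
    Subgroup.zpowers_le.2 (Subgroup.mem_normalizer_fintype fun t ht =>
      (Subgroup.closure_le ((Subgroup.closure s).comap (MulAut.conj g).toMonoidHom)).2 hs ht)
  have P1 : IsPGroup 3 (Subgroup.closure {b, c} : Subgroup X) := by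
    rw [Set.insert_eq, Subgroup.closure_union, ← Subgroup.zpowers_eq_closure b]
    refine (pz y3').to_sup_of_normal_right' (Subgroup.zpowers_eq_closure c ▸ pz z3') (nm _ _ ?_)
    rintro _ rfl
    rw [← hy', mul_inv_cancel_right]
    exact Subgroup.subset_closure rfl
  have mb : b ∈ Subgroup.closure {b, c} := Subgroup.subset_closure (by simp)
  have mc : c ∈ Subgroup.closure {b, c} := Subgroup.subset_closure (by simp)
  have P2 := (pz x3').to_sup_of_normal_right' P1 (nm _ _ (by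
    rintro _ (rfl | rfl)
    · rw [e', ← mul_assoc, mul_inv_cancel_right]; exact Subgroup.mul_mem _ mc mb
    · rw [← hx', mul_inv_cancel_right]; exact mc))
  have := h.syl3X n h3 P2 (Subgroup.mem_sup_left (Subgroup.mem_zpowers a)) (Subgroup.mem_sup_right mb)
  rw [e'] at this
  exact h1 (by simpa using this)

end L3a

open D5 (cov_sl3 sl3_gen sl3m dg3 det_dg3 exists_omega)

theorem Hyp.l3_e9 (h : Hyp ρ π) {r : ℕ} (e : IsL3 X r) (hd : 3 ∣ r - 1) : (3 : K) = 0 := by
  obtain ⟨F, _, _, hF, ⟨e⟩⟩ := e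
  by_contra hK
  obtain ⟨ω, h1, h2⟩ := exists_omega (F := F) (hF ▸ hd)
  exact h.c3e9 hK (cov_sl3 e) h1 h2 trivial trivial trivial trivial

theorem Hyp.l3_even (h : Hyp ρ π) (h2 : (2 : K) = 0) {r : ℕ} (e : IsL3 X r) (h3 : 3 ≤ r)
    (hr : Even r) : False := by
  classical
  by_cases h4 : r = 4
  · subst h4
    exact one_ne_zero (α := K) (by linear_combination h.l3_e9 e (by norm_num) - h2)
  obtain ⟨F, _, _, hF, ⟨e⟩⟩ := e
  have c := cov_sl3 e
  obtain ⟨l, hl, k, hlp, hk⟩ := FiniteField.card' F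
  rw [hF] at hk
  obtain rfl : l = 2 := ((Nat.prime_dvd_prime_iff_eq Nat.prime_two hlp).1
    (Nat.prime_two.dvd_of_dvd_pow (hk ▸ hr.two_dvd))).symm
  have hr0 : (r : K) = 0 := by rw [hk, Nat.cast_pow, Nat.cast_ofNat, h2, zero_pow k.ne_zero]
  obtain ⟨s, hs⟩ := IsCyclic.exists_ofOrder_eq_natCard (α := Fˣ)
  rw [Nat.card_units, Nat.card_eq_fintype_card, hF] at hs
  refine h.c3torus (h.c3inj h2) c (Units.coeHom F) Units.val_injective (fun _ _ => trivial) trivial
    trivial (n := r - 1) (by rw [Nat.cast_sub (by omega), hr0]; simp) (fun s => by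
      rw [← hF, ← Fintype.card_units, pow_card_eq_one]) (s := s) (fun e => ?_)
    fun H w y a b hw hy h1 h2 => sl3_gen H hw h1 fun t => h2 _ (c.inj ?_)
  · have := orderOf_dvd_of_pow_eq_one e
    rw [hs] at this
    have h6 := Nat.le_of_dvd (by norm_num) this
    obtain ⟨j, hj⟩ := hr
    obtain rfl : r = 6 := by omega
    simp at this
  · rw [map_mul, map_mul, hy]
    ext i j
    fin_cases i <;> fin_cases j <;>
      simp [sl3m, dg3, SpecialLinearGroup.transvection_coe, Matrix.mul_apply, Fin.sum_univ_three,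
        Matrix.single, one_apply, mul_comm]

theorem Hyp.l33 (h : Hyp ρ π) (n : NoTv ρ) (h2 : (2 : K) ≠ 0) (e : IsL3 X 3) : False := by
  classical
  obtain ⟨F, _, _, hF, ⟨e⟩⟩ := e
  have c := cov_sl3 e
  have f3 : ((3 : ℕ) : F) = 0 := hF ▸ FiniteField.cast_card_eq_zero F
  let T := fun {i j : Fin 3} (hij : i ≠ j) (a : F) => SpecialLinearGroup.transvection hij a
  have t3 : ∀ {i j : Fin 3} (hij : i ≠ j), T hij 1 ^ 3 = 1 := fun hij => by
    have : ∀ k : ℕ, T hij 1 ^ k = T hij k := fun k => by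
      induction k with
      | zero => simp [T]
      | succ k ih => rw [pow_succ, ih, Nat.cast_succ, ← SpecialLinearGroup.transvection_add]
    rw [this, f3]
    simp [T]
  refine h.c3heis n (e.symm.toMonoidHom.comp (QuotientGroup.mk' _)) (x := T (show 0 ≠ 1 by decide) 1) (y := T (show 1 ≠ 2 by decide) 1)
    (z := T (show 0 ≠ 2 by decide) 1) ?_ ?_ ?_ (fun e => ?_) (t3 _) (t3 _) (t3 _) ?_
  rotate_left 3
  · obtain ⟨t, ht⟩ := (c.ker _).1 e
    simpa [sl3m, T, SpecialLinearGroup.transvection_coe] using congrFun (congrFun ht 0) 2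
  · obtain ⟨d, hd⟩ := c.mk' (dg3 (-1) (-1) 1) (by simp [det_dg3]) trivial
    refine isConj_iff.2 ⟨d, mul_inv_eq_iff_eq_mul.2 (c.inj ?_)⟩
    rw [SpecialLinearGroup.transvection_inv, map_mul, map_mul, hd]
    ext i j
    fin_cases i <;> fin_cases j <;>
      simp [T, dg3, sl3m, SpecialLinearGroup.transvection_coe, Matrix.mul_apply, Fin.sum_univ_three,
        Matrix.single, one_apply]
  iterate 3
    ext i j
    fin_cases i <;> fin_cases j <;>
      simp [T, SpecialLinearGroup.transvection_coe, Matrix.mul_apply, Fin.sum_univ_three,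
        Matrix.single, one_apply]

theorem Hyp.l34_three (h : Hyp ρ π) (e : IsL3 X 4) : (3 : K) = 0 := h.l3_e9 e (by norm_num)

end Cfsg.Agent.D4
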