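import Cfsg.Agent.D4.Lift
import Cfsg.Agent.D4.L3
import Cfsg.Agent.H56.Mod.L34
import Cfsg.Agent.H56.ClsTools

/-!
The group `L₃(4)` in characteristic three.
-/

set_option autoImplicit false

open Matrix
open scoped MatrixGroups

namespace Cfsg.Agent.D4

/-- The kinds of elements of `L₃(4)`. -/
def L34C {G : Type*} [Group G] (x y y' : G) : Prop :=
  x * x = 1 ∨ (x ^ 3 = 1 ∧ x ≠ 1) ∨ (x ^ 4 = 1 ∧ x ^ 2 ≠ 1 ∧ y * x ^ 2 = x ^ 2 * y ∧ y' * x ^ 2 = x ^ 2 * y' ∧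
    y * x ≠ x * y ∧ y' * x ≠ x * y' ∧ y * y' * x ≠ x * (y * y')) ∨ (x ^ 5 = 1 ∧ y * x = x ^ 4 * y) ∨
    (x ^ 7 = 1 ∧ y * x ^ 3 = x ^ 6 * y)

theorem L34C.map {G G' : Type*} [Group G] [Group G'] (φ : G ≃* G') {x y y' : G} (h : L34C x y y') :
    L34C (φ x) (φ y) (φ y') := by
  simpa only [L34C, ← map_mul, ← map_pow, φ.injective.eq_iff, ne_eq, φ.map_eq_one_iff] using h

open H56 H56.L34 H14 in
theorem l34_cls (x : L34.K) : ∃ y y', L34C x y y' := by
  obtain ⟨c, hc, r, h1, h2, -⟩ := exists_cls classes x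
  obtain ⟨k, rfl⟩ := isConj_iff.1 h2
  have s : ∀ Y Y' : ℕ, memOK 5 32 21 certL [Y, Y'] = true → (∀ y y' : L34.K, E.pk y = Y → E.pk y' = Y' → L34C r y y') →
      ∃ y y', L34C (k * r * k⁻¹) y y' := fun Y Y' m e => by
    obtain ⟨y, hy, ey⟩ := inG_of_memOK chain m Y (by simp)
    obtain ⟨y', hy', ey'⟩ := inG_of_memOK chain m Y' (by simp)
    exact ⟨_, _, (e ⟨y, hy⟩ ⟨y', hy'⟩ ey ey').map (MulAut.conj k)⟩
  simp only [cl, List.mem_cons, List.not_mem_nil, or_false] at hc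
  rcases hc with rfl | rfl | rfl | rfl | rfl | rfl | rfl | rfl | rfl | rfl
  on_goal 1 => refine s c1a.X c1a.X (by decide +kernel) fun y y' e e' => ?_
  on_goal 2 => refine s c1a.X c1a.X (by decide +kernel) fun y y' e e' => ?_
  on_goal 3 => refine s c1a.X c1a.X (by decide +kernel) fun y y' e e' => ?_
  on_goal 4 =>
    refine s 0x57999098d3159da154a8470900 0x7446500b5c659473a3144489e0 (by decide +kernel) fun y y' e e' => ?_
  on_goal 5 =>
    refine s 0xf28d30a198d5a22a0ba64908e0 0x12750f01cd0a5b02d894c478920 (by decide +kernel) fun y y' e e' => ?_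
  on_goal 6 =>
    refine s 0x116a28b29e6982992719e219020 0xd8ba644ca85129e7419901ac20 (by decide +kernel) fun y y' e e' => ?_
  on_goal 7 => refine s 0x1169e904a265599ee9298408860 c1a.X (by decide +kernel) fun y y' e e' => ?_
  on_goal 8 => refine s 0xa1c825138cb650883b6099be20 c1a.X (by decide +kernel) fun y y' e e' => ?_
  on_goal 9 => refine s 0x11a1a6e60da53ad21511f282040 c1a.X (by decide +kernel) fun y y' e e' => ?_
  on_goal 10 => refine s 0x146a26f33a2129147940695b040 c1a.X (by decide +kernel) fun y y' e e' => ?_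
  all_goals
    simp only [L34C, Ne, Subtype.ext_iff, Subgroup.coe_mul, Subgroup.coe_pow, Subgroup.coe_one, ← E.pk_inj, E.pk_mul,
      E.pk_pow, E.pk_one, h1, e, e']
    decide +kernel

variable {K : Type*} [Field K] {Γ X : Type*} [Group Γ] [Group X] {ρ : Γ →* M4 K} {π : Γ →* X}

theorem Hyp.l34_ker (h : Hyp ρ π) {z : Γ} (hz : π z = 1) :
    ∃ c : K, (c = 1 → z = 1) ∧ ∀ g, (ρ (z * g)).trace = c * (ρ g).trace :=
  let ⟨c, e⟩ := (h.ker z).1 hz
  ⟨c, fun c1 => h.inj (by rw [e, c1, one_smul, map_one]), fun g => by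
    rw [map_mul, e, smul_mul_assoc, one_mul, trace_smul, smul_eq_mul]⟩

theorem Hyp.l34_odd (h : Hyp ρ π) {s : Γ} {n : ℕ} (hn : Nat.Coprime n 4) (hs : π s ^ n = 1)
    (e : ∀ u, π u = π s → u ^ n = 1 → (ρ (u ^ 3)).trace = (ρ u⁻¹).trace) : (ρ (s ^ 3)).trace = (ρ s⁻¹).trace := by
  obtain ⟨u, hu, un⟩ := h.exists_lift hn hs
  obtain ⟨z, hz, rfl⟩ := h.exists_ker_of_eq hu.symm
  have c : Commute z u := h.ker_comm hz u
  obtain ⟨d, -, hd⟩ := h.l34_ker (z := z ^ 3) (by rw [map_pow, hz, one_pow])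
  rw [c.mul_pow, c.eq, _root_.mul_inv_rev, inv_eq_of_mul_eq_one_left (a := z ^ 3) (by rw [← pow_succ, h.ker_fourth hz]),
    hd, hd, e u hu un]

theorem l34_newton (h3 : (3 : K) = 0) {a b c d : K} (ha : a ^ 5 = 1) (hb : b ^ 5 = 1) (hc : c ^ 5 = 1) (hd : d ^ 5 = 1)
    (e : a * b * c * d = 1) (e1 : a ^ 4 + b ^ 4 + c ^ 4 + d ^ 4 = a + b + c + d)
    (e2 : a ^ 3 + b ^ 3 + c ^ 3 + d ^ 3 = a ^ 2 + b ^ 2 + c ^ 2 + d ^ 2)
    (e3 : (a + b + c + d) ^ 2 - (a ^ 2 + b ^ 2 + c ^ 2 + d ^ 2) = 2) : a + b + c + d = -1 := by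
  have f2 : a * b + a * c + a * d + b * c + b * d + c * d = 1 := by
    linear_combination -e3 + (a * b + a * c + a * d + b * c + b * d + c * d - 1) * h3
  have f3 : b * c * d + a * c * d + a * b * d + a * b * c = a + b + c + d := by
    linear_combination e1 + (a ^ 4 + b ^ 4 + c ^ 4 + d ^ 4) * e - b * c * d * ha - a * c * d * hb - a * b * d * hc -
      a * b * c * hd
  have n4 : a ^ 4 + b ^ 4 + c ^ 4 + d ^ 4 = (a + b + c + d) * (a ^ 3 + b ^ 3 + c ^ 3 + d ^ 3) -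
      (a * b + a * c + a * d + b * c + b * d + c * d) * (a ^ 2 + b ^ 2 + c ^ 2 + d ^ 2) +
      (b * c * d + a * c * d + a * b * d + a * b * c) * (a + b + c + d) - 4 * (a * b * c * d) := by ring
  rw [e1, e2, f2, f3, e] at n4
  generalize a + b + c + d = t at e3 n4
  generalize a ^ 2 + b ^ 2 + c ^ 2 + d ^ 2 = s at e3 n4
  exact eq_neg_of_add_eq_zero_left (pow_eq_zero_iff three_ne_zero |>.1 (by
    linear_combination -n4 + (t - 1) * e3 + (t ^ 2 + 2 * t + 1) * h3))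

variable [IsAlgClosed K] [Finite Γ]

omit [Finite Γ] in
theorem Hyp.l34_five (h : Hyp ρ π) (h3 : (3 : K) = 0) {u : Γ} (u5 : u ^ 5 = 1) (c : IsConj u (u ^ 4))
    (h5 : (ρ u).trace ^ 2 - (ρ (u * u)).trace = 2) : (ρ u).trace = -1 := by
  obtain ⟨B, d, hd⟩ := exists_diag ρ (fun _ : Unit => u) (fun _ _ => rfl) fun _ =>
    ⟨5, fun c => one_ne_zero (α := K) (by push_cast at c; linear_combination 2 * h3 - c), u5⟩
  replace hd := hd ()
  generalize d () = d at hd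
  have t : ∀ k : ℕ, (ρ (u ^ k)).trace = d 0 ^ k + d 1 ^ k + d 2 ^ k + d 3 ^ k := fun k => by
    rw [← trace_cnj B, map_pow, hd, diagonal_pow, trace_diagonal, Fin.sum_univ_four]; rfl
  have d5 : ∀ i, d i ^ 5 = 1 := fun i => by
    have := congrFun₂ (congrArg (D4.cnj ρ B) u5) i i
    rwa [map_pow, hd, diagonal_pow, map_one, diagonal_apply_eq, one_apply_eq] at this
  have dt := (h.cnj B).det u
  rw [hd, det_diagonal, Fin.prod_univ_four] at dt
  obtain ⟨k, e⟩ := isConj_iff.1 c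
  have t1 := t 1
  simp only [pow_one] at t1
  rw [← sq u, t] at h5
  rw [t1] at h5 ⊢
  refine l34_newton h3 (d5 0) (d5 1) (d5 2) (d5 3) dt (by rw [← t, ← e, trace_conj, t1]) ?_ h5
  rw [← t, ← t, ← trace_conj ρ (u ^ 2) k, ← conj_pow, e, ← pow_mul, show 4 * 2 = 5 + 3 from rfl, pow_add, u5, one_mul]

theorem Hyp.l34 (h : Hyp ρ π) (n : NoRf ρ) (h3 : (3 : K) = 0) (e : IsL3 X 4)
    (h5 : ∀ g, g ^ 5 = 1 → g ≠ 1 → (ρ g).trace ^ 2 - (ρ (g * g)).trace = 2) : FrobInv ρ 3 := fun g => by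
  have : CharP K 3 := (CharP.charP_iff_prime_eq_zero Nat.prime_three).2 (by exact_mod_cast h3)
  have h2 : (2 : K) ≠ 0 := fun c => one_ne_zero (α := K) (by linear_combination h3 - c)
  obtain ⟨F, _, _, hF, ⟨e⟩⟩ := e
  obtain ⟨e'⟩ := H56.L34.equiv hF
  obtain ⟨k, e1, e2, hk⟩ := trace_part (ρ := ρ) 3 g
  rw [← e1, ← e2]
  generalize g ^ k = s at hk
  obtain ⟨y, y', c⟩ := l34_cls (e.trans e' (π s))
  replace c := c.map (e.trans e').symm
  rw [MulEquiv.symm_apply_apply] at c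
  obtain ⟨y, ey⟩ := h.surj ((e.trans e').symm y)
  rw [← ey] at c
  have four : s ^ 4 = 1 → (ρ s).trace ^ 3 = (ρ s⁻¹).trace := fun c => by
    rw [trace_pow_p, inv_eq_of_mul_eq_one_left (a := s ^ 3) (by rw [← pow_succ, c])]
  rcases c with c | ⟨c, c1⟩ | ⟨c, c1, c2, c3, c4, c5, c6⟩ | ⟨c, c1⟩ | ⟨c, c1⟩
  · by_cases s1 : π s = 1
    · exact four (h.ker_fourth s1)
    · rw [h.inv_tr n h2 (by rw [map_mul, c]) s1, h.inv_tr n h2 (by
        rw [map_mul, map_inv, ← _root_.mul_inv_rev, c, inv_one]) (by simpa using s1), zero_pow three_ne_zero]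
  · exact absurd ((orderOf_eq_prime c c1).symm.dvd.trans (orderOf_map_dvd π s)) hk
  · rcases h.ord4 n h2 (orderOf_eq_prime_pow (p := 2) (n := 1) c1 c) with t | t | t
    · obtain ⟨d, -, hd⟩ := h.l34_ker (z := (s ^ 4)⁻¹) (by rw [map_inv, map_pow, c, inv_one])
      rw [show s⁻¹ = (s ^ 4)⁻¹ * s ^ 3 by group, hd, ← trace_pow_p, t, zero_pow three_ne_zero, mul_zero]
    · exact four t.1
    · exact absurd (t _ _ c2 c3) (not_or.2 ⟨c4, not_or.2 ⟨c5, c6⟩⟩)
  · rw [trace_pow_p]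
    refine h.l34_odd (by norm_num) c fun u hu u5 => ?_
    by_cases u1 : u = 1
    · rw [u1, one_pow, inv_one]
    have cj := h.conj_lift (k := y) (b := u ^ 4) (n := 5) (by norm_num) u5 (by rw [← pow_mul, mul_comm, pow_mul, u5, one_pow])
      (by rw [map_pow, hu, c1, mul_inv_cancel_right])
    rw [← trace_pow_p, inv_eq_of_mul_eq_one_left (a := u ^ 4) (by rw [← pow_succ, u5]), ← cj, trace_conj,
      h.l34_five h3 u5 (isConj_iff.2 ⟨y, cj⟩) (h5 u u5 u1)]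
    norm_num
  · rw [trace_pow_p]
    refine h.l34_odd (by norm_num) c fun u hu u7 => ?_
    have p7 : ∀ m, (u ^ m) ^ 7 = 1 := fun m => by rw [← pow_mul, mul_comm, pow_mul, u7, one_pow]
    rw [inv_eq_of_mul_eq_one_left (a := u ^ 6) (by rw [← pow_succ, u7]), ← h.conj_lift (k := y) (n := 7) (by norm_num) (p7 3)
      (p7 6) (by rw [map_pow, map_pow, hu, c1, mul_inv_cancel_right]), trace_conj]

end Cfsg.Agent.D4
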