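import Cfsg.Agent.D4.L2
import Cfsg.Agent.H29.Transport

/-!
Generators, relations and conjugacy classes of `L₂(7)`.
-/

set_option autoImplicit false

open Matrix
open scoped MatrixGroups

namespace Cfsg.Agent.D4

namespace L7

open H90 D5.L2

/-- Generators, relations and classes of `L₂(7)`. -/
structure X7 {X : Type*} [Group X] (a b d : X) : Prop where
  u7 : a ^ 7 = 1
  u1 : a ≠ 1
  w2 : b * b = 1
  w1 : b ≠ 1
  wu : (b * a) ^ 3 = 1
  d3 : d ^ 3 = 1
  du : d * a * d⁻¹ = a ^ 4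
  cj : IsConj d (b * a)
  cj' : IsConj d d⁻¹
  w4 : (b * a ^ 3) ^ 4 = 1
  w4' : (b * a ^ 3) ^ 2 ≠ 1
  gen : ∀ H : Subgroup X, a ∈ H → b ∈ H → H = ⊤
  cls : ∀ x, (∃ j : ℕ, IsConj (a ^ j) x) ∨ IsConj b x ∨ IsConj d x ∨ IsConj (b * a ^ 3) x

instance factSeven : Fact (Nat.Prime 7) := ⟨by norm_num⟩

/-- The unipotent generator. -/
def su : SL(2, ZMod 7) := ⟨!![1, 1; 0, 1], by decide +kernel⟩
/-- The Weyl element. -/
def sw : SL(2, ZMod 7) := ⟨!![0, -1; 1, 0], by decide +kernel⟩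
/-- The diagonal element of order three. -/
def sd : SL(2, ZMod 7) := ⟨!![2, 0; 0, 4], by decide +kernel⟩

theorem su_eq : SpecialLinearGroup.transvection (zero_ne_one (α := Fin 2)) 1 = su := by
  decide +kernel

theorem sw_conj : ∀ c : ZMod 7, SpecialLinearGroup.transvection (one_ne_zero (α := Fin 2)) c =
    sw * SpecialLinearGroup.transvection (zero_ne_one (α := Fin 2)) (-c) * sw⁻¹ := by
  decide +kernel

theorem gen7 (H : Subgroup SL(2, ZMod 7)) (h1 : su ∈ H) (h2 : sw ∈ H) (A : SL(2, ZMod 7)) :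
    A ∈ H := by
  have k1 : ∀ n : ℕ, SpecialLinearGroup.transvection (zero_ne_one (α := Fin 2))
      (n : ZMod 7) ∈ H := fun n => by
    induction n with
    | zero => simp
    | succ n ih =>
      rw [Nat.cast_succ, SpecialLinearGroup.transvection_add]
      exact H.mul_mem ih (su_eq ▸ h1)
  have k2 : ∀ c : ZMod 7, SpecialLinearGroup.transvection (zero_ne_one (α := Fin 2)) c ∈ H :=
    fun c => ZMod.natCast_zmod_val c ▸ k1 _
  refine SL2.transvection_induction (· ∈ H) (fun i j h c => ?_) (fun _ _ => H.mul_mem) A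
  fin_cases i <;> fin_cases j
  · exact (h rfl).elim
  · exact k2 c
  · exact (sw_conj c).symm ▸ H.mul_mem (H.mul_mem h2 (k2 (-c))) (H.inv_mem h2)
  · exact (h rfl).elim

theorem cases_trace : ∀ t : ZMod 7, (t = 2 ∨ t = 0 ∨ t = 6 ∨ t = 3) ∨
    (-t = 2 ∨ -t = 0 ∨ -t = 6 ∨ -t = 3) := by decide +kernel

theorem cls7 {x : SL(2, ZMod 7)}
    (h : x.1.trace = 2 ∨ x.1.trace = 0 ∨ x.1.trace = 6 ∨ x.1.trace = 3) :
    (∃ j : ℕ, IsConj (su ^ j) x) ∨ IsConj sw x ∨ IsConj sd x ∨ IsConj (sw * su ^ 3) x := by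
  have c2 : (2 : ZMod 7) ≠ 0 := by decide
  rcases h with h | h | h | h
  · obtain ⟨y, a, e⟩ := exists_xu h
    refine Or.inl ⟨a.val, isConj_iff.2 ⟨y, ?_⟩⟩
    rw [e, show su = xu 1 from rfl, xu_pow, mul_one, ZMod.natCast_zmod_val]
  · exact Or.inr (Or.inl (conj_of_trace_eq c2 (by rw [h]; decide +kernel) (by decide +kernel)
      (by decide +kernel)))
  · exact Or.inr (Or.inr (Or.inl (conj_of_trace_eq c2 (by rw [h]; decide +kernel)
      (by decide +kernel) (by decide +kernel))))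
  · exact Or.inr (Or.inr (Or.inr (conj_of_trace_eq c2 (by rw [h]; decide +kernel)
      (by decide +kernel) (by decide +kernel))))

theorem exists_x7 {X : Type*} [Group X] (e : IsL2 X 7) : ∃ a b d : X, X7 a b d := by
  obtain ⟨F, _, _, hF, ⟨e⟩⟩ := e
  have e' := e.trans (H29.pslEquiv _ (ZMod.ringEquivOfPrime F (by norm_num) hF).symm)
  obtain ⟨ψ, sj, ng, kr⟩ : ∃ ψ : SL(2, ZMod 7) →* X, Function.Surjective ψ ∧
      (∀ x, ψ (-x) = ψ x) ∧ ∀ x, ψ x = 1 → x = 1 ∨ x = -1 :=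
    ⟨e'.symm.toMonoidHom.comp (pr _), e'.symm.surjective.comp (QuotientGroup.mk'_surjective _),
      fun x => congrArg e'.symm (pr_neg x), fun x hx => sl2_center
        ((QuotientGroup.eq_one_iff x).1 (e'.symm.injective (hx.trans (map_one _).symm)))⟩
  have n1 : ψ (-1) = 1 := by rw [ng, map_one]
  have c2 : (2 : ZMod 7) ≠ 0 := by decide
  refine ⟨ψ su, ψ sw, ψ sd, ?_, fun h => ?_, ?_, fun h => ?_, ?_, ?_, ?_, ?_, ?_, ?_, fun h => ?_,
    fun H h1 h2 => ?_, fun x => ?_⟩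
  · rw [← map_pow, show su ^ 7 = 1 by decide +kernel, map_one]
  · exact absurd (kr _ h) (by decide +kernel)
  · rw [← map_mul, show sw * sw = -1 by decide +kernel, n1]
  · exact absurd (kr _ h) (by decide +kernel)
  · rw [← map_mul, ← map_pow, show (sw * su) ^ 3 = -1 by decide +kernel, n1]
  · rw [← map_pow, show sd ^ 3 = 1 by decide +kernel, map_one]
  · rw [← map_inv, ← map_mul, ← map_mul, ← map_pow,
      show sd * su * sd⁻¹ = su ^ 4 by decide +kernel]
  · rw [← map_mul, ← ng (sw * su)]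
    exact ψ.map_isConj (conj_of_trace_eq c2 (by decide +kernel) (by decide +kernel)
      (by decide +kernel))
  · rw [← map_inv]
    exact ψ.map_isConj (conj_of_trace_eq c2 (by decide +kernel) (by decide +kernel)
      (by decide +kernel))
  · rw [← map_pow, ← map_mul, ← map_pow, show (sw * su ^ 3) ^ 4 = -1 by decide +kernel, n1]
  · rw [← map_pow, ← map_mul, ← map_pow] at h
    exact absurd (kr _ h) (by decide +kernel)
  · refine eq_top_iff.2 fun x _ => ?_
    obtain ⟨y, rfl⟩ := sj x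
    exact gen7 (H.comap ψ) h1 h2 y
  · obtain ⟨y, rfl⟩ := sj x
    have k : ∀ y : SL(2, ZMod 7), _ → (∃ j : ℕ, IsConj (ψ su ^ j) (ψ y)) ∨ IsConj (ψ sw) (ψ y) ∨
        IsConj (ψ sd) (ψ y) ∨ IsConj (ψ sw * ψ su ^ 3) (ψ y) := fun y h =>
      (cls7 (x := y) h).imp (Exists.imp fun j c => by simpa using ψ.map_isConj c)
        (Or.imp ψ.map_isConj (Or.imp ψ.map_isConj fun c => by simpa using ψ.map_isConj c))
    rcases cases_trace y.1.trace with h | h
    · exact k y h
    · exact ng y ▸ k (-y) (by rwa [SpecialLinearGroup.coe_neg, trace_neg])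

end L7

end Cfsg.Agent.D4
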