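import Cfsg.Agent.D4.L2
import Cfsg.Agent.D4.Defs4
import Cfsg.Agent.D4.L7a

/-!
The group `L₂(7)`.
-/

set_option autoImplicit false
set_option linter.unusedSectionVars false

open Matrix
open scoped MatrixGroups

namespace Cfsg.Agent.D4

variable {K : Type*} [Field K] {Γ X : Type*} [Group Γ] [Group X] {ρ : Γ →* M4 K} {π : Γ →* X}
variable [IsAlgClosed K] [Finite Γ]

namespace L7

theorem geom {θ : K} (h : θ ^ 7 = 1) (h1 : θ ≠ 1) :
    1 + θ + θ ^ 2 + θ ^ 3 + θ ^ 4 + θ ^ 5 + θ ^ 6 = 0 :=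
  mul_left_cancel₀ (sub_ne_zero.2 h1) (by linear_combination h)

theorem pow_ne {θ : K} (h : θ ^ 7 = 1) (h1 : θ ≠ 1) {k : ℕ} (hk : Nat.Coprime k 7) :
    θ ^ k ≠ 1 := fun e => h1 (Sm.eq_one_of_cop e h hk)

theorem pow_ne' {θ : K} (h : θ ^ 7 = 1) (h1 : θ ≠ 1) {a b : ℕ} (hk : Nat.Coprime b 7) :
    θ ^ a ≠ θ ^ (a + b) := fun e => pow_ne h h1 hk (mul_left_cancel₀
      (pow_ne_zero a (show θ ≠ 0 by rintro rfl; simp at h)) (by rw [← pow_add, ← e, mul_one]))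

/-- The weights of an element of order seven. -/
theorem wts (h : Hyp ρ π) (h7 : (7 : K) ≠ 0) {u m : Γ} (u7 : u ^ 7 = 1) (u1 : u ≠ 1)
    (e : m * u * m⁻¹ = u ^ 4) : ∃ (B : (M4 K)ˣ) (η : K), η ^ 7 = 1 ∧ η ≠ 1 ∧
      cnj ρ B u = diagonal ![1, η, η ^ 2, η ^ 4] := by
  obtain ⟨B, d, hd⟩ := exists_diag ρ (fun _ : Unit => u) (fun _ _ => rfl) fun _ =>
    ⟨7, by exact_mod_cast h7, u7⟩
  replace hd := hd ()
  generalize d () = d at hd
  obtain ⟨τ, -, hτ⟩ := wt_perm (cnj ρ B) m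
  replace hτ := hτ u d _ hd (e ▸ Sm.diag_pow hd 4)
  have d7 := Sm.diag_pow_one hd u7
  have t2 : ∀ k, d (τ k) = d k ^ 2 := fun k => by
    rw [← hτ k]; linear_combination (-d (τ k)) * d7 (τ k)
  obtain ⟨k, hk⟩ : ∃ k, d k ≠ 1 := by
    by_contra hc
    push Not at hc
    exact u1 (Sm.eq_one_of_diag (Sm.cnj_inj h.inj B) hd hc)
  have t4 : d (τ (τ k)) = d k ^ 4 := by rw [t2, t2, ← pow_mul]
  have n1 : k ≠ τ k := fun e => pow_ne' (d7 k) hk (a := 1) (b := 1) (by norm_num) (by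
    rw [pow_one, ← t2, ← e])
  have n2 : k ≠ τ (τ k) := fun e => pow_ne' (d7 k) hk (a := 1) (b := 3) (by norm_num) (by
    rw [pow_one, ← t4, ← e])
  have n3 : τ k ≠ τ (τ k) := fun e => n1 (τ.injective e)
  obtain ⟨s, s1, s2, s3⟩ := (by decide +kernel : ∀ a b c : Fin 4, a ≠ b → a ≠ c → b ≠ c →
    ∃ s : Equiv.Perm (Fin 4), s 1 = a ∧ s 2 = b ∧ s 3 = c) _ _ _ n1 n2 n3
  obtain ⟨P, hP⟩ : ∃ P : (M4 K)ˣ, P⁻¹.val * diagonal d * P.val = diagonal (d ∘ s) :=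
    ⟨⟨(s⁻¹).permMatrix K, s.permMatrix K, by rw [← permMatrix_mul]; simp,
      by rw [← permMatrix_mul]; simp⟩, by
      change s.toPEquiv.toMatrix * diagonal d * (s⁻¹).toPEquiv.toMatrix = _
      rw [PEquiv.toMatrix_toPEquiv_mul, PEquiv.mul_toMatrix_toPEquiv]
      ext i j
      simp [diagonal_apply, Equiv.Perm.inv_def]⟩
  have e1 : cnj ρ (B * P) u = diagonal (d ∘ s) := by rw [cnj_mul, cnj_apply, hd, hP]
  have e2 := (h.cnj (B * P)).det u
  rw [e1, det_diagonal] at e2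
  simp only [Fin.prod_univ_four, Function.comp_apply, s1, s2, s3, t4, t2 k] at e2
  refine ⟨B * P, d k, d7 k, hk, e1.trans (congrArg _ ?_)⟩
  ext i
  fin_cases i
  · change d (s 0) = 1
    linear_combination e2 - d (s 0) * d7 k
  · exact congrArg d s1
  · exact (congrArg d s2).trans (t2 k)
  · exact (congrArg d s3).trans t4

theorem tr_pow {B : (M4 K)ˣ} {η : K} {u : Γ} (e : cnj ρ B u = diagonal ![1, η, η ^ 2, η ^ 4])
    (w : Γ) (j : ℕ) : (ρ (w * u ^ j)).trace = cnj ρ B w 0 0 + cnj ρ B w 1 1 * η ^ j +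
      cnj ρ B w 2 2 * (η ^ 2) ^ j + cnj ρ B w 3 3 * (η ^ 4) ^ j := by
  rw [← trace_cnj B, map_mul, Sm.diag_pow e]
  simp [trace, Fin.sum_univ_four]

theorem tr_u {B : (M4 K)ˣ} {η : K} {u : Γ} (e : cnj ρ B u = diagonal ![1, η, η ^ 2, η ^ 4])
    (u7 : u ^ 7 = 1) (h : η ^ 7 = 1) : (ρ u).trace = 1 + η + η ^ 2 + η ^ 4 ∧
      (ρ u⁻¹).trace = 1 + η ^ 3 + η ^ 5 + η ^ 6 := by
  have a := tr_pow e 1 1
  have b := tr_pow e 1 6
  rw [one_mul, map_one] at a b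
  rw [show u ^ 6 = u⁻¹ from eq_inv_of_mul_eq_one_left (by rw [← pow_succ, u7])] at b
  simp only [one_apply_eq, pow_one, one_mul] at a b
  exact ⟨a, by linear_combination b + (η ^ 5 + η ^ 3 * (η ^ 14 + η ^ 7 + 1)) * h⟩

theorem sev (h : Hyp ρ π) (h7 : (7 : K) ≠ 0) {u m : Γ} (u7 : u ^ 7 = 1) (u1 : u ≠ 1)
    (e : m * u * m⁻¹ = u ^ 4) : (ρ u⁻¹).trace ≠ (ρ u).trace := by
  obtain ⟨B, η, a, b, c⟩ := wts h h7 u7 u1 e
  obtain ⟨t1, t2⟩ := tr_u c u7 a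
  rw [t1, t2]
  intro k
  have g := geom a b
  apply h7
  linear_combination (η + η ^ 2 + η ^ 4 - η ^ 3 - η ^ 5 - η ^ 6) * k +
    (η + η ^ 2 + η ^ 3 + η ^ 4 + η ^ 5 + η ^ 6 - 5) * g - 4 * (3 + η + η ^ 2 + η ^ 3) * a

/-- The element of order three. -/
theorem three (h : Hyp ρ π) (h7 : (7 : K) ≠ 0) {u m : Γ} (u7 : u ^ 7 = 1) (u1 : u ≠ 1)
    (e : m * u * m⁻¹ = u ^ 4) (m3 : m ^ 3 = 1) : (ρ m).trace = 1 ∧ (ρ m - 1).rank ≤ 2 := by
  obtain ⟨B, η, a, b, c⟩ := wts h h7 u7 u1 e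
  have c' : cnj ρ B (m * u * m⁻¹) = diagonal ![1, η ^ 4, η, η ^ 2] := by
    rw [e, Sm.diag_pow c]
    congr 1
    ext i
    fin_cases i
    · simp
    · rfl
    · change (η ^ 2) ^ 4 = η
      linear_combination η * a
    · change (η ^ 4) ^ 4 = η ^ 2
      linear_combination η ^ 2 * (η ^ 7 + 1) * a
  have n1 := pow_ne a b (k := 2) (by norm_num)
  have n2 := pow_ne a b (k := 4) (by norm_num)
  have n3 := pow_ne' a b (a := 1) (b := 1) (by norm_num)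
  have n4 := pow_ne' a b (a := 1) (b := 3) (by norm_num)
  have n5 := pow_ne' a b (a := 2) (b := 2) (by norm_num)
  rw [pow_one] at n3 n4
  norm_num at n3 n4 n5
  have z : ∀ i k, (![1, η ^ 4, η, η ^ 2] : V4 K) i ≠ (![1, η, η ^ 2, η ^ 4] : V4 K) k →
      cnj ρ B m i k = 0 := fun i k hn => by_contra fun h0 => hn (Sm.entry c c' h0)
  have d := (h.cnj B).det m
  have t : cnj ρ B m * cnj ρ B m * cnj ρ B m = 1 := by
    rw [← map_mul, ← map_mul, ← pow_three', m3, map_one]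
  rw [← trace_cnj B, ← rank_cnj B]
  have eM : cnj ρ B m = !![cnj ρ B m 0 0, 0, 0, 0; 0, 0, 0, cnj ρ B m 1 3;
      0, cnj ρ B m 2 1, 0, 0; 0, 0, cnj ρ B m 3 2, 0] := by
    ext i k
    fin_cases i <;> fin_cases k <;> first | rfl | exact z _ _ (by
      first | exact b | exact b.symm | exact n1 | exact n1.symm | exact n2 | exact n2.symm |
        exact n3 | exact Ne.symm n3 | exact n4 | exact Ne.symm n4 | exact n5 | exact Ne.symm n5)
  rw [eM] at d t ⊢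
  generalize cnj ρ B m 0 0 = x, cnj ρ B m 1 3 = y, cnj ρ B m 2 1 = z, cnj ρ B m 3 2 = w at d t ⊢
  have t1 := congrFun (congrFun t 1) 1
  simp [mul_apply, Fin.sum_univ_four] at t1
  simp [det_succ_row_zero, Fin.sum_univ_succ, Fin.succAbove] at d
  have x1 : x = 1 := by linear_combination d - x * t1
  refine ⟨by simp [trace, Fin.sum_univ_four, x1], ?_⟩
  have : (!![x, 0, 0, 0; 0, 0, 0, y; 0, z, 0, 0; 0, 0, w, 0] : M4 K) - 1 =
      !![0, 0; 1, 0; 0, 1; -w * z, -w] * !![0, -1, 0, y; 0, z, -1, 0] := by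
    ext i k
    fin_cases i <;> fin_cases k <;> simp [mul_apply, Fin.sum_univ_two, x1]
    linear_combination -t1
  rw [this]
  exact (rank_mul_le_left _ _).trans (rank_le_width _)

theorem lift_conj (h : Hyp ρ π) {a b : Γ} (e : IsConj (π a) (π b)) :
    ∃ k z, π z = 1 ∧ b = z * (k * a * k⁻¹) := by
  obtain ⟨x, hx⟩ := isConj_iff.1 e
  obtain ⟨k, rfl⟩ := h.surj x
  obtain ⟨z, h1, h2⟩ := h.exists_ker_of_eq (a := b) (b := k * a * k⁻¹) (by simp [hx])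
  exact ⟨k, z, h1, h2⟩

theorem tr_conj (h : Hyp ρ π) (k2 : ∀ z, π z = 1 → z * z = 1) {a b : Γ}
    (e : IsConj (π a) (π b)) : ∃ c : K, (c = 1 ∨ c = -1) ∧ (ρ b).trace = c * (ρ a).trace ∧
      (ρ b⁻¹).trace = c * (ρ a⁻¹).trace := by
  obtain ⟨k, z, h1, rfl⟩ := lift_conj h e
  obtain ⟨c, hc⟩ := (h.ker z).1 h1
  refine ⟨c, mul_self_eq_one_iff.1 (smul_one_inj ?_), ?_, ?_⟩
  · rw [← one_mul (1 : M4 K), ← smul_mul_smul_comm, ← hc, ← map_mul, k2 z h1]; simp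
  · rw [map_mul, hc, smul_mul_assoc, one_mul, trace_smul, trace_conj, smul_eq_mul]
  · rw [_root_.mul_inv_rev, conj_inv, ← eq_inv_of_mul_eq_one_left (k2 z h1), map_mul, hc,
      mul_smul_comm, mul_one, trace_smul, trace_conj, smul_eq_mul]

/-- Lifts of the generators. -/
structure G7 (π : Γ →* X) (u w m : Γ) : Prop where
  x : X7 (π u) (π w) (π m)
  u7 : u ^ 7 = 1
  m3 : m ^ 3 = 1
  wu : (w * u) ^ 3 = 1
  mu : m * u * m⁻¹ = u ^ 4
  cj : IsConj m (w * u)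
  cj' : IsConj m m⁻¹

theorem G7.u1 {u w m : Γ} (g : G7 π u w m) : u ≠ 1 := fun e => g.x.u1 (by rw [e, map_one])

theorem exists_g7 (h : Hyp ρ π) (e : IsL2 X 7) : ∃ u w m, G7 π u w m := by
  obtain ⟨a, b, d, x⟩ := exists_x7 e
  obtain ⟨u, rfl, u7⟩ := h.exists_lift (n := 7) (by norm_num) x.u7
  obtain ⟨m, rfl, m3⟩ := h.exists_lift (n := 3) (by norm_num) x.d3
  obtain ⟨v, hv, v3⟩ := h.exists_lift (n := 3) (by norm_num) x.wu
  obtain ⟨w, rfl⟩ : ∃ w, v = w * u := ⟨v * u⁻¹, by simp⟩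
  rw [map_mul, mul_left_inj] at hv
  subst hv
  have cj : ∀ {a b : Γ}, a ^ 3 = 1 → b ^ 3 = 1 → IsConj (π a) (π b) → IsConj a b :=
    fun {a b} ha hb c => by
      obtain ⟨y, hy⟩ := isConj_iff.1 c
      obtain ⟨k, rfl⟩ := h.surj y
      exact isConj_iff.2 ⟨k, h.conj_lift (by norm_num) ha hb hy⟩
  refine ⟨u, w, m, x, u7, m3, v3, h.conj_lift (n := 7) (by norm_num) u7
    (by rw [← pow_mul, mul_comm, pow_mul, u7, one_pow]) (by rw [map_pow, x.du]),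
    cj m3 v3 (by rw [map_mul]; exact x.cj), cj m3 (by rw [inv_pow, m3, inv_one])
    (by rw [map_inv]; exact x.cj')⟩

theorem tr_of_conj {a b : Γ} (e : IsConj a b) : (ρ b).trace = (ρ a).trace := by
  obtain ⟨k, rfl⟩ := isConj_iff.1 e
  exact trace_conj ρ a k

theorem G7.sq_ne {u w m : Γ} (g : G7 π u w m) (h : Hyp ρ π) (n : NoRf ρ) (h7 : (7 : K) ≠ 0) :
    w * w ≠ 1 := fun e => by
  have r1 : (ρ w - 1).rank ≤ 2 := by
    by_cases h2 : (2 : K) = 0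
    · refine rank_sq ?_
      rw [sub_mul, mul_sub, ← map_mul, e, map_one, mul_one, one_mul]
      linear_combination (norm := module) h2 • (1 - ρ w)
    · classical
      obtain ⟨B, c, -, hc⟩ := h.inv_std n h2 (g := w) (by rw [e, map_one]) g.x.w1
      have := Sm.diag_pow_one hc (n := 2) (by rw [sq, e]) 0
      rw [← rank_cnj B, hc, rank_diag]
      rcases sq_eq_one_iff.1 this with e | e
      · refine (Finset.card_le_card (t := {2, 3}) fun k hk => ?_).trans Finset.card_le_two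
        fin_cases k <;> simp_all
      · refine (Finset.card_le_card (t := {0, 1}) fun k hk => ?_).trans Finset.card_le_two
        fin_cases k <;> simp_all
  have r2 : (ρ (w * u) - 1).rank ≤ 2 := by
    obtain ⟨k, hk⟩ := isConj_iff.1 g.cj
    have : ρ (w * u) - 1 = ρ k * ((ρ m - 1) * ρ k⁻¹) := by
      rw [← hk, sub_mul, mul_sub, one_mul, mul_inv_rho, map_mul, map_mul, mul_assoc]
    rw [this]
    exact (rank_mul_le_right _ _).trans ((rank_mul_le_left _ _).trans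
      (three h h7 g.u7 g.u1 g.mu g.m3).2)
  have r3 : (ρ u⁻¹ - 1).rank ≤ 3 := rank_three (r := 7) (m := 2) (Or.inl ⟨rfl, rfl⟩)
    (by exact_mod_cast h7) (by rw [inv_pow, g.u7, inv_one]) (isConj_iff.2 ⟨m * m, by
      rw [← conj_inv, inv_pow, show m * m * u * (m * m)⁻¹ = m * (m * u * m⁻¹) * m⁻¹ by group, g.mu,
        ← conj_pow, g.mu, ← pow_mul, pow_eq_pow_mod _ g.u7]⟩)
  have := h.scott (a := w) (b := w * u) (c := u⁻¹) (by rw [← mul_assoc, e]; simp) fun H h1 h2 => by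
    have h3 : u ∈ H := (H.mul_mem_cancel_left h1).1 h2
    have h4 := g.x.gen (H.map π) ⟨u, h3, rfl⟩ ⟨w, h1, rfl⟩
    have : H.Normal := ⟨fun a ha k => by
      obtain ⟨y, hy, e⟩ : π k ∈ H.map π := h4 ▸ Subgroup.mem_top _
      obtain ⟨z, z1, rfl⟩ := h.exists_ker_of_eq e.symm
      rw [show z * y * a * (z * y)⁻¹ = z * (y * a * y⁻¹) * z⁻¹ by group, h.ker_comm z1,
        mul_inv_cancel_right]
      exact H.mul_mem (H.mul_mem hy ha) (H.inv_mem hy)⟩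
    exact h.eq_top H h3 g.x.u1
  omega

theorem G7.four {u w m : Γ} (g : G7 π u w m) (h : Hyp ρ π) (h7 : (7 : K) ≠ 0)
    (e : ρ (w * w) = -1) (t0 : (ρ w).trace = 0) : (ρ (w * u ^ 3)).trace = 0 := by
  obtain ⟨B, η, a, b, c⟩ := wts h h7 g.u7 g.u1 g.mu
  obtain ⟨t1, t2⟩ := tr_u c g.u7 a
  have tm := (three h h7 g.u7 g.u1 g.mu g.m3).1
  have tz : ∀ k, (ρ (w * w * k)).trace = -(ρ k).trace := fun k => by
    rw [map_mul, e, neg_mul, one_mul, trace_neg]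
  have w4 : w⁻¹ = w * w * w := (eq_inv_of_mul_eq_one_left (h.inj (by
    rw [mul_assoc, map_mul, e]; simp))).symm
  have cz := h.ker_comm (z := w * w) (by rw [map_mul, g.x.w2])
  have ui : ∀ {i j : ℕ}, i + j = 7 → u ^ i = (u ^ j)⁻¹ := fun e =>
    eq_inv_of_mul_eq_one_left (by rw [← pow_add, e, g.u7])
  have iv : ∀ {i j : ℕ}, i + j = 7 → (ρ (w * u ^ i)).trace = -(ρ (w * u ^ j)⁻¹).trace :=
    fun {i j} e => by
      rw [← trace_conj ρ (w * u ^ j)⁻¹ w⁻¹, ← tz, ui e]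
      congr 2
      group
  have r : w * u ^ 2 = w * w * ((w * u)⁻¹ * u⁻¹ * (w * u)⁻¹⁻¹) := by
    have := g.wu
    rw [pow_three] at this
    calc w * u ^ 2 = u⁻¹ * w⁻¹ * (w * u * (w * u * (w * u))) * u⁻¹ * w⁻¹ * u := by
          rw [sq]; group
      _ = u⁻¹ * w⁻¹ * u⁻¹ * (w * w) * w * u := by rw [this, mul_one, mul_assoc _ _ w, ← w4]
      _ = _ := by rw [← cz]; group
  have cji : IsConj m⁻¹ (w * u)⁻¹ := by
    obtain ⟨k, hk⟩ := isConj_iff.1 g.cj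
    exact isConj_iff.2 ⟨k, by rw [← hk, conj_inv]⟩
  have f0 := tr_pow c w 0
  have f1 := tr_pow c w 1
  have f2 := tr_pow c w 2
  have f3 := tr_pow c w 3
  have f4 := tr_pow c w 4
  have f5 := tr_pow c w 5
  have f6 := tr_pow c w 6
  rw [pow_zero, mul_one, t0] at f0
  rw [pow_one, tr_of_conj g.cj, tm] at f1
  rw [iv (j := 2) rfl, r, _root_.mul_inv_rev, conj_inv, inv_inv,
    ← eq_inv_of_mul_eq_one_left (show w * w * (w * w) = 1 by rw [← mul_assoc, ← w4]; simp), ← cz,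
    tz, trace_conj, t1] at f5
  rw [r, tz, trace_conj, t2] at f2
  rw [iv (j := 1) rfl, pow_one, tr_of_conj cji, tr_of_conj g.cj', tm] at f6
  have p : ∀ k, (η ^ k) ^ 7 = 1 := fun k => by rw [← pow_mul, mul_comm, pow_mul, a, one_pow]
  have s1 := geom a b
  have s2 := geom (p 2) (pow_ne a b (by norm_num))
  have s3 := geom (p 3) (pow_ne a b (by norm_num))
  have s4 := geom (p 4) (pow_ne a b (by norm_num))
  have s5 := geom (p 5) (pow_ne a b (by norm_num))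
  have s6 := geom (p 6) (pow_ne a b (by norm_num))
  generalize (ρ (w * u ^ 3)).trace = x at f3 ⊢
  generalize (ρ (w * u ^ 4)).trace = y at f4
  have k1 : x * η ^ 3 + y * η ^ 4 = 0 := by
    linear_combination f0 + η * f1 + η ^ 2 * f2 + η ^ 3 * f3 + η ^ 4 * f4 + η ^ 5 * f5 +
      η ^ 6 * f6 + cnj ρ B w 0 0 * s1 + cnj ρ B w 1 1 * s2 + cnj ρ B w 2 2 * s3 +
      cnj ρ B w 3 3 * s5 - (η ^ 2 - η) * a
  have k2 : x * η ^ 6 + y * η ^ 8 = 0 := by
    linear_combination f0 + η ^ 2 * f1 + η ^ 4 * f2 + η ^ 6 * f3 + η ^ 8 * f4 + η ^ 10 * f5 +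
      η ^ 12 * f6 + cnj ρ B w 0 0 * s2 + cnj ρ B w 1 1 * s3 + cnj ρ B w 2 2 * s4 +
      cnj ρ B w 3 3 * s6 - (η ^ 7 + η ^ 4 - η ^ 2) * a
  exact mul_right_cancel₀ (sub_ne_zero.2 (pow_ne' a b (a := 6) (b := 1) (by norm_num))) (by
    linear_combination k2 - η ^ 4 * k1)

theorem cop {x y : X} (c : IsConj y x) {a b : ℕ} (ha : x ^ a = 1) (hb : y ^ b = 1)
    (h : Nat.Coprime a b) : x = 1 := by
  obtain ⟨k, rfl⟩ := isConj_iff.1 c
  exact pow_eq_one_iff_of_coprime h |>.1 ⟨ha, by rw [conj_pow, hb]; simp⟩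

theorem G7.up {u w m : Γ} (g : G7 π u w m) (j : ℕ) : (u ^ j) ^ 7 = 1 := by
  rw [← pow_mul, mul_comm, pow_mul, g.u7, one_pow]

theorem G7.mup {u w m : Γ} (g : G7 π u w m) (j : ℕ) : m * u ^ j * m⁻¹ = (u ^ j) ^ 4 := by
  rw [← conj_pow, g.mu, ← pow_mul, mul_comm, pow_mul]

theorem G7.sq7 {u w m : Γ} (g : G7 π u w m) (h : Hyp ρ π) (n : NoRf ρ) (e : IsL2 X 7)
    (h7 : (7 : K) ≠ 0) : Sq7 ρ π := by
  have k2 := h.l2_ker e
  have z1 : π (w * w) = 1 := by rw [map_mul, g.x.w2]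
  obtain ⟨c, hc⟩ := (h.ker _).1 z1
  have c1 : c ≠ 1 := fun e => g.sq_ne h n h7 (h.inj (by rw [hc, e, one_smul, map_one]))
  have c2 : c = -1 := (mul_self_eq_one_iff.1 (smul_one_inj (by
    rw [← one_mul (1 : M4 K), ← smul_mul_smul_comm, ← hc, ← map_mul, k2 _ z1]
    simp))).resolve_left c1
  have h2 : (2 : K) ≠ 0 := fun e => c1 (by rw [c2]; linear_combination -e)
  rw [c2, neg_smul, one_smul] at hc
  have t3 := g.four h h7 hc (h.inv_tr n h2 z1 g.x.w1)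
  have xu : ∀ j, (π u ^ j) ^ 7 = 1 := fun j => by rw [← map_pow, ← map_pow, g.up, map_one]
  have xw : π w ^ 2 = 1 := by rw [sq, g.x.w2]
  refine ⟨h2, h7, k2, fun a ha => ?_, fun a ha => ?_, fun a a7 a1 => ?_⟩
  · have a1 : π a ≠ 1 := fun e => by simp [e] at ha
    have a2 : π a ^ 2 = 1 := ha ▸ pow_orderOf_eq_one _
    rcases g.x.cls (π a) with ⟨j, c⟩ | c | c | c
    · exact (a1 (cop c a2 (xu j) (by norm_num))).elim
    · obtain ⟨k, z, h1, rfl⟩ := lift_conj h c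
      rw [← map_mul, mul_assoc, ← mul_assoc _ z, ← h.ker_comm h1, mul_assoc, ← mul_assoc z, k2 z h1,
        one_mul, conj_mul, map_mul, map_mul, hc, mul_neg, mul_one, neg_mul, mul_inv_rho]
    · exact (a1 (cop c a2 g.x.d3 (by norm_num))).elim
    · exact (g.x.w4' (isConj_one_right.1 (a2 ▸ (c.pow 2).symm))).elim
  · have a2 : π a ^ 2 ≠ 1 := fun e => by
      have := orderOf_dvd_of_pow_eq_one e
      rw [ha] at this
      omega
    have a1 : π a ≠ 1 := fun e => by simp [e] at ha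
    have a4 : π a ^ 4 = 1 := ha ▸ pow_orderOf_eq_one _
    rcases g.x.cls (π a) with ⟨j, c⟩ | c | c | c
    · exact (a1 (cop c a4 (xu j) (by norm_num))).elim
    · exact (a2 (isConj_one_right.1 (xw ▸ c.pow 2))).elim
    · exact (a1 (cop c a4 g.x.d3 (by norm_num))).elim
    · obtain ⟨c, -, t, -⟩ := tr_conj h k2 (a := w * u ^ 3) (b := a) (by simpa using c)
      rw [t, t3, mul_zero]
  · have a2 : π a ≠ 1 := fun e => a1 (h.ker_eq_one e (by norm_num) a7)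
    have a3 : π a ^ 7 = 1 := by rw [← map_pow, a7, map_one]
    rcases g.x.cls (π a) with ⟨j, c⟩ | c | c | c
    · obtain ⟨y, hy⟩ := isConj_iff.1 c
      obtain ⟨k, rfl⟩ := h.surj y
      have := h.conj_lift (k := k) (n := 7) (by norm_num) (g.up j) a7 (by rw [map_pow]; exact hy)
      refine sev h h7 (m := k * m * k⁻¹) a7 a1 ?_
      rw [← this, conj_pow, ← g.mup]
      group
    · exact (a2 (cop c a3 xw (by norm_num))).elim
    · exact (a2 (cop c a3 g.x.d3 (by norm_num))).elim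
    · exact (a2 (cop c a3 g.x.w4 (by norm_num))).elim

end L7

theorem Hyp.l7_sq (h : Hyp ρ π) (n : NoRf ρ) (e : IsL2 X 7) (h7 : (7 : K) ≠ 0) : Sq7 ρ π := by
  obtain ⟨u, w, m, g⟩ := L7.exists_g7 h e
  exact g.sq7 h n e h7

variable (p : ℕ) [Fact p.Prime] [CharP K p]

theorem Hyp.l7 (h : Hyp ρ π) (n : NoRf ρ) (e : IsL2 X 7) (h7 : (7 : K) ≠ 0) : Fr7 ρ p := by
  obtain ⟨u, w, m, g⟩ := L7.exists_g7 h e
  have s := g.sq7 h n e h7
  have p0 : p ≠ 0 := (Fact.out : p.Prime).ne_zero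
  have tm := (L7.three h h7 g.u7 g.u1 g.mu g.m3).1
  have key : ∀ a, ((ρ a).trace ^ p = (ρ a).trace ∧ (ρ a⁻¹).trace = (ρ a).trace) ∨
      ∃ (c : K) (v : Γ), v ^ 7 = 1 ∧ m * v * m⁻¹ = v ^ 4 ∧ (ρ a).trace = c * (ρ v).trace ∧
        (ρ a⁻¹).trace = c * (ρ v⁻¹).trace ∧ (ρ a).trace ^ p = c * (ρ (v ^ p)).trace := fun a => by
    have cp : ∀ {c : K}, c = 1 ∨ c = -1 → c ^ p = c := fun h => by
      rcases h with rfl | rfl
      · exact one_pow _
      · exact neg_one_pow_char K p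
    rcases g.x.cls (π a) with ⟨j, c⟩ | c | c | c
    · obtain ⟨c, c1, t1, t2⟩ := L7.tr_conj h s.ker (a := u ^ j) (b := a) (by simpa using c)
      exact Or.inr ⟨c, u ^ j, g.up j, g.mup j, t1, t2, by rw [t1, mul_pow, cp c1, trace_pow_p]⟩
    · have z : π (a * a) = 1 := isConj_one_right.1 (by
        simpa [sq, g.x.w2] using c.pow 2)
      have a1 : π a ≠ 1 := fun e => g.x.w1 (isConj_one_left.1 (e ▸ c))
      have t1 := h.inv_tr n s.two z a1
      have t2 := h.inv_tr n s.two (g := a⁻¹) (by rw [← _root_.mul_inv_rev, map_inv, z, inv_one])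
        (by simpa using a1)
      exact Or.inl ⟨by rw [t1, zero_pow p0], by rw [t1, t2]⟩
    · obtain ⟨c, c1, t1, t2⟩ := L7.tr_conj h s.ker c
      rw [L7.tr_of_conj g.cj'] at t2
      exact Or.inl ⟨by rw [t1, tm, mul_one, cp c1], by rw [t1, t2]⟩
    · have o : orderOf (π a) = 4 := by
        obtain ⟨k, hk⟩ := c
        rw [← SemiconjBy.orderOf_eq _ hk]
        exact orderOf_eq_prime_pow (p := 2) (n := 1) (by simpa using g.x.w4') g.x.w4
      have t1 := s.four a o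
      have t2 := s.four a⁻¹ (by rw [map_inv, orderOf_inv, o])
      exact Or.inl ⟨by rw [t1, zero_pow p0], by rw [t1, t2]⟩
  have t4 : ∀ v : Γ, m * v * m⁻¹ = v ^ 4 → ∀ j, (ρ (v ^ (j * 4))).trace = (ρ (v ^ j)).trace :=
    fun v hv j => by rw [mul_comm, pow_mul, ← hv, conj_pow, trace_conj]
  have t7 : ∀ v : Γ, v ^ 7 = 1 → ∀ i j, i % 7 = j % 7 → v ^ i = v ^ j := fun v hv i j e => by
    rw [pow_eq_pow_mod i hv, e, ← pow_eq_pow_mod j hv]
  have h0 : p % 7 ≠ 0 := fun k => h7 (by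
    exact_mod_cast (CharP.cast_eq_zero_iff K p 7).2
      ((Nat.prime_dvd_prime_iff_eq (by norm_num) Fact.out).1 (Nat.dvd_of_mod_eq_zero k) ▸ dvd_rfl))
  by_cases a : p % 7 = 1 ∨ p % 7 = 2 ∨ p % 7 = 4
  · refine Or.inl ⟨a, fun k => (key k).elim (·.1) fun ⟨c, v, v7, mv, t1, _, t3⟩ => ?_⟩
    rw [t3, t1, ← pow_one v, ← pow_mul, one_mul]
    rcases a with a | a | a
    · rw [t7 v v7 p 1 a]
    · rw [t7 v v7 p (1 * 4 * 4) (by omega), t4 v mv, t4 v mv]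
    · rw [t7 v v7 p (1 * 4) a, t4 v mv]
  · have b : p % 7 = 3 ∨ p % 7 = 5 ∨ p % 7 = 6 := by omega
    refine Or.inr ⟨b, fun k => (key k).elim (fun k => k.1.trans k.2.symm)
      fun ⟨c, v, v7, mv, _, t2, t3⟩ => ?_⟩
    rw [t3, t2, ← eq_inv_of_mul_eq_one_left (show v ^ 6 * v = 1 by rw [← pow_succ, v7])]
    rcases b with a | a | a
    · rw [t7 v v7 p (6 * 4) (by omega), t4 v mv]
    · rw [t7 v v7 p (6 * 4 * 4) (by omega), t4 v mv, t4 v mv]
    · rw [t7 v v7 p 6 a]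

end Cfsg.Agent.D4
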