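import Cfsg.Agent.D4.LQ1

/-!
Families of pairwise meeting planes, and block matrices.
-/

set_option autoImplicit false

open Matrix Module
open scoped MatrixGroups

namespace Cfsg.Agent.D4

variable {K : Type*} [Field K] {Γ X : Type*} [Group Γ] [Group X] {ρ : Γ →* M4 K} {π : Γ →* X}

/-- An invariant family of planes contains two complementary ones. -/
theorem Hyp.planes (h : Hyp ρ π) (L : Set (Submodule K (V4 K))) (ne : L.Nonempty)
    (d : ∀ a ∈ L, finrank K a = 2) (inv : ∀ g, ∀ a ∈ L, a.map (toLin' (ρ g)) ∈ L)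
    (m : ∀ a ∈ L, ∀ b ∈ L, a ⊓ b ≠ ⊥) : False := by
  obtain ⟨a, ha⟩ := ne
  have t4 : finrank K (⊤ : Submodule K (V4 K)) = 4 := by simp
  have pos : ∀ {x : Submodule K (V4 K)}, x ≠ ⊥ → 1 ≤ finrank K x := fun hx =>
    Nat.one_le_iff_ne_zero.2 fun e => hx (Submodule.finrank_eq_zero.1 e)
  have lt : ∀ {x y : Submodule K (V4 K)}, ¬ x ≤ y → finrank K ↥(x ⊓ y) < finrank K x := fun e =>
    Submodule.finrank_lt_finrank_of_lt (inf_lt_left.2 e)
  have hI : sInf L = ⊥ := (h.irr _ fun g v hv => Submodule.mem_sInf.2 fun b hb => by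
    obtain ⟨y, hy, e⟩ := Submodule.mem_sInf.1 hv _ (inv g⁻¹ b hb)
    rwa [← e, toLin'_apply, mulVec_mulVec, mul_inv_rho, one_mulVec]).resolve_right fun e => by
      have := d a ha
      rw [show a = ⊤ from eq_top_iff.2 (e ▸ sInf_le ha), t4] at this
      omega
  have hS : sSup L = ⊤ := (h.irr _ fun g v hv => by
    have : sSup L ≤ (sSup L).comap (toLin' (ρ g)) := sSup_le fun b hb =>
      Submodule.map_le_iff_le_comap.1 (le_sSup (inv g b hb))
    exact this hv).resolve_left fun e => m a ha a ha (eq_bot_iff.2 (e ▸ inf_le_left.trans (le_sSup ha)))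
  have ex : ∀ x : Submodule K (V4 K), finrank K x < 4 → ∃ b ∈ L, ¬ b ≤ x := fun x hx => by
    by_contra! e
    rw [show x = ⊤ from eq_top_iff.2 (hS ▸ sSup_le e), t4] at hx
    omega
  obtain ⟨b, hb, ba⟩ := ex a (by rw [d a ha]; omega)
  have d1 : finrank K ↥(b ⊓ a) = 1 := by
    have := lt ba
    have := pos (m b hb a ha)
    have := d b hb
    omega
  have d3 := Submodule.finrank_sup_add_finrank_inf_eq b a
  rw [d1, d a ha, d b hb] at d3
  obtain ⟨e, he, eb⟩ := ex (b ⊔ a) (by omega)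
  obtain ⟨c, hc, cb⟩ : ∃ c ∈ L, ¬ b ⊓ a ≤ c := by
    by_contra! t
    exact m b hb a ha (eq_bot_iff.2 (hI ▸ le_sInf t))
  have z : b ⊓ a ⊓ c = ⊥ := Submodule.finrank_eq_zero.1 (by have := lt cb; omega)
  have cl : c ≤ b ⊔ a := by
    have t := Submodule.finrank_sup_add_finrank_inf_eq (b ⊓ c) (a ⊓ c)
    rw [← inf_inf_distrib_right, z, finrank_bot] at t
    have := pos (m b hb c hc)
    have := pos (m a ha c hc)
    rw [← Submodule.eq_of_le_of_finrank_le (sup_le (inf_le_right : b ⊓ c ≤ c) inf_le_right)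
      (show finrank K c ≤ finrank K ↥(b ⊓ c ⊔ a ⊓ c) by rw [d c hc]; omega)]
    exact sup_le_sup inf_le_left inf_le_left
  have k : ∀ x ∈ L, x ≤ b ⊔ a → e ⊓ (b ⊔ a) ≤ x := fun x hx l => by
    rw [← Submodule.eq_of_le_of_finrank_le (inf_le_inf_left e l) (by
      have := lt eb
      have := pos (m e he x hx)
      have := d e he
      omega)]
    exact inf_le_right
  exact m e he a ha (eq_bot_iff.2 (z ▸ (inf_le_inf_left e le_sup_right).trans
    (le_inf (le_inf (k b hb le_sup_left) (k a ha le_sup_right)) (k c hc cl))))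

namespace Lq3

/-- `2 × 2` matrices. -/
abbrev M2 (K : Type*) := Matrix (Fin 2) (Fin 2) K

/-- Block matrices. -/
def bl (A B C D : M2 K) : M4 K :=
  !![A 0 0, A 0 1, B 0 0, B 0 1; A 1 0, A 1 1, B 1 0, B 1 1;
    C 0 0, C 0 1, D 0 0, D 0 1; C 1 0, C 1 1, D 1 0, D 1 1]

/-- Block vectors. -/
def app (a b : Fin 2 → K) : V4 K := ![a 0, a 1, b 0, b 1]

variable {A B C D A' B' C' D' T : M2 K}

theorem bl_mul : bl A B C D * bl A' B' C' D' =
    bl (A * A' + B * C') (A * B' + B * D') (C * A' + D * C') (C * B' + D * D') := by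
  ext i j
  fin_cases i <;> fin_cases j <;>
    simp [bl, mul_apply, Fin.sum_univ_four, Fin.sum_univ_two, add_assoc]

theorem bl_one : bl (1 : M2 K) 0 0 1 = 1 := by
  ext i j; fin_cases i <;> fin_cases j <;> simp [bl]

theorem bl_inj : bl A B C D = bl A' B' C' D' ↔ A = A' ∧ B = B' ∧ C = C' ∧ D = D' := by
  refine ⟨fun h => ?_, fun ⟨a, b, c, d⟩ => by rw [a, b, c, d]⟩
  simp only [bl, EmbeddingLike.apply_eq_iff_eq, vecCons_inj, and_true] at h
  refine ⟨?_, ?_, ?_, ?_⟩ <;> ext i j <;> fin_cases i <;> fin_cases j <;> simp [h]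

theorem exists_bl (M : M4 K) : ∃ A B C D, M = bl A B C D :=
  ⟨!![M 0 0, M 0 1; M 1 0, M 1 1], !![M 0 2, M 0 3; M 1 2, M 1 3], !![M 2 0, M 2 1; M 3 0, M 3 1],
    !![M 2 2, M 2 3; M 3 2, M 3 3], by ext i j; fin_cases i <;> fin_cases j <;> rfl⟩

theorem bl_sub_one : bl A B C D - 1 = bl (A - 1) B C (D - 1) := by
  ext i j; fin_cases i <;> fin_cases j <;> simp [bl]

theorem bl_zero : bl (0 : M2 K) 0 0 0 = 0 := by
  ext i j; fin_cases i <;> fin_cases j <;> simp [bl]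

theorem xU_eq (A : M2 K) : xU A = bl 1 A 0 1 := by
  ext i j; fin_cases i <;> fin_cases j <;> simp [bl, xU]

theorem xL_eq (A : M2 K) : xL A = bl 1 0 A 1 := by
  ext i j; fin_cases i <;> fin_cases j <;> simp [bl, xL]

theorem bl_app (a b : Fin 2 → K) :
    bl A B C D *ᵥ app a b = app (A *ᵥ a + B *ᵥ b) (C *ᵥ a + D *ᵥ b) := by
  ext i
  fin_cases i <;> simp [bl, app, mulVec, dotProduct, Fin.sum_univ_four, add_assoc]

theorem app_inj {a b c d : Fin 2 → K} (h : app a b = app c d) : a = c ∧ b = d := by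
  simp only [app, vecCons_inj, and_true] at h
  refine ⟨?_, ?_⟩ <;> ext i <;> fin_cases i <;> simp [h]

theorem app_zero : app (0 : Fin 2 → K) 0 = 0 := by
  ext i; fin_cases i <;> rfl

theorem exists_vv (h : A.det = 0) : ∃ a b : Fin 2 → K, A = vecMulVec a b := by
  rw [det_fin_two] at h
  by_cases e : A 0 0 = 0
  · by_cases f : A 0 1 = 0
    · exact ⟨![0, 1], A 1, by ext i j; fin_cases i <;> fin_cases j <;> simp [vecMulVec, e, f]⟩
    · have : A 1 0 = 0 := by simpa [e, f] using h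
      exact ⟨![A 0 1, A 1 1], ![0, 1], by
        ext i j; fin_cases i <;> fin_cases j <;> simp [vecMulVec, e, this]⟩
  · refine ⟨![1, A 1 0 / A 0 0], A 0, ?_⟩
    ext i j
    fin_cases i <;> fin_cases j <;> simp [vecMulVec, e]
    field_simp
    linear_combination h

theorem kill {F : M2 K} {s : Fin 2 → K} (h : C.det = 0) (hs : C *ᵥ s ≠ 0)
    (e : F *ᵥ C *ᵥ s = 0) : F * C = 0 := by
  obtain ⟨a, b, rfl⟩ := exists_vv h
  rw [vecMulVec_mulVec] at hs e
  rw [mulVec_smul] at e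
  rw [mul_vecMulVec, (smul_eq_zero.1 e).resolve_left (left_ne_zero_of_smul hs), zero_vecMulVec]

theorem in_mul {M N : M4 K} (a : In ρ M) (b : In ρ N) : In ρ (M * N) := by
  obtain ⟨g, rfl⟩ := a
  obtain ⟨k, rfl⟩ := b
  exact ⟨g * k, map_mul ..⟩

theorem in_inv {M N : M4 K} (a : In ρ M) (e : M * N = 1) : In ρ N := by
  obtain ⟨g, rfl⟩ := a
  exact ⟨g⁻¹, rho_inv_eq e⟩

/-- A unit given by a one-sided inverse. -/
def un {P Q : M4 K} (e : P * Q = 1) : (M4 K)ˣ := ⟨P, Q, e, mul_eq_one_comm.1 e⟩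

theorem in_cnj {P Q M : M4 K} (e : P * Q = 1) : In (cnj ρ (un e)) M ↔ In ρ (P * M * Q) := by
  have e' := mul_eq_one_comm.1 e
  refine exists_congr fun g => ?_
  change Q * ρ g * P = M ↔ _
  refine ⟨fun h => ?_, fun h => ?_⟩
  · rw [← h, ← mul_assoc, ← mul_assoc, e, one_mul, mul_assoc, e, mul_one]
  · rw [h, ← mul_assoc, ← mul_assoc, e', one_mul, mul_assoc, e', mul_one]

theorem noTv_cnj (n : NoTv ρ) (B : (M4 K)ˣ) : NoTv (cnj ρ B) := fun v φ h =>
  n (B.val *ᵥ v) (φ ᵥ* B⁻¹.val) ⟨by simpa [cnj_cnj_inv] using h.1.cnj B⁻¹,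
    fun e => h.2.1 (units_mulVec_inj B (by simpa using e)),
    fun e => h.2.2 (vecMul_units_inj B⁻¹ (by simpa using e))⟩

theorem inv_of (n : NoTv ρ) (a : In ρ (xU A)) (h0 : A ≠ 0) : ∃ A', A * A' = 1 := by
  by_cases d : A.det = 0
  · obtain ⟨u, v, rfl⟩ := exists_vv d
    obtain ⟨g, e⟩ := a
    refine absurd ⟨⟨by simp [app, dotProduct, Fin.sum_univ_four], g, e.trans ?_⟩, fun t => h0 ?_,
      fun t => h0 ?_⟩ (n (app u 0) (app 0 v))
    · ext i j; fin_cases i <;> fin_cases j <;> simp [xU, app, vecMulVec]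
    · rw [(app_inj (t.trans app_zero.symm)).1, zero_vecMulVec]
    · rw [(app_inj (t.trans app_zero.symm)).2, vecMulVec_zero]
  · exact ⟨A⁻¹, mul_nonsing_inv _ (isUnit_iff_ne_zero.2 d)⟩

/-- The relations between the blocks of an element and of its inverse. -/
theorem rel {g : Γ} (e : ρ g = bl A B C D) (e' : ρ g⁻¹ = bl A' B' C' D') :
    A * A' + B * C' = 1 ∧ A * B' + B * D' = 0 ∧ C * A' + D * C' = 0 ∧ C * B' + D * D' = 1 := by
  rw [← bl_inj, ← bl_mul, ← e, ← e', mul_inv_rho, bl_one]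

theorem conj_xU {g x : Γ} (e : ρ g = bl A B C D) (e' : ρ g⁻¹ = bl A' B' C' D') (hx : ρ x = xU T) :
    ρ (g * x * g⁻¹) = bl (1 + A * T * C') (A * T * D') (C * T * C') (1 + C * T * D') := by
  obtain ⟨a, b, c, d⟩ := rel e e'
  rw [map_mul, map_mul, e, e', hx, xU_eq, bl_mul, bl_mul, bl_inj]
  simp only [mul_one, mul_zero, add_zero, add_mul]
  refine ⟨?_, ?_, ?_, ?_⟩
  · rw [← a]; abel
  · rw [add_comm (A * T * D'), ← add_assoc, b, zero_add]
  · rw [add_comm (C * T * C'), ← add_assoc, c, zero_add]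
  · rw [← d]; abel

theorem det_inv {g : Γ} (e : ρ g = bl A B C D) (e' : ρ g⁻¹ = bl A' B' C' D') (h : C.det ≠ 0) :
    C'.det ≠ 0 := fun t => by
  obtain ⟨a, -, c, -⟩ := rel e e'
  obtain ⟨s, hs, z⟩ := exists_mulVec_eq_zero_iff.2 t
  have a' := congrArg (· *ᵥ s) a
  have c' := congrArg (· *ᵥ s) c
  simp only [add_mulVec, ← mulVec_mulVec, z, mulVec_zero, add_zero, zero_mulVec, one_mulVec] at a' c'
  rw [eq_zero_of_mulVec_eq_zero h c', mulVec_zero] at a'
  exact hs a'.symm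

theorem exists_opp (h : Hyp ρ π) : ∃ g A B C D, ρ g = bl A B C D ∧ C.det ≠ 0 := by
  by_contra! t
  let J : (Fin 2 → K) →ₗ[K] V4 K := toLin' !![1, 0; 0, 1; 0, 0; 0, 0]
  have hJ : ∀ s, J s = app s 0 := fun s => by
    ext i; fin_cases i <;> simp [J, app, mulVec, dotProduct]
  have z : ∀ g s, ρ g *ᵥ app s 0 = 0 → s = 0 := fun g s e => by_contra fun hs =>
    rho_mulVec_ne ρ g (fun e => hs (app_inj (e.trans app_zero.symm)).1) e
  refine h.planes (Set.range fun g => LinearMap.range (toLin' (ρ g) ∘ₗ J)) ⟨_, 1, rfl⟩ ?_ ?_ ?_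
  · rintro _ ⟨g, rfl⟩
    rw [LinearMap.finrank_range_of_inj ((injective_iff_map_eq_zero _).2 fun s e =>
      z g s (by rw [← hJ]; exact e))]
    simp
  · rintro g _ ⟨k, rfl⟩
    exact ⟨g * k, by simp only [map_mul, toLin'_mul, LinearMap.range_comp, Submodule.map_comp]⟩
  · rintro _ ⟨g, rfl⟩ _ ⟨k, rfl⟩
    obtain ⟨A, B, C, D, e⟩ := exists_bl (ρ (g⁻¹ * k))
    obtain ⟨s, hs, c⟩ := exists_mulVec_eq_zero_iff.2 (t _ _ _ _ _ e)
    refine (Submodule.ne_bot_iff _).2 ⟨ρ k *ᵥ app s 0, ⟨⟨A *ᵥ s, ?_⟩, s, ?_⟩, fun e => hs (z k s e)⟩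
    · rw [← mul_inv_cancel_left g k, map_mul, ← mulVec_mulVec, e, bl_app]
      simp [hJ, c]
    · simp [hJ]

theorem normal_form (n : NoTv ρ) {g k : Γ} (hg : ρ g ≠ 1) (a : (ρ g - 1) * (ρ g - 1) = 0)
    (b : (ρ g - 1) * (ρ k - 1) = 0) (c : (ρ k - 1) * (ρ g - 1) = 0) :
    ∃ (P : (M4 K)ˣ) (T : M2 K), cnj ρ P g = xU 1 ∧ cnj ρ P k = xU T := by
  set N := ρ g - 1 with hN
  have nn : ∀ w, N *ᵥ N *ᵥ w = 0 := fun w => by rw [mulVec_mulVec, a, zero_mulVec]
  obtain ⟨w, hw⟩ : ∃ w, N *ᵥ w ≠ 0 := by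
    by_contra! t
    exact hg (sub_eq_zero.1 (ext_of_mulVec_single fun i => by rw [t, zero_mulVec]))
  obtain ⟨u, hu⟩ : ∃ u, ∀ t : K, N *ᵥ u ≠ t • N *ᵥ w := by
    by_contra! t
    choose f hf using t
    have e : N = vecMulVec (N *ᵥ w) fun j => f (Pi.single j 1) := by
      ext i j
      simpa [vecMulVec, mul_comm] using congrFun (hf (Pi.single j 1)) i
    refine n (N *ᵥ w) (fun j => f (Pi.single j 1)) ⟨⟨?_, g, by rw [← e, hN, add_sub_cancel]⟩, hw,
      fun t => hw (by rw [e, t, vecMulVec_zero, zero_mulVec])⟩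
    have := nn w
    nth_rw 1 [e] at this
    rw [vv_mulVec] at this
    exact (smul_eq_zero.1 this).resolve_right hw
  have ind : ∀ s t : K, s • N *ᵥ w + t • N *ᵥ u = 0 → s = 0 ∧ t = 0 := fun s t e => by
    by_cases ht : t = 0
    · exact ⟨by simpa [ht, hw] using e, ht⟩
    · refine absurd ?_ (hu (-s / t))
      rw [← inv_smul_smul₀ ht (N *ᵥ u), eq_neg_of_add_eq_zero_right e, ← neg_smul, smul_smul,
        div_eq_inv_mul]
  let P : M4 K := (of ![N *ᵥ w, N *ᵥ u, w, u])ᵀ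
  have hP : ∀ z, P *ᵥ z = z 0 • N *ᵥ w + z 1 • N *ᵥ u + (z 2 • w + z 3 • u) := fun z => by
    ext i; simp [P, mulVec, dotProduct, Fin.sum_univ_four]; ring
  have dP : P.det ≠ 0 := fun t => by
    obtain ⟨z, hz, e⟩ := exists_mulVec_eq_zero_iff.2 t
    have e' := congrArg (N *ᵥ ·) e
    rw [hP] at e
    simp only [hP, mulVec_add, mulVec_smul, nn, smul_zero, zero_add, mulVec_zero] at e'
    obtain ⟨z2, z3⟩ := ind _ _ e'
    rw [z2, z3, zero_smul, zero_smul, add_zero, add_zero] at e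
    obtain ⟨z0, z1⟩ := ind _ _ e
    exact hz (by ext i; fin_cases i <;> assumption)
  have e := mul_nonsing_inv P (isUnit_iff_ne_zero.2 dP)
  have e' := mul_eq_one_comm.1 e
  have cj : ∀ x, cnj ρ (un e) x - 1 = P⁻¹ * (ρ x - 1) * P := fun x => by
    rw [mul_sub, sub_mul, mul_one, e']; rfl
  have g1 : cnj ρ (un e) g - 1 = bl 0 1 0 0 := by
    have : N * P = P * bl 0 1 0 0 := ext_of_mulVec_single fun i => by
      rw [← mulVec_mulVec, ← mulVec_mulVec, hP, hP]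
      fin_cases i <;> simp [bl, nn, mulVec_add, mulVec_smul]
    rw [cj, mul_assoc, this, ← mul_assoc, e', one_mul]
  have m : ∀ x y, (ρ x - 1) * (ρ y - 1) = 0 →
      (cnj ρ (un e) x - 1) * (cnj ρ (un e) y - 1) = 0 := fun x y t => by
    rw [cj, cj]
    calc _ = P⁻¹ * ((ρ x - 1) * (P * P⁻¹) * (ρ y - 1)) * P := by simp only [mul_assoc]
      _ = 0 := by rw [e, mul_one, t, mul_zero, zero_mul]
  obtain ⟨A, B, C, D, f⟩ := exists_bl (cnj ρ (un e) k)
  have b' := m _ _ b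
  have c' := m _ _ c
  rw [g1, f, bl_sub_one, bl_mul, ← bl_zero, bl_inj] at b' c'
  simp only [zero_mul, one_mul, zero_add, mul_zero, mul_one, add_zero, sub_eq_zero] at b' c'
  refine ⟨un e, B, ?_, by rw [f, xU_eq, b'.1, b'.2.1, c'.2.1]⟩
  rw [← sub_left_inj (a := 1), g1, xU_eq, bl_sub_one, sub_self]

end Lq3

end Cfsg.Agent.D4
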