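import Cfsg.Agent.D4.LQ1
import Cfsg.Agent.D4.LQ2
import Cfsg.Agent.D4.LQ3a

/-!
Groups of quadratic elements have order at most three.
-/

set_option autoImplicit false

open Matrix
open scoped MatrixGroups

namespace Cfsg.Agent.D4

variable {K : Type*} [Field K] {Γ X : Type*} [Group Γ] [Group X] {ρ : Γ →* M4 K} {π : Γ →* X}
variable [IsAlgClosed K] [Finite Γ]

namespace Lq3

variable {A B C D A' B' C' D' T E m m' : M2 K} {g k : Γ}

/-- A subgroup of a finite group given by a submonoid. -/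
def sgOf (p : Γ → Prop) (h1 : p 1) (hm : ∀ a b, p a → p b → p (a * b)) : Subgroup Γ where
  carrier := {g | p g}
  one_mem' := h1
  mul_mem' := hm _ _
  inv_mem' {a} ha := by
    have : ∀ n, p (a ^ n) := fun n => by
      induction n with
      | zero => rwa [pow_zero]
      | succ n ih => exact pow_succ a n ▸ hm _ _ ih ha
    rw [inv_eq_of_mul_eq_one_left (show a ^ (orderOf a - 1) * a = 1 by
      rw [← pow_succ, Nat.sub_add_cancel (orderOf_pos a), pow_orderOf_eq_one])]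
    exact this _

/-- The upper root group. -/
def MM (ρ : Γ →* M4 K) : AddSubgroup (M2 K) where
  carrier := {A | In ρ (xU A)}
  zero_mem' := ⟨1, by rw [map_one, xU_eq, bl_one]⟩
  add_mem' {a b} ha hb := by simpa [xU_eq, bl_mul, add_comm] using in_mul ha hb
  neg_mem' ha := in_inv ha (by simp [xU_eq, bl_mul, bl_one])

/-- The upper root group has more than three elements. -/
structure St0 (ρ : Γ →* M4 K) (π : Γ →* X) : Prop where
  h : Hyp ρ π
  lf : LF K
  two : (2 : K) ≠ 0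
  n : NoTv ρ
  one : 1 ∈ MM ρ
  ex : ∃ m ∈ MM ρ, m ≠ 0 ∧ m ≠ 1 ∧ m ≠ -1

/-- So does the lower root group. -/
structure St (ρ : Γ →* M4 K) (π : Γ →* X) : Prop extends St0 ρ π where
  big : ∃ B C, In ρ (xL B) ∧ In ρ (xL C) ∧ B ≠ 0 ∧ C ≠ 0 ∧ C ≠ B ∧ C ≠ -B

theorem St.low (s : St ρ π) (a : m ∈ MM ρ) (e : m * m' = 1) : In ρ (xL m') := by
  obtain ⟨B, C, b, c, b0, c0, e1, e2⟩ := s.big
  have p : bl m 0 0 1 * bl m' 0 0 1 = 1 := by simp [bl_mul, e, bl_one]
  have u : ∀ {B C}, B * m = C * m → B = C := fun {B C} t => by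
    rw [← mul_one B, ← e, ← mul_assoc, t, mul_assoc, e, mul_one]
  have l : ∀ {B}, In ρ (xL B) → In (cnj ρ (un p)) (xL (B * m)) := fun b =>
    (in_cnj p).2 (by simpa [xL_eq, bl_mul, mul_assoc, e] using b)
  simpa [xL_eq, bl_mul, e] using (in_cnj p).1 ((s.h.cnj _).pair s.lf s.two (noTv_cnj s.n _)
    ((in_cnj p).2 (by simpa [xU_eq, bl_mul, e] using show In ρ (xU m) from a)) (l b) (l c)
    (fun t => b0 (u (by rw [t, zero_mul]))) (fun t => c0 (u (by rw [t, zero_mul])))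
    (fun t => e1 (u t)) fun t => e2 (u (by rw [t, neg_mul])))

theorem St.wm (s : St ρ π) (a : m ∈ MM ρ) (e : m * m' = 1) : In ρ (bl 0 m (-m') 0) := by
  have : In ρ (xL (-m')) := in_inv (s.low a e) (by simp [xL_eq, bl_mul, bl_one])
  simpa [xU_eq, xL_eq, bl_mul, e, mul_eq_one_comm.1 e] using in_mul (in_mul a this) a

theorem St.w (s : St ρ π) : In ρ (bl 0 1 (-1) 0) ∧ In ρ (bl 0 (-1) 1 0) :=
  ⟨s.wm s.one (mul_one 1), by simpa using s.wm (neg_mem s.one) (m' := -1) (by simp)⟩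

theorem St.up (s : St ρ π) (a : In ρ (xL A)) : A ∈ MM ρ :=
  neg_mem_iff.1 (show In ρ (xU (-A)) by
    simpa [xU_eq, xL_eq, bl_mul] using in_mul (in_mul s.w.1 a) s.w.2)

theorem St.hm (s : St ρ π) (a : m ∈ MM ρ) (e : m * m' = 1) : In ρ (bl m 0 0 m') := by
  simpa [bl_mul] using in_mul (s.wm a e) s.w.2

omit [IsAlgClosed K] [Finite Γ] in
theorem cancel (h : C.det ≠ 0) (e : A * C = B * C) : A = B :=
  (((isUnit_iff_isUnit_det C).2 (isUnit_iff_ne_zero.2 h)).mul_left_inj).1 e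

omit [IsAlgClosed K] [Finite Γ] in
theorem conj_low {x : Γ} (e : ρ g = bl (E * C) B C D) (e' : ρ g⁻¹ = bl A' B' C' D')
    (h : C.det ≠ 0) (hx : ρ x = xU T) :
    ρ (g * x * g⁻¹) = xU E * xL (C * T * C') * xU (-E) := by
  have : D' = -(C' * E) := cancel h (by
    rw [neg_mul, mul_assoc]
    exact eq_neg_of_add_eq_zero_right (rel e' (by rwa [inv_inv])).2.2.1)
  rw [conj_xU e e' hx, this, add_comm 1 (C * T * _)]
  simp [xU_eq, xL_eq, bl_mul, mul_assoc, add_mul]

omit [IsAlgClosed K] [Finite Γ] in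
theorem xE (E : M2 K) : xU E * xU (-E) = 1 := by simp [xU_eq, bl_mul, bl_one]

omit [IsAlgClosed K] [Finite Γ] in
theorem mm_shift : m ∈ MM (cnj ρ (un (xE E))) ↔ m ∈ MM ρ :=
  (in_cnj _).trans (by simp [xU_eq, bl_mul, MM])

omit [IsAlgClosed K] [Finite Γ] in
theorem St0.shift (s : St0 ρ π) (e : ρ g = bl (E * C) B C D) (h : C.det ≠ 0) :
    St (cnj ρ (un (xE E))) π := by
  obtain ⟨m, a, b, c, d⟩ := s.ex
  obtain ⟨A', B', C', D', e'⟩ := exists_bl (ρ g⁻¹)
  have u : ∀ {S T}, C * S * C' = C * T * C' → S = T := fun t =>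
    ((isUnit_iff_isUnit_det C).2 (isUnit_iff_ne_zero.2 h)).mul_right_inj.1 (cancel (det_inv e e' h) t)
  have l : ∀ {T}, T ∈ MM ρ → In (cnj ρ (un (xE E))) (xL (C * T * C')) := fun ⟨_, hx⟩ =>
    (in_cnj _).2 ⟨_, conj_low e e' h hx⟩
  exact ⟨⟨s.h.cnj _, s.lf, s.two, noTv_cnj s.n _, mm_shift.2 s.one, m, mm_shift.2 a, b, c, d⟩, _, _,
    l s.one, l a, fun t => one_ne_zero (u (t.trans (by simp))), fun t => b (u (t.trans (by simp))),
    fun t => c (u t), fun t => d (u (t.trans (by simp)))⟩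

theorem St.third (s : St ρ π) (e : ρ g = bl A B C D) (h : C.det ≠ 0) :
    ∃ E ∈ MM ρ, A = E * C := by
  obtain ⟨E, rfl⟩ : ∃ E, A = E * C :=
    ⟨A * C⁻¹, by rw [mul_assoc, nonsing_inv_mul _ (isUnit_iff_ne_zero.2 h), mul_one]⟩
  refine ⟨E, ?_, rfl⟩
  have δ : ∀ m ∈ MM ρ, m ≠ 0 → E - m * E * m ∈ MM ρ := fun m a b => by
    obtain ⟨m', c⟩ := inv_of s.n a b
    have c' := mul_eq_one_comm.1 c
    have := in_mul ((in_cnj _).1 ((s.toSt0.shift e h).hm (mm_shift.2 a) c))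
      (in_inv (s.hm a c) (N := bl m' 0 0 m) (by simp [bl_mul, c, c', bl_one]))
    change In ρ (xU _)
    convert this using 1
    simp [xU_eq, bl_mul, c, c', add_mul, mul_assoc, sub_eq_neg_add]
  obtain ⟨m, a, b, c, d⟩ := s.ex
  have t : E + E ∈ MM ρ := by
    convert sub_mem (sub_mem (add_mem (δ m a b) (δ m a b))
      (δ _ (add_mem a s.one) fun t => d (eq_neg_of_add_eq_zero_left t)))
      (δ _ (sub_mem a s.one) (sub_ne_zero.2 c)) using 1
    noncomm_ring
  obtain ⟨K0, h0, -⟩ := s.lf ∅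
  obtain ⟨p, hp⟩ := CharP.exists K
  have pp := (CharP.char_is_prime_or_zero K p).resolve_right (CharP.char_ne_zero_of_finite K0 p)
  have z := CharP.cast_eq_zero K p
  obtain ⟨j, rfl⟩ := pp.odd_of_ne_two (by rintro rfl; exact s.two (by exact_mod_cast z))
  convert nsmul_mem t (j + 1) using 1
  ext a b
  push_cast at z
  rw [Matrix.smul_apply, Matrix.add_apply, nsmul_eq_mul]
  push_cast
  linear_combination -E a b * z

/-- The union of the two Bruhat cells. -/
def St.H (s : St ρ π) : Subgroup Γ :=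
  sgOf (fun g => ∀ A B C D, ρ g = bl A B C D → C = 0 ∨ C.det ≠ 0)
    (fun A B C D e => .inl (by rw [map_one, ← bl_one, bl_inj] at e; exact e.2.2.1.symm))
    fun g k hg hk _ _ _ _ e => by
      obtain ⟨A, B, C, D, a⟩ := exists_bl (ρ g)
      obtain ⟨A', B', C', D', a'⟩ := exists_bl (ρ g⁻¹)
      obtain ⟨A1, B1, C1, D1, b⟩ := exists_bl (ρ k)
      obtain ⟨A2, B2, C2, D2, b'⟩ := exists_bl (ρ k⁻¹)
      rw [map_mul, a, b, bl_mul, bl_inj] at e
      rw [← e.2.2.1]
      rcases hk _ _ _ _ b with rfl | c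
      · have := congrArg det (rel b' (by rwa [inv_inv])).1
        rw [mul_zero, add_zero, det_mul, det_one] at this
        rw [mul_zero, add_zero, det_mul]
        exact (hg _ _ _ _ a).imp (fun t => by rw [t, zero_mul])
          fun t => mul_ne_zero t (right_ne_zero_of_mul_eq_one this)
      rcases hg _ _ _ _ a with rfl | d
      · have := congrArg det (rel a a').2.2.2
        rw [zero_mul, zero_add, det_mul, det_one] at this
        rw [zero_mul, zero_add, det_mul]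
        exact .inr (mul_ne_zero (left_ne_zero_of_mul_eq_one this) c)
      obtain ⟨F, hF, rfl⟩ := s.third b c
      obtain ⟨E, hE, rfl⟩ := s.third a' (det_inv a a' d)
      have : D = -(C * E) := cancel (det_inv a a' d) (by
        rw [neg_mul, mul_assoc]; exact eq_neg_of_add_eq_zero_right (rel a a').2.2.1)
      rw [show C * (F * C1) + D * C1 = C * (F - E) * C1 by rw [this]; noncomm_ring]
      by_cases z : F - E = 0
      · exact .inl (by rw [z, mul_zero, zero_mul])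
      · obtain ⟨m, t⟩ := inv_of s.n (sub_mem hF hE) z
        have t := congrArg det t
        rw [det_mul, det_one] at t
        rw [det_mul, det_mul]
        exact .inr (mul_ne_zero (mul_ne_zero d (left_ne_zero_of_mul_eq_one t)) c)

theorem St.mem_H (s : St ρ π) (e : ρ g = bl A B C D) : g ∈ s.H ↔ C = 0 ∨ C.det ≠ 0 :=
  ⟨fun h => h _ _ _ _ e, fun h _ _ _ _ t => (bl_inj.1 (e.symm.trans t)).2.2.1 ▸ h⟩

theorem St.out (s : St ρ π) (hk : k ∉ s.H) (e : ρ k = bl A B C D) (e' : ρ k⁻¹ = bl A' B' C' D')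
    (hT : T ∈ MM ρ) : C' * T * C = 0 := by
  obtain ⟨a, -, c, -⟩ := rel e' (by rwa [inv_inv])
  have d : C.det = 0 := by_contra fun t => hk ((s.mem_H e).2 (.inr t))
  have key : ∀ m ∈ MM ρ, (C' * m + D') * C = 0 := fun m hm => by
    obtain ⟨y, hy⟩ := in_mul s.w.2 (neg_mem hm)
    rw [xU_eq, bl_mul] at hy
    have hy' := map_mul ρ y k
    rw [hy, e, bl_mul] at hy'
    have : (A - m * C).det = 0 := by_contra fun t => hk ((s.H.mul_mem_cancel_left
      ((s.mem_H hy).2 (.inr (by simp)))).1 ((s.mem_H hy').2 (.inr (by simpa [sub_eq_add_neg] using t))))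
    obtain ⟨v, hv, z⟩ := exists_mulVec_eq_zero_iff.2 this
    rw [sub_mulVec, sub_eq_zero, ← mulVec_mulVec] at z
    refine kill (s := v) d (fun t => hv ?_) ?_
    · rw [← one_mulVec v, ← a, add_mulVec, ← mulVec_mulVec, ← mulVec_mulVec, z, t]
      simp
    · rw [add_mulVec, ← mulVec_mulVec _ C', ← z, mulVec_mulVec, mulVec_mulVec, ← add_mulVec, c,
        zero_mulVec]
  have := key T hT
  rwa [add_mul, show D' * C = 0 by simpa using key 0 (zero_mem _), add_zero] at this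

omit [IsAlgClosed K] [Finite Γ] in
theorem St0.ind (s : St0 ρ π) (H : Subgroup Γ)
    (hH : ∀ c x T, ρ x = xU T → c * x * c⁻¹ ∈ H) (g : Γ) : g ∈ H := by
  obtain ⟨x, hx⟩ := s.one
  refine s.h.induction (S := {s | ∃ c x T, ρ x = xU T ∧ s = c * x * c⁻¹}) ?_ (g0 := x)
    ⟨1, x, 1, hx, by simp⟩ (fun t => ?_) H (fun _ ⟨c, x, T, e, t⟩ => t ▸ hH c x T e) g
  · rintro _ ⟨c, x, T, e, rfl⟩ k
    exact ⟨k * c, x, T, e, by group⟩
  · obtain ⟨c, t⟩ := (s.h.ker x).1 t
    simpa [xU] using congrFun (congrFun (hx.symm.trans t) 0) 2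

theorem St.all (s : St ρ π) (g : Γ) : g ∈ s.H := s.toSt0.ind _ (fun c x T hx => by
  obtain ⟨A, B, C, D, a⟩ := exists_bl (ρ c)
  obtain ⟨A', B', C', D', a'⟩ := exists_bl (ρ c⁻¹)
  rw [s.mem_H (conj_xU a a' hx)]
  by_cases hc : c ∈ s.H
  · rcases (s.mem_H a).1 hc with rfl | d
    · simp
    by_cases z : T = 0
    · simp [z]
    obtain ⟨m, t⟩ := inv_of s.n ⟨x, hx⟩ z
    have t := congrArg det t
    rw [det_mul, det_one] at t
    rw [det_mul, det_mul]
    exact .inr (mul_ne_zero (mul_ne_zero d (left_ne_zero_of_mul_eq_one t)) (det_inv a a' d))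
  · exact .inl (s.out (fun t => hc (inv_mem_iff.1 t)) a' (by rwa [inv_inv]) ⟨x, hx⟩)) g

theorem St.false (s : St ρ π) : False := by
  haveI : Finite (MM ρ) := Set.Finite.to_subtype ((Set.finite_range ρ).preimage (f := xU)
    fun a _ b _ e => by rw [xU_eq, xU_eq, bl_inj] at e; exact e.2.1)
  obtain ⟨-, v, hv, ev⟩ := jordan_eig s.lf s.two (MM ρ) s.one fun a ha h0 => by
    obtain ⟨b, e⟩ := inv_of s.n ha h0
    exact ⟨b, s.up (s.low ha e), e⟩
  let W : Submodule K (V4 K) :=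
    { carrier := {z | ∃ a b : K, z = app (a • v) (b • v)}
      zero_mem' := ⟨0, 0, by simp [app_zero]⟩
      add_mem' := by
        rintro _ _ ⟨a, b, rfl⟩ ⟨c, d, rfl⟩
        exact ⟨a + c, b + d, by ext i; fin_cases i <;> simp [app, add_mul]⟩
      smul_mem' := by
        rintro c _ ⟨a, b, rfl⟩
        exact ⟨c * a, c * b, by ext i; fin_cases i <;> simp [app, mul_assoc]⟩ }
  have u : ∀ m ∈ MM ρ, ∀ z ∈ W, xU m *ᵥ z ∈ W ∧ xL m *ᵥ z ∈ W := by
    rintro m hm _ ⟨a, b, rfl⟩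
    obtain ⟨c, e⟩ := ev m hm
    exact ⟨⟨a + b * c, b, by simp [xU_eq, bl_app, mulVec_smul, e, add_smul, smul_smul]⟩,
      ⟨a, a * c + b, by simp [xL_eq, bl_app, mulVec_smul, e, add_smul, smul_smul]⟩⟩
  have inv := s.toSt0.ind (sgOf (fun g => ∀ z ∈ W, ρ g *ᵥ z ∈ W) (by simp)
    fun a b ha hb z hz => by rw [map_mul, ← mulVec_mulVec]; exact ha _ (hb z hz))
    fun c x T hx z hz => by
      obtain ⟨A, B, C, D, a⟩ := exists_bl (ρ c)
      obtain ⟨A', B', C', D', a'⟩ := exists_bl (ρ c⁻¹)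
      rcases (s.mem_H a).1 (s.all c) with rfl | d
      · have t := congrArg det (rel a a').2.2.2
        rw [zero_mul, zero_add, det_mul, det_one] at t
        have : C' = 0 := ((isUnit_iff_isUnit_det D).2 (isUnit_iff_ne_zero.2
          (left_ne_zero_of_mul_eq_one t))).mul_right_inj.1 (by simpa using (rel a a').2.2.1)
        have e : ρ (c * x * c⁻¹) = xU (A * T * D') := by simp [conj_xU a a' hx, this, xU_eq]
        exact e ▸ (u _ ⟨_, e⟩ z hz).1
      · obtain ⟨E, hE, rfl⟩ := s.third a d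
        have e := conj_low a a' d hx
        have : In ρ (xL (C * T * C')) := by
          simpa [xU_eq, xL_eq, bl_mul, add_mul, mul_add, mul_assoc] using
            in_mul (in_mul (neg_mem hE) ⟨_, e⟩) hE
        rw [e, ← mulVec_mulVec, ← mulVec_mulVec]
        exact (u _ hE _ (u _ (s.up this) _ (u _ (neg_mem hE) z hz).1).2).1
  rcases s.h.irr W inv with e | e
  · have : app ((1 : K) • v) ((0 : K) • v) ∈ W := ⟨1, 0, rfl⟩
    rw [e, Submodule.mem_bot, ← app_zero] at this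
    exact hv (by simpa using (app_inj this).1)
  · obtain ⟨a, _, t⟩ : app ![1, 0] 0 ∈ W := e ▸ Submodule.mem_top
    obtain ⟨b, _, t'⟩ : app ![0, 1] 0 ∈ W := e ▸ Submodule.mem_top
    have p := congrFun (app_inj t).1
    have q := congrFun (app_inj t').1
    have p0 := p 0
    have p1 := p 1
    have q0 := q 0
    have q1 := q 1
    simp only [cons_val_zero, cons_val_one, Pi.smul_apply, smul_eq_mul] at p0 p1 q0 q1
    exact one_ne_zero (α := K) (by
      linear_combination p0 + a * v 0 * q1 - b * v 0 * p1)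

end Lq3

open Lq3 in
theorem Hyp.lemQ (h : Hyp ρ π) (lf : LF K) (h2 : (2 : K) ≠ 0) (n : NoTv ρ)
    {U : Submodule K (V4 K)} {g k : Γ} (a : Qd ρ U g) (b : Qd ρ U k) :
    g = 1 ∨ k = 1 ∨ k = g ∨ k * g = 1 := by
  by_contra! t
  obtain ⟨g1, k1, kg, kg'⟩ := t
  have q : ∀ {x y}, Qd ρ U x → Qd ρ U y → (ρ x - 1) * (ρ y - 1) = 0 := fun hx hy =>
    ext_of_mulVec_single fun i => by
      rw [← mulVec_mulVec, sub_mulVec, hx.2 _ (hy.1 _), one_mulVec, sub_self, zero_mulVec]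
  obtain ⟨P, T, e, e'⟩ := normal_form n (fun t => g1 (h.inj (t.trans (map_one ρ).symm))) (q a a)
    (q a b) (q b a)
  have h' := h.cnj P
  have s : St0 (D4.cnj ρ P) π := ⟨h', lf, h2, noTv_cnj n P, ⟨g, e⟩, T, ⟨k, e'⟩,
    fun t => k1 (h'.inj (by rw [e', t, map_one, xU_eq, bl_one])),
    fun t => kg (h'.inj (by rw [e', t, e])),
    fun t => kg' (h'.inj (by rw [map_mul, e', t, e, map_one]; simpa using xE (-1 : M2 K)))⟩
  obtain ⟨c, A, B, C, D, f, d⟩ := exists_opp h'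
  obtain ⟨E, rfl⟩ : ∃ E, A = E * C :=
    ⟨A * C⁻¹, by rw [mul_assoc, nonsing_inv_mul _ (isUnit_iff_ne_zero.2 d), mul_one]⟩
  exact (s.shift f d).false

end Cfsg.Agent.D4
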