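import Cfsg.Agent.D4.Defs3
import Cfsg.Agent.H68.PLift
import Cfsg.Agent.S0205

/-!
Characteristic two without transvections: the Sylow `2`-subgroup.
-/

set_option autoImplicit false
set_option linter.unusedSectionVars false
set_option linter.unusedVariables false
set_option linter.unusedSimpArgs false

open Matrix
open scoped MatrixGroups

namespace Cfsg.Agent.D4

variable {K : Type*} [Field K] {Γ X : Type*} [Group Γ] [Group X] {ρ : Γ →* M4 K} {π : Γ →* X}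

namespace NE1

/-- Unitriangular matrices commuting with `1 + E₀₂ + E₁₃`. -/
def um (x c d e f : K) : M4 K := !![1, x, c, d; 0, 1, e, f; 0, 0, 1, x; 0, 0, 0, 1]

theorem um_mul (x c d e f y r s t u : K) :
    um x c d e f * um y r s t u = um (x + y) (c + r + x * t) (d + s + x * u + c * y) (e + t)
      (f + u + e * y) := by
  ext i j
  fin_cases i <;> fin_cases j <;> simp [um, mul_apply, Fin.sum_univ_four] <;> ring

theorem um_one : (1 : M4 K) = um 0 0 0 0 0 := by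
  ext i j
  fin_cases i <;> fin_cases j <;> rfl

theorem um_inj {x c d e f y r s t u : K} (h : um x c d e f = um y r s t u) :
    x = y ∧ c = r ∧ d = s ∧ e = t ∧ f = u :=
  ⟨congrFun₂ h 0 1, congrFun₂ h 0 2, congrFun₂ h 0 3, congrFun₂ h 1 2, congrFun₂ h 1 3⟩

theorem um_fix {x c d e f : K} {v : V4 K} : um x c d e f *ᵥ v = v ↔
    x * v 1 + c * v 2 + d * v 3 = 0 ∧ e * v 2 + f * v 3 = 0 ∧ x * v 3 = 0 := by
  simp [funext_iff, Fin.forall_fin_succ, um, mulVec, dotProduct, Fin.sum_univ_four, add_assoc]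

/-- The shape of the elements of the Sylow subgroup. -/
def Sh (M : M4 K) : Prop := ∃ x c d e f, M = um x c d e f

theorem ntv (n : NoTv ρ) {g : Γ} {c d e f : K} (h : ρ g = um 0 c d e f)
    (α β y y' : K) (h1 : c = α * y ∧ d = β * y ∧ e = α * y' ∧ f = β * y') : ρ g = 1 := by
  obtain ⟨rfl, rfl, rfl, rfl⟩ := h1
  have e : ρ g = 1 + vecMulVec ![y, y', 0, 0] ![0, 0, α, β] := by
    rw [h]
    ext i j
    fin_cases i <;> fin_cases j <;> simp [um, vecMulVec, mul_comm]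
  by_contra h0
  exact n _ _ ⟨⟨by simp [dotProduct, Fin.sum_univ_four], g, e⟩, fun k => h0 (by rw [e, k]; simp),
    fun k => h0 (by rw [e, k]; simp)⟩

variable (ρ) in
/-- The standing hypotheses in the adapted basis. -/
structure Sy (S : Sylow 2 Γ) (z : Γ) : Prop where
  hi : Function.Injective ρ
  h2 : (2 : K) = 0
  n : NoTv ρ
  hz : ρ z = um 0 1 0 0 1
  zS : z ∈ S
  sh : ∀ s ∈ S, Sh (ρ s)

namespace Sy
variable {S : Sylow 2 Γ} {z : Γ} (H : Sy ρ S z)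
include H

theorem one {g : Γ} (h : ρ g = 1) : g = 1 := H.hi (h.trans (map_one ρ).symm)

theorem iv {s : Γ} (hs : s ∈ S) : ∃ x c d e f y r s' t u, ρ s = um x c d e f ∧
    ρ s⁻¹ = um y r s' t u ∧ x + y = 0 ∧ c + r + x * t = 0 ∧ d + s' + x * u + c * y = 0 ∧
    e + t = 0 ∧ f + u + e * y = 0 := by
  obtain ⟨x, c, d, e, f, h⟩ := H.sh s hs
  obtain ⟨y, r, s', t, u, h'⟩ := H.sh _ (inv_mem hs)
  exact ⟨_, _, _, _, _, _, _, _, _, _, h, h',
    um_inj (by rw [← um_mul, ← h, ← h', mul_inv_rho, um_one])⟩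

/-- The kernel of the character at position `(i, j)`. -/
def A : Subgroup Γ where
  carrier := {s | s ∈ S ∧ ρ s 0 1 = 0}
  one_mem' := ⟨one_mem _, by simp⟩
  mul_mem' := fun {s t} ⟨hs, k⟩ ⟨ht, k'⟩ => ⟨mul_mem hs ht, by
    obtain ⟨x, c, d, e, f, h⟩ := H.sh s hs
    obtain ⟨y, r, s', t, u, h'⟩ := H.sh t ht
    rw [h] at k; rw [h'] at k'
    rw [map_mul, h, h', um_mul]
    exact (congrArg₂ (· + ·) k k').trans (add_zero 0)⟩
  inv_mem' := fun {s} ⟨hs, k⟩ => ⟨inv_mem hs, by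
    obtain ⟨x, c, d, e, f, y, r, s', t, u, h, h', k1, -⟩ := H.iv hs
    rw [h] at k; rw [h']
    change x = 0 at k; change y = 0
    linear_combination k1 - k⟩

/-- The Heisenberg part. -/
def B : Subgroup Γ where
  carrier := {s | s ∈ S ∧ ρ s 1 2 = 0}
  one_mem' := ⟨one_mem _, by simp⟩
  mul_mem' := fun {s t} ⟨hs, k⟩ ⟨ht, k'⟩ => ⟨mul_mem hs ht, by
    obtain ⟨x, c, d, e, f, h⟩ := H.sh s hs
    obtain ⟨y, r, s', t, u, h'⟩ := H.sh t ht
    rw [h] at k; rw [h'] at k'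
    rw [map_mul, h, h', um_mul]
    exact (congrArg₂ (· + ·) k k').trans (add_zero 0)⟩
  inv_mem' := fun {s} ⟨hs, k⟩ => ⟨inv_mem hs, by
    obtain ⟨x, c, d, e, f, y, r, s', t, u, h, h', -, -, -, k1, -⟩ := H.iv hs
    rw [h] at k; rw [h']
    change e = 0 at k; change t = 0
    linear_combination k1 - k⟩

theorem eB {s : Γ} (hs : s ∈ H.B) : ∃ x c d f, ρ s = um x c d 0 f := by
  obtain ⟨x, c, d, e, f, h⟩ := H.sh s hs.1
  have k := hs.2
  rw [h] at k
  obtain rfl : e = 0 := k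
  exact ⟨_, _, _, _, h⟩

theorem eA {s : Γ} (hs : s ∈ H.A) : ∃ c d e f, ρ s = um 0 c d e f := by
  obtain ⟨x, c, d, e, f, h⟩ := H.sh s hs.1
  have k := hs.2
  rw [h] at k
  obtain rfl : x = 0 := k
  exact ⟨_, _, _, _, h⟩

theorem sB {s : Γ} (hs : s ∈ H.B) : s * s = 1 := by
  obtain ⟨x, c, d, f, h⟩ := H.eB hs
  refine H.one (ntv H.n (c := 0) (d := x * f + c * x) (e := 0) (f := 0)
    ?_ 0 1 (x * f + c * x) 0 (by simp))
  have h2 := H.h2
  rw [map_mul, h, um_mul]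
  clear * - h2
  congr 1 <;> grind

theorem inv {s : Γ} (hs : s ∈ S) (h : s * s = 1) : s ∈ H.A ∨ s ∈ H.B := by
  obtain ⟨x, c, d, e, f, k⟩ := H.sh s hs
  have k' := congrArg ρ h
  rw [map_mul, k, um_mul, map_one, um_one] at k'
  have := um_inj k'
  have h2 := H.h2
  by_cases hx : x = 0
  · exact Or.inl ⟨hs, by rw [k]; exact hx⟩
  · refine Or.inr ⟨hs, ?_⟩
    rw [k]
    change e = 0
    clear * - this hx h2
    grind

theorem cB {t s : Γ} (tB : t ∈ H.B) (tA : t ∉ H.A) (hs : s ∈ S) (h : s * t = t * s) : s ∈ H.B := by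
  obtain ⟨x, c, d, f, k⟩ := H.eB tB
  obtain ⟨y, r, s', t', u, k'⟩ := H.sh s hs
  have hx : x ≠ 0 := fun e => tA ⟨tB.1, by rw [k]; exact e⟩
  have k1 := congrArg ρ h
  rw [map_mul, map_mul, k, k', um_mul, um_mul] at k1
  have := um_inj k1
  refine ⟨hs, ?_⟩
  rw [k']
  change t' = 0
  clear * - this hx
  grind

theorem nB {t s : Γ} (tB : t ∈ H.B) (hs : s ∈ S) :
    s * t * s⁻¹ ∈ H.B ∧ s * t * s⁻¹ * t ∈ H.A := by
  obtain ⟨x', c', d', f', h⟩ := H.eB tB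
  obtain ⟨x, c, d, e, f, y, r, s', t', u, k, k', k1, -⟩ := H.iv hs
  have m := mul_mem (mul_mem hs tB.1) (inv_mem hs)
  obtain ⟨x2, c2, d2, e2, f2, y2, r2, s2, t2, u2, l, l', -, -, -, k4, -⟩ := H.iv hs
  refine ⟨⟨m, ?_⟩, mul_mem m tB.1, ?_⟩
  · rw [map_mul, map_mul, h, l, l', um_mul, um_mul]
    change e2 + 0 + t2 = 0
    simpa using k4
  · rw [map_mul, map_mul, map_mul, h, k, k', um_mul, um_mul, um_mul]
    change x + x' + y + x' = 0
    linear_combination k1 + x' * H.h2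

theorem sA {s : Γ} (hs : s ∈ H.A) : s * s = 1 := by
  obtain ⟨c, d, e, f, h⟩ := H.eA hs
  have h2 := H.h2
  refine H.one ?_
  rw [map_mul, h, um_mul, um_one]
  clear * - h2
  congr 1 <;> grind

theorem cen {t s : Γ} (tA : t ∈ H.A) (tB : t ∈ H.B) (hs : s ∈ S) : s * t = t * s := by
  obtain ⟨c, d, e, f, h⟩ := H.eA tA
  have := tB.2
  rw [h] at this
  obtain rfl : e = 0 := this
  obtain ⟨x, c', d', e, f', y, r, s', t', u, k, k', k1⟩ := H.iv hs
  refine mul_inv_eq_iff_eq_mul.1 (mul_right_cancel (b := t) ?_)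
  have h2 := H.h2
  rw [H.sA tA]
  refine H.one (ntv H.n (c := 0) (d := c * x + f * x) (e := 0) (f := 0) ?_ 0 1 (c * x + f * x) 0
    (by simp))
  rw [map_mul, map_mul, map_mul, h, k, k', um_mul, um_mul, um_mul]
  clear * - k1 h2
  congr 1 <;> grind

theorem fix {t : Γ} (ht : t ∈ S) (t1 : t ≠ 1) :
    t ∈ H.A ↔ ∀ v, ρ t *ᵥ v = v ↔ ρ z *ᵥ v = v := by
  refine ⟨fun tA v => ?_, fun h => ⟨ht, ?_⟩⟩
  · obtain ⟨c, d, e, f, h⟩ := H.eA tA
    have h2 := H.h2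
    rw [H.hz, h, um_fix, um_fix]
    refine ⟨fun k => by_contra fun k' => t1 (H.one ?_), fun k => by clear * - k; grind⟩
    by_cases h4 : v 3 = 0
    · exact ntv H.n h 0 1 d f (by clear * - k k' h4; grind)
    · exact ntv H.n h 1 (v 2 / v 3) c e (by clear * - k h4 h2; grind)
  · obtain ⟨x, c, d, e, f, k⟩ := H.sh t ht
    have := (h (Pi.single 1 1)).2 (by rw [H.hz, um_fix]; simp)
    rw [k, um_fix] at this
    rw [k]
    exact show x = 0 by simpa using this.1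

theorem ne : NE ρ S z H.A H.B := by
  have zA : z ∈ H.A := ⟨H.zS, by rw [H.hz]; rfl⟩
  refine ⟨fun e => ?_, zA, ⟨H.zS, by rw [H.hz]; rfl⟩, fun _ h => h.1,
    fun _ h => h.1, fun _ => H.sA, fun _ => H.sB, fun _ => H.inv,
    fun t tA tB s => H.cen tA tB, fun t tB tA s => H.cB tB tA, fun t tB s => H.nB tB,
    fun t => H.fix, fun v => ?_⟩
  · have := H.hz
    rw [e, map_one, um_one] at this
    exact zero_ne_one (um_inj this).2.1
  · rw [mulVec_sub, mulVec_mulVec, ← map_mul, H.sA zA, map_one, one_mulVec,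
      ← neg_sub, neg_eq_iff_add_eq_zero, ← two_smul K, H.h2, zero_smul]

end Sy

theorem of_cnj {S : Sylow 2 Γ} {z : Γ} {A B : Subgroup Γ} {C : (M4 K)ˣ}
    (N : NE (cnj ρ C) S z A B) : NE ρ S z A B := by
  have k : ∀ g v, cnj ρ C g *ᵥ (C⁻¹.val *ᵥ v) = C⁻¹.val *ᵥ (ρ g *ᵥ v) := fun g v => by
    simp [cnj_apply, mul_assoc]
  have k' : ∀ g v, cnj ρ C g *ᵥ (C⁻¹.val *ᵥ v) = C⁻¹.val *ᵥ v ↔ ρ g *ᵥ v = v := fun g v => by
    rw [k]; exact ⟨units_mulVec_inj C⁻¹, fun e => by rw [e]⟩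
  refine { N with fix := fun t ht t1 => (N.fix t ht t1).trans ⟨fun h v => by rw [← k', h, k'],
    fun h v => ?_⟩, img := fun v => ?_ }
  · rw [show v = C⁻¹.val *ᵥ (C.val *ᵥ v) by simp, k', k', h]
  · rw [← k', mulVec_sub, ← k]; exact N.img _

theorem notv_cnj (n : NoTv ρ) (C : (M4 K)ˣ) : NoTv (cnj ρ C) := fun v φ h =>
  n (C.val *ᵥ v) (φ ᵥ* C⁻¹.val) ⟨by simpa [cnj_cnj_inv] using h.1.cnj C⁻¹,
    fun e => h.2.1 (units_mulVec_inj C (by simpa using e)),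
    fun e => h.2.2 (vecMul_units_inj C⁻¹ (by simpa using e))⟩

theorem sh_of (h2 : (2 : K) = 0) (hd : ∀ g, (ρ g).det = 1) {S : Subgroup Γ} {z : Γ}
    (hz : ρ z = um 0 1 0 0 1) (c : ∀ s ∈ S, s * z = z * s)
    (e : ∀ s ∈ S, ρ s *ᵥ Pi.single 0 1 = Pi.single 0 1) {s : Γ} (hs : s ∈ S) : Sh (ρ s) := by
  have w : ρ s = !![1, ρ s 0 1, ρ s 0 2, ρ s 0 3; 0, ρ s 1 1, ρ s 1 2, ρ s 1 3;
      0, 0, 1, ρ s 0 1; 0, 0, 0, ρ s 1 1] := by
    have c1 := congrArg ρ (c s hs)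
    have e1 := e s hs
    rw [map_mul, map_mul, hz] at c1
    generalize ρ s = M at c1 e1
    simp [← Matrix.ext_iff, Fin.forall_fin_succ, um, mul_apply, Fin.sum_univ_four, vecMul,
      dotProduct] at c1
    simp [funext_iff, Fin.forall_fin_succ] at e1
    ext i j
    fin_cases i <;> fin_cases j <;> simp <;> grind
  have d := hd s
  rw [w, det_of_upperTriangular (by
    intro i j h
    fin_cases i <;> fin_cases j <;> simp at h ⊢)] at d
  simp [Fin.prod_univ_four] at d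
  have : ρ s 1 1 = 1 := by
    have : (ρ s 1 1 - 1) ^ 2 = 0 := by linear_combination d + (1 - ρ s 1 1) * h2
    exact sub_eq_zero.1 (pow_eq_zero_iff two_ne_zero |>.1 this)
  rw [this] at w
  exact ⟨_, _, _, _, _, w⟩

theorem exists_basis (h2 : (2 : K) = 0) (n : NoTv ρ) [Finite Γ] {S : Subgroup Γ} (hS : IsPGroup 2 S)
    {z : Γ} (z1 : ρ z ≠ 1) (z2 : z * z = 1) (c : ∀ s ∈ S, s * z = z * s) : ∃ C : (M4 K)ˣ,
    cnj ρ C z = um 0 1 0 0 1 ∧ ∀ s ∈ S, cnj ρ C s *ᵥ Pi.single 0 1 = Pi.single 0 1 := by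
  haveI := CharTwo.of_one_ne_zero_of_two_eq_zero (one_ne_zero (α := K)) h2
  obtain ⟨N, hN⟩ : ∃ N, ρ z = 1 + N := ⟨ρ z - 1, by simp⟩
  have N2 : ∀ v, N *ᵥ (N *ᵥ v) = 0 := fun v => by
    have := congrArg ρ z2
    rw [map_mul, hN, map_one, add_mul, mul_add, mul_add, one_mul, one_mul, mul_one, add_assoc,
      add_eq_left, ← add_assoc, ← two_smul K, h2, zero_smul, zero_add] at this
    rw [mulVec_mulVec, this, zero_mulVec]
  obtain ⟨_, ⟨e3, rfl⟩, n0, f0⟩ := H68.exists_fixed (p := 2) (F := K)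
    ((toLinAlgEquiv' : M4 K ≃ₐ[K] _).toMulEquiv.toMonoidHom.comp ρ) hS
    (LinearMap.range (toLin' N)) (by
      rintro g hg _ ⟨v, rfl⟩
      have := congrArg ρ (c g hg)
      rw [map_mul, map_mul, hN, mul_add, add_mul, mul_one, one_mul, add_right_inj] at this
      exact ⟨ρ g *ᵥ v, by simp [toLinAlgEquiv'_apply, this]⟩) (fun h => z1 (by
      rw [LinearMap.range_eq_bot, map_eq_zero_iff _ toLin'.injective] at h
      rw [hN, h, add_zero]))
  rw [toLin'_apply] at n0 f0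
  obtain ⟨e4, h4⟩ : ∃ e4, ∀ a : K, N *ᵥ e4 ≠ a • N *ᵥ e3 := by
    by_contra h
    push Not at h
    choose a ha using h
    have e : N = vecMulVec (N *ᵥ e3) fun j => a (Pi.single j 1) := by
      ext i j
      simpa [vecMulVec, mul_comm] using congrFun (ha (Pi.single j 1)) i
    have := N2 e3
    rw [congrArg (· *ᵥ (N *ᵥ e3)) e, vv_mulVec, smul_eq_zero] at this
    exact n _ _ ⟨⟨this.resolve_right n0, z, by rw [← e, hN]⟩, n0, fun k => n0 (by
      rw [e, k]; simp)⟩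
  have li : ∀ a b : K, a • N *ᵥ e3 + b • N *ᵥ e4 = 0 → a = 0 ∧ b = 0 := fun a b h => by
    have hb : b = 0 := by_contra fun hb => h4 (-(a / b)) (by
      rw [← smul_right_inj hb, smul_smul, eq_neg_of_add_eq_zero_right h, ← neg_smul]
      congr 1; field_simp)
    exact ⟨by simpa [hb, n0] using h, hb⟩
  let E : Fin 4 → V4 K := ![N *ᵥ e3, N *ᵥ e4, e3, e4]
  have hE : ∀ v, (of E)ᵀ *ᵥ v = v 0 • N *ᵥ e3 + v 1 • N *ᵥ e4 + v 2 • e3 + v 3 • e4 := fun v => by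
    rw [mulVec_transpose, vecMul_eq_sum, Fin.sum_univ_four]; rfl
  have u : IsUnit (of E)ᵀ := mulVec_injective_iff_isUnit.1 ((injective_iff_map_eq_zero
    (toLin' (of E)ᵀ)).2 fun v hv => by
      rw [toLin'_apply, hE] at hv
      have a1 := congrArg (N *ᵥ ·) hv
      simp only [mulVec_add, mulVec_smul, N2, smul_zero, zero_add, mulVec_zero] at a1
      obtain ⟨v3, v4⟩ := li _ _ a1
      obtain ⟨v0, v1⟩ := li (v 0) (v 1) (by simpa [v3, v4] using hv)
      ext i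
      fin_cases i <;> assumption)
  obtain ⟨C, hC⟩ := u
  rw [← hC] at hE
  have k : ∀ g v w, ρ g *ᵥ (C.val *ᵥ v) = C.val *ᵥ w → cnj ρ C g *ᵥ v = w := fun g v w h =>
    units_mulVec_inj C (by
      rw [← h, cnj_apply, mulVec_mulVec, mulVec_mulVec, ← mul_assoc, ← mul_assoc, C.mul_inv, one_mul])
  refine ⟨C, (ext_iff_mulVec).2 fun v => k _ _ _ ?_, fun s hs => k _ _ _ ?_⟩
  · rw [hN, add_mulVec, one_mulVec, hE, hE]
    simp [mulVec_add, mulVec_smul, N2, um, mulVec, dotProduct, Fin.sum_univ_four]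
    module
  · rw [hE]
    simpa [toLinAlgEquiv'_apply] using f0 s hs

theorem exists_cen [Finite Γ] (h : Hyp ρ π) (S : Sylow 2 Γ) :
    ∃ z ∈ S, z ≠ 1 ∧ z * z = 1 ∧ ∀ s ∈ S.1, s * z = z * s := by
  haveI := h.simple
  haveI := h.finiteX
  have d : 2 ∣ Nat.card S := S.dvd_card_of_dvd_card (.trans (by
    by_contra h3
    have := S0205.result (G := X) (Nat.odd_iff.2 (by omega))
    exact h.nonab ⟨⟨IsSimpleGroup.comm_iff_isSolvable.2 this⟩⟩)
    (Subgroup.card_dvd_of_surjective π h.surj))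
  haveI : Nontrivial S := Finite.one_lt_card_iff_nontrivial.1 (Nat.le_of_dvd Nat.card_pos d)
  haveI := S.isPGroup'.center_nontrivial
  obtain ⟨z, hz⟩ := exists_prime_orderOf_dvd_card' (G := Subgroup.center S) 2 (by
    obtain ⟨k, k0, e⟩ := (S.isPGroup'.to_subgroup (Subgroup.center S)).nontrivial_iff_card.1
      inferInstance
    rw [e]; exact dvd_pow_self 2 k0.ne')
  refine ⟨z, z.1.2, fun e => ?_, ?_,
    fun s hs => congrArg Subtype.val (Subgroup.mem_center_iff.1 z.2 ⟨s, hs⟩)⟩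
  · rw [show z = 1 from Subtype.ext (Subtype.ext e)] at hz
    simp at hz
  · have := pow_orderOf_eq_one z
    rw [hz, sq] at this
    exact congrArg (fun a : Subgroup.center S => (a : Γ)) this

end NE1

open NE1 in
theorem Hyp.exists_ne [Finite Γ] (h : Hyp ρ π) (h2 : (2 : K) = 0) (n : NoTv ρ) :
    ∃ (S : Sylow 2 Γ) (z : Γ) (A B : Subgroup Γ), NE ρ S z A B := by
  obtain ⟨S⟩ : Nonempty (Sylow 2 Γ) := inferInstance
  obtain ⟨z, zS, z1, z2, c⟩ := exists_cen h S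
  obtain ⟨C, h1, h3⟩ := exists_basis h2 n S.isPGroup'
    (fun e => z1 (h.inj (e.trans (map_one ρ).symm))) z2 c
  have H : Sy (D4.cnj ρ C) S z :=
    ⟨(h.cnj C).inj, h2, notv_cnj n C, h1, zS, fun s => sh_of h2 (h.cnj C).det h1 c h3⟩
  exact ⟨S, z, _, _, of_cnj H.ne⟩

end Cfsg.Agent.D4
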