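import Cfsg.Agent.D4.L2
import Cfsg.Agent.DIM5.A7M11
import Cfsg.Agent.H13.SzConj
import Cfsg.Agent.H13.SzInst
import Cfsg.Agent.H13.ReeInst
import Cfsg.Agent.H13.ReeTwo
import Cfsg.Agent.H6.J1Spec

/-!
The Suzuki groups, the Ree groups, `J₁` and `M₁₁`.
-/

set_option autoImplicit false
set_option linter.unusedSectionVars false

open Matrix
open scoped MatrixGroups

namespace Cfsg.Agent.D4

variable {K : Type*} [Field K] {Γ X : Type*} [Group Γ] [Group X] {ρ : Γ →* M4 K} {π : Γ →* X}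
variable [IsAlgClosed K] [Finite Γ]

theorem Hyp.szrj_inj (h : Hyp ρ π) (h2 : (2 : K) = 0) : Function.Injective π := by
  refine (injective_iff_map_eq_one _).2 fun z hz => h.inj ?_
  obtain ⟨c, e⟩ := (h.ker z).1 hz
  have h4 := h.fourth e
  have : (c - 1) ^ 4 = 0 := by
    linear_combination h4 + (-2 * c ^ 3 + 3 * c ^ 2 - 2 * c + 1) * h2
  rw [e, sub_eq_zero.1 (pow_eq_zero_iff (by norm_num) |>.1 this), one_smul, map_one]

theorem Hyp.sz (h : Hyp ρ π) (h2 : (2 : K) = 0) (e : Lie.IsoSuzuki X) : Real ρ := by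
  obtain ⟨F, _, _, m, hm, hF, ⟨e⟩⟩ := e
  have : CharP K 2 := (CharP.charP_iff_prime_eq_zero Nat.prime_two).2 (by exact_mod_cast h2)
  let _ := H13.titsOfCard hF
  have P := H13.par_of_card hm hF
  let M := (H13.lieModel (H13.titsOfCard_θ hF)).ofEquiv e
  refine h.real_of (h.szrj_inj h2) 2 fun x => ?_
  by_cases hx : M.tr x = 0
  · refine .inr ⟨2, orderOf_dvd_iff_pow_eq_one.1 ?_⟩
    rcases M.order_of_tr_eq_zero P hx with o | o | o <;> simp [o]
  · exact .inl (M.isConj_of_tr_eq P hx (M.tr_inv x).symm)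

theorem Hyp.ree (h : Hyp ρ π) (h2 : (2 : K) = 0) (e : Lie.IsoRee X) : False := by
  obtain ⟨F, _, _, m, hm, hF, ⟨e⟩⟩ := e
  let M := H13.reeModel hF
  obtain ⟨c⟩ := M.centralizer_a_equiv
  have := M.charP
  have := h.l2_sub (h.szrj_inj h2) (F := F) (e.symm.toMonoidHom.comp ((Subgroup.subtype _).comp
    (c.symm.toMonoidHom.comp (MonoidHom.inr _ _))))
    (e.symm.injective.comp (Subtype.val_injective.comp (c.symm.injective.comp
      fun a b e => congrArg Prod.snd e))) 3 (by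
      rw [show ((3 : ℕ) : K) = 2 + 1 by norm_num, h2, zero_add]; exact one_ne_zero)
  rw [Nat.card_eq_fintype_card, hF] at this
  have := Nat.pow_le_pow_right (show 0 < 3 by decide) (show 3 ≤ 2 * m + 1 by omega)
  omega

theorem Hyp.j1 (h : Hyp ρ π) (h2 : (2 : K) = 0) (e : Spor.IsoJ1 X) : False := by
  obtain ⟨e⟩ := e
  obtain ⟨g, hg⟩ := H6.j1_norm7
  have o : orderOf (e.symm H88.J1.jX) = 7 := (e.symm.orderOf_eq _).trans H88.J1.ord_y
  refine h.ord7_false (x := e.symm H88.J1.jX) (by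
    rw [show (7 : K) = 2 * 3 + 1 by norm_num, h2, zero_mul, zero_add]; exact one_ne_zero)
    (fun e => by simp [e] at o) (orderOf_dvd_iff_pow_eq_one.1 o.dvd) (isConj_iff.2 ⟨e.symm g, ?_⟩)
  rw [← map_mul, hg, map_mul, map_pow, mul_inv_cancel_right]

theorem Hyp.m11 (h : Hyp ρ π) (e : Spor.IsoM11 X) : False := by
  obtain ⟨e⟩ := e
  have h3 : (3 : K) = 0 := by
    by_contra h3
    obtain ⟨a, b, n, m, h1, h2, h4, h5, h6, h7, h8, h9⟩ := D5.am_nine11
    refine h.e9_false h3 (a := e.symm a) (b := e.symm b) (n := e.symm n) (m := e.symm m)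
      (by simpa using h1) ?_ ?_ ?_ ?_ ?_ ?_ ?_ <;> apply e.injective <;>
      simp only [map_mul, map_pow, map_inv, map_one, e.apply_symm_apply, h2, h4]
    · exact h5
    · rw [h6, mul_inv_cancel_right]
    · rw [eq_inv_iff_mul_eq_one, mul_eq_one_comm, ← mul_assoc, h7, mul_inv_cancel]
    · rw [h8, mul_inv_cancel_right]
    · calc _ = b⁻¹ * (b * (m * b)) * m⁻¹ := by group
        _ = b⁻¹ * (a * b) * b⁻¹ := by rw [h9]; group
        _ = _ := by rw [h5]; group
  have : Fact (Nat.Prime 11) := ⟨by norm_num⟩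
  obtain ⟨x, hx⟩ := exists_prime_orderOf_dvd_card' (G := Spor.M11) 11 (by
    rw [H14.card_M11]; norm_num)
  refine h.ord11_false (x := e.symm (x ^ 3)) (fun h11 => one_ne_zero (α := K) (by
    linear_combination 4 * h3 - h11)) (fun e1 => ?_) ?_ ?_
  · have := orderOf_dvd_of_pow_eq_one ((map_eq_one_iff _ e.symm.injective).1 e1)
    rw [hx] at this
    omega
  · rw [← map_pow, ← pow_mul, mul_comm, pow_mul, ← hx, pow_orderOf_eq_one, one_pow, map_one]
  · rw [← map_pow, ← pow_mul]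
    exact e.symm.toMonoidHom.map_isConj (D5.am_cube11 x)

end Cfsg.Agent.D4
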