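import Cfsg.Agent.D4.TConn
import Cfsg.Agent.H10.P3Two

set_option autoImplicit false

open Matrix
open scoped MatrixGroups

namespace Cfsg.Agent.D4

variable {K : Type*} [Field K] {Γ X : Type*} [Group Γ] [Group X] {ρ : Γ →* M4 K} {π : Γ →* X}
variable {u v w f g h φ ψ χ : V4 K}

namespace TNA

/-- The axes with centre `v` span at most a plane. -/
def Two (ρ : Γ →* M4 K) (v : V4 K) : Prop := ∃ f ξ : V4 K, ∀ χ, T ρ v χ → ∃ a b : K, χ = a • f + b • ξ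

theorem back {k : Γ} {c : K} (hc : c ≠ 0) (e : ρ k *ᵥ v = c • w) :
    T ρ w χ ↔ T ρ v (c⁻¹ • χ ᵥ* ρ k) := by
  constructor
  · intro t
    have t1 : T ρ (c • w) (c⁻¹ • χ) := (T.smul_iff c).2 (by rwa [smul_smul, mul_inv_cancel₀ hc, one_smul])
    have := t1.conj k⁻¹
    rwa [← e, mulVec_mulVec, inv_mul_rho, one_mulVec, inv_inv, smul_vecMul] at this
  · intro t
    have := t.conj k
    rwa [e, T.smul_iff, smul_vecMul, vecMul_vecMul, mul_inv_rho, vecMul_one, smul_smul, mul_inv_cancel₀ hc,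
      one_smul] at this

theorem tr [Finite K] (h : Hyp ρ π) (h2 : (2 : K) = 0) (P : V4 K → Prop)
    (hP : ∀ v w k (c : K), c ≠ 0 → ρ k *ᵥ v = c • w → P v → P w) (hv : Fl ρ v φ) (hw : Fl ρ w ψ) (p : P v) : P w :=
  h.conn (fun v _ => P v) (fun v _ w _ a b h3 h4 p => by
    obtain ⟨k, c, hc, e, -⟩ := conj_two h2 a b h3 h4
    exact hP v w k c hc e p) hv hw p

theorem two_tr [Finite K] (h : Hyp ρ π) (h2 : (2 : K) = 0) (hv : Fl ρ v φ) (hw : Fl ρ w ψ) (p : Two ρ v) :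
    ∃ y, ∀ χ, T ρ w χ → ∃ a b : K, χ = a • ψ + b • y := by
  obtain ⟨f, ξ, hf⟩ : Two ρ w := tr h h2 (Two ρ) (fun v w k c hc e ⟨f, ξ, p⟩ => ⟨f ᵥ* ρ k⁻¹, ξ ᵥ* ρ k⁻¹, fun χ t => by
    obtain ⟨a, b, e'⟩ := p _ ((back hc e).1 t)
    refine ⟨c * a, c * b, ?_⟩
    have := congrArg (fun z => c • z ᵥ* ρ k⁻¹) e'
    simp only [smul_vecMul, vecMul_vecMul, mul_inv_rho, vecMul_one, smul_smul, mul_inv_cancel₀ hc, one_smul,
      add_vecMul, smul_add] at this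
    exact this⟩) hv hw p
  obtain ⟨a, b, e⟩ := hf ψ hw.1
  by_cases ha : a = 0
  · have hb : b ≠ 0 := fun hb => hw.2.2 (by simp [e, ha, hb])
    refine ⟨f, fun χ t => ?_⟩
    obtain ⟨a', b', rfl⟩ := hf χ t
    exact ⟨b' / b, a', by rw [e, ha, zero_smul, zero_add, smul_smul, div_mul_cancel₀ _ hb, add_comm]⟩
  · refine ⟨ξ, fun χ t => ?_⟩
    obtain ⟨a', b', rfl⟩ := hf χ t
    refine ⟨a' / a, b' - a' / a * b, ?_⟩
    rw [e, smul_add, smul_smul, div_mul_cancel₀ _ ha, smul_smul, sub_smul]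
    abel

theorem multi_tr [Finite K] (h : Hyp ρ π) (h2 : (2 : K) = 0) (hw : Fl ρ w ψ) (p : Multi ρ v) :
    ∃ η, T ρ w η ∧ η ≠ 0 ∧ η ≠ ψ := by
  obtain ⟨φ, φ', a, b, c, d⟩ := p.2
  obtain ⟨-, η, η', a', b', c', d'⟩ : Multi ρ w := tr h h2 (Multi ρ) (fun v w k c hc e ⟨v0, φ, φ', a, b, p0, p1⟩ => by
    have key : ∀ χ, T ρ v χ → T ρ w (c • χ ᵥ* ρ k⁻¹) := fun χ t => (back hc e).2 (by
      rwa [smul_vecMul, vecMul_vecMul, inv_mul_rho, vecMul_one, smul_smul, inv_mul_cancel₀ hc, one_smul])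
    refine ⟨fun w0 => rho_mulVec_ne ρ k v0 (by rw [e, w0, smul_zero]), _, _, key _ a, key _ b,
      smul_ne_zero hc (vecMul_rho_ne ρ _ p0), fun d e' => p1 d ?_⟩
    have := congrArg (fun z => c⁻¹ • z ᵥ* ρ k) e'
    simp only [smul_vecMul, vecMul_vecMul, inv_mul_rho, vecMul_one, smul_smul, inv_mul_cancel₀ hc, one_smul] at this
    rw [this, mul_left_comm, inv_mul_cancel₀ hc, mul_one]) ⟨a, p.1, c⟩ hw p
  by_cases e : η = ψ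
  · exact ⟨η', b', fun e' => d' 0 (by rw [e', zero_smul]), fun e' => d' 1 (by rw [e', e, one_smul])⟩
  · exact ⟨η, a', c', e⟩

/-- The structure of the axes with centre `v`. -/
structure St (ρ : Γ →* M4 K) (v : V4 K) (K1 : Subfield K) (f ξ : V4 K) : Prop where
  card : 2 < Nat.card K1
  fv : f ⬝ᵥ v = 0
  xv : ξ ⬝ᵥ v = 0
  ax : ∀ χ, T ρ v χ ↔ ∃ c ∈ K1, χ = c ^ 2 • f + c • ξ
  inj : ∀ c d : K, c ^ 2 • f + c • ξ = d ^ 2 • f + d • ξ → c = d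

theorem exists_st [Finite K] (h2 : (2 : K) = 0) (h : T ρ v φ) (h' : T ρ w ψ) (h3 : φ ⬝ᵥ w ≠ 0)
    (h4 : ψ ⬝ᵥ v ≠ 0) (n : NA ρ v w) (m : Multi ρ v) (hs : ∀ χ (a : K), Fl ρ v χ → T ρ v (a • χ) → a = 0 ∨ a = 1) :
    ∃ K1 f ξ, St ρ v K1 f ξ ∧ f ≠ 0 ∧ ξ ≠ 0 ∧ ξ ⬝ᵥ w = 0 := by
  obtain ⟨K1, f, ξ, a1, a2, a3, a4, a5, a6, a7, -⟩ := na_struct h2 h h' h3 h4 n m hs
  have f0 : f ⬝ᵥ w ≠ 0 := left_ne_zero_of_mul_eq_one a6
  refine ⟨K1, f, ξ, ⟨a1, a5, a4, a7, fun c d e => ?_⟩, fun e => f0 (by simp [e]), a2, a3⟩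
  have := congrArg (· ⬝ᵥ w) e
  simp only [add_dotProduct, smul_dotProduct, a3, smul_eq_mul, mul_zero, add_zero] at this
  exact sub_eq_zero.1 (pow_eq_zero_iff (n := 2) two_ne_zero |>.1 (by
    linear_combination mul_right_cancel₀ f0 this + (d ^ 2 - c * d) * h2))

variable {K1 K2 : Subfield K} {ξ f' ξ' x η : V4 K}

theorem St.le [Finite K] (s : St ρ v K1 f ξ) (s' : St ρ v K2 f' ξ') : Nat.card K1 ≤ Nat.card K2 := by
  choose d hd e using fun c : K1 => (s'.ax _).1 ((s.ax _).2 ⟨c, c.2, rfl⟩)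
  exact Nat.card_le_card_of_injective (fun c => (⟨d c, hd c⟩ : K2)) fun c c' k => Subtype.ext (s.inj _ _ (by
    rw [e, e, show d c = d c' from congrArg Subtype.val k]))

theorem St.T (s : St ρ v K1 f ξ) {c : K} (hc : c ∈ K1) : T ρ v (c ^ 2 • f + c • ξ) := (s.ax _).2 ⟨c, hc, rfl⟩

theorem St.ne (s : St ρ v K1 f ξ) {c : K} (hc : c ≠ 0) : c ^ 2 • f + c • ξ ≠ 0 := fun e =>
  hc (s.inj c 0 (by simp [e]))

theorem dot_ax (c : K) (f ξ x : V4 K) : (c ^ 2 • f + c • ξ) ⬝ᵥ x = c * (c * f ⬝ᵥ x + ξ ⬝ᵥ x) := by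
  simp only [add_dotProduct, smul_dotProduct, smul_eq_mul]; ring

theorem exists_third (h : 2 < Nat.card K1) {j : K} (hj : j ∈ K1) (j0 : j ≠ 0) : ∃ c ∈ K1, c ≠ 0 ∧ c ≠ j := by
  obtain ⟨t, ht, t0, t1⟩ := H10.P3.exists_ne_zero_one h
  exact ⟨t * j, K1.mul_mem ht hj, mul_ne_zero t0 j0, fun e => t1 (mul_right_cancel₀ j0 (by rw [e, one_mul]))⟩

theorem St.zero [Finite K] (s : St ρ v K1 f ξ) (h2 : (2 : K) = 0) (m : Multi ρ v)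
    (hs : ∀ χ (a : K), Fl ρ v χ → D4.T ρ v (a • χ) → a = 0 ∨ a = 1) (hx : Fl ρ x η) (f0 : f ⬝ᵥ x ≠ 0) (x0 : ξ ⬝ᵥ x ≠ 0) :
    ¬ NA ρ v x := by
  intro n
  have one := s.T K1.one_mem
  have h3 : ((1 : K) ^ 2 • f + (1 : K) • ξ) ⬝ᵥ x ≠ 0 := fun e => s.ne one_ne_zero (n _ one e)
  obtain ⟨K2, f', ξ', s', -, -, e⟩ := exists_st h2 one hx.1 h3 (fun e => hx.2.2 (na_symm one h3 n _ hx.1 e)) n m hs
  obtain rfl : K1 = K2 := H10.P3.subfield_eq_of_card (le_antisymm (s.le s') (s'.le s))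
  obtain ⟨t, ht, t0, t1⟩ := H10.P3.exists_ne_zero_one s.card
  obtain ⟨d₁, hd₁, e₁⟩ := (s'.ax _).1 one
  obtain ⟨d₂, hd₂, e₂⟩ := (s'.ax _).1 (s.T ht)
  have e₁ := congrArg (· ⬝ᵥ x) e₁
  have e₂ := congrArg (· ⬝ᵥ x) e₂
  simp only [dot_ax, e] at e₁ e₂
  have k1 : t * (t - 1) * f ⬝ᵥ x = (d₂ ^ 2 - t * d₁ ^ 2) * f' ⬝ᵥ x := by linear_combination e₂ - t * e₁
  have k2 : t * (t - 1) * ξ ⬝ᵥ x = (t ^ 2 * d₁ ^ 2 - d₂ ^ 2) * f' ⬝ᵥ x := by linear_combination t ^ 2 * e₁ - e₂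
  have t2 : t * (t - 1) ≠ 0 := mul_ne_zero t0 (sub_ne_zero.2 t1)
  have k3 : d₂ ^ 2 - t * d₁ ^ 2 ≠ 0 := fun e => mul_ne_zero t2 f0 (by rw [k1, e, zero_mul])
  have k4 : ξ ⬝ᵥ x / f ⬝ᵥ x = (t ^ 2 * d₁ ^ 2 - d₂ ^ 2) / (d₂ ^ 2 - t * d₁ ^ 2) := by
    rw [div_eq_div_iff f0 k3]
    exact mul_left_cancel₀ t2 (by linear_combination (d₂ ^ 2 - t * d₁ ^ 2) * k2 - (t ^ 2 * d₁ ^ 2 - d₂ ^ 2) * k1)
  have k5 : ξ ⬝ᵥ x / f ⬝ᵥ x ∈ K1 := k4 ▸ K1.div_mem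
    (K1.sub_mem (K1.mul_mem (K1.pow_mem ht 2) (K1.pow_mem hd₁ 2)) (K1.pow_mem hd₂ 2))
    (K1.sub_mem (K1.pow_mem hd₂ 2) (K1.mul_mem ht (K1.pow_mem hd₁ 2)))
  refine s.ne (div_ne_zero x0 f0) (n _ (s.T k5) ?_)
  rw [dot_ax, div_mul_cancel₀ _ f0, ← two_mul, h2, zero_mul, mul_zero]

theorem St.adj [Finite K] (s : St ρ v K1 f ξ) (h2 : (2 : K) = 0) (m : Multi ρ v)
    (hs : ∀ χ (a : K), Fl ρ v χ → D4.T ρ v (a • χ) → a = 0 ∨ a = 1) (hx : Fl ρ x η) (f0 : f ⬝ᵥ x ≠ 0) (x0 : ξ ⬝ᵥ x ≠ 0) :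
    ∃ j ∈ K1, j ≠ 0 ∧ ∃ a : K, a ≠ 0 ∧ D4.T ρ x (a • (j ^ 2 • f + j • ξ)) := by
  obtain ⟨χ, t, e, χ0⟩ : ∃ χ, D4.T ρ v χ ∧ χ ⬝ᵥ x = 0 ∧ χ ≠ 0 := by
    by_contra k
    exact s.zero h2 m hs hx f0 x0 fun χ t e => by_contra fun χ0 => k ⟨χ, t, e, χ0⟩
  obtain ⟨j, hj, rfl⟩ := (s.ax χ).1 t
  have j0 : j ≠ 0 := fun e => χ0 (by simp [e])
  by_cases e' : η ⬝ᵥ v = 0
  · obtain ⟨c, hc, c0, cj⟩ := exists_third s.card hj j0
    have s0 : (c ^ 2 • f + c • ξ) ⬝ᵥ x ≠ 0 := by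
      rw [dot_ax] at e ⊢
      refine mul_ne_zero c0 fun k => mul_ne_zero (sub_ne_zero.2 cj) f0 ?_
      linear_combination k - (mul_eq_zero.1 e).resolve_left j0
    obtain ⟨i, hi, ei⟩ := (s.ax _).1 (hx.1.comm (s.T hc) e')
    refine ⟨i, hi, fun i0 => smul_ne_zero s0 hx.2.2 (by rw [ei, i0]; simp), _, inv_ne_zero s0, ?_⟩
    rw [← ei, smul_smul, inv_mul_cancel₀ s0, one_smul]
    exact hx.1
  · exact ⟨j, hj, j0, _, e', t.comm hx.1 e⟩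

theorem exists_kill (a b c : V4 K) : ∃ χ : V4 K, χ ≠ 0 ∧ ∀ y ∈ Submodule.span K {a, b, c}, χ ⬝ᵥ y = 0 := by
  classical
  have : Submodule.span K ({a, b, c} : Set (V4 K)) ≠ ⊤ := fun e => by
    have h1 := finrank_span_finset_le_card (R := K) ({a, b, c} : Finset (V4 K))
    have h2 : ({a, b, c} : Finset (V4 K)).card ≤ 3 := Finset.card_le_three
    rw [Set.finrank, Finset.coe_insert, Finset.coe_insert, Finset.coe_singleton, e, finrank_top,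
      Module.finrank_fin_fun] at h1
    omega
  obtain ⟨y, -, hy⟩ := SetLike.exists_of_lt (lt_top_iff_ne_top.2 this)
  obtain ⟨χ, h1, h2⟩ := exists_ann hy
  exact ⟨χ, fun e => h1 (by simp [e]), h2⟩

end TNA

open TNA in
theorem Hyp.na_dual [Finite K] (h : Hyp ρ π) (h2 : (2 : K) = 0)
    (hs : ∀ v φ (a : K), Fl ρ v φ → T ρ v (a • φ) → a = 0 ∨ a = 1) (hA : ¬ AdjA ρ) :
    (∃ φ, Multi (D4.dual ρ) φ) ∧ AdjA (D4.dual ρ) := by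
  simp only [AdjA, not_forall, not_not] at hA
  obtain ⟨v, φ, w, ψ, m, a, b, h3, h4, n⟩ := hA
  obtain ⟨K1, f, ξ, s, f0, ξ0, -⟩ := exists_st h2 a b h3 h4 n m (hs v)
  have hv : Fl ρ v φ := Fl.of_dot a h4 h3
  obtain ⟨x, η₀, hx, fx, ξx⟩ := h.two_hyp hv f0 ξ0
  obtain ⟨j, hj, j0, a, a0, t⟩ := s.adj h2 m (hs v) hx fx ξx
  have fl : ∀ {c}, c ∈ K1 → c ≠ 0 → Fl ρ v (c ^ 2 • f + c • ξ) := fun hc c0 => ⟨s.T hc, m.1, s.ne c0⟩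
  refine ⟨⟨_, s.ne j0, v, a • x, T.dual_iff.2 (s.T hj), T.dual_iff.2 ((T.smul_iff a).2 t), m.1, fun c e =>
    mul_ne_zero a0 fx (by simpa [s.fv] using congrArg (f ⬝ᵥ ·) e)⟩, by_contra fun hA => ?_⟩
  simp only [AdjA, not_forall, not_not] at hA
  obtain ⟨v', φ', w', ψ', m', a', b', h3', h4', n'⟩ := hA
  obtain ⟨K2, f', ξ', s', -⟩ := exists_st h2 a' b' h3' h4' n' m' fun χ a k t =>
    hs χ v' a (Fl.dual_iff.1 k) ((T.smul_iff a).1 (T.dual_iff.1 t))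
  have two : Two (D4.dual ρ) v' := ⟨f', ξ', fun χ t => by
    obtain ⟨c, -, rfl⟩ := (s'.ax χ).1 t
    exact ⟨_, _, rfl⟩⟩
  have tw : ∀ c ∈ K1, c ≠ 0 → ∃ y, ∀ u (a : K), a ≠ 0 → T ρ u (a • (c ^ 2 • f + c • ξ)) →
      ∃ p q : K, u = p • v + q • y := fun c hc c0 => by
    obtain ⟨y, hy⟩ := two_tr h.dual h2 (Fl.of_dot a' h4' h3') (Fl.dual_iff.2 (fl hc c0)) two
    refine ⟨y, fun u a a0 t => ?_⟩
    obtain ⟨p, q, e⟩ := hy _ (T.dual_iff.2 ((T.smul_iff a).2 t))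
    exact ⟨a⁻¹ * p, a⁻¹ * q, by rw [mul_smul, mul_smul, ← smul_add, ← e, smul_smul, inv_mul_cancel₀ a0, one_smul]⟩
  have ej : j * f ⬝ᵥ x + ξ ⬝ᵥ x = 0 := by
    have := t.1
    rw [smul_dotProduct, dot_ax, smul_eq_mul] at this
    exact (mul_eq_zero.1 ((mul_eq_zero.1 this).resolve_left a0)).resolve_left j0
  have jv : ∀ c : K, (c ^ 2 • f + c • ξ) ⬝ᵥ v = 0 := fun c => by rw [dot_ax, s.fv, s.xv]; simp
  have val : ∀ c ∈ K1, c ≠ 0 → c ≠ j → c * (c - j) * f ⬝ᵥ x * a = 1 := fun c hc c0 cj => by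
    have := t.comm (s.T hc) (by rw [smul_dotProduct, jv, smul_zero])
    rw [smul_smul, dot_ax, show c * f ⬝ᵥ x + ξ ⬝ᵥ x = (c - j) * f ⬝ᵥ x by linear_combination ej, ← mul_assoc] at this
    exact (hs _ _ _ (fl hj j0) this).resolve_left
      (mul_ne_zero (mul_ne_zero (mul_ne_zero c0 (sub_ne_zero.2 cj)) fx) a0)
  obtain ⟨c, hc, c0, cj⟩ := exists_third s.card hj j0
  obtain ⟨y₁, hy₁⟩ := tw j hj j0
  obtain ⟨y₂, hy₂⟩ := tw c hc c0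
  obtain ⟨χ, χ0, hχ⟩ := exists_kill v y₁ y₂
  have χv : χ ⬝ᵥ v = 0 := hχ _ (Submodule.subset_span (by simp))
  have cen : ∀ u, ∀ i ∈ K1, i ≠ 0 → ∀ a : K, a ≠ 0 → T ρ u (a • (i ^ 2 • f + i • ξ)) → χ ⬝ᵥ u = 0 := by
    intro u i hi i0 a1 a2 t'
    have key : ∀ {u} y, y ∈ ({v, y₁, y₂} : Set (V4 K)) → (∃ p q : K, u = p • v + q • y) → χ ⬝ᵥ u = 0 := by
      rintro u y hy ⟨p, q, rfl⟩
      simp [χv, hχ y (Submodule.subset_span hy)]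
    by_cases e1 : i = j
    · exact key y₁ (by simp) (hy₁ u a1 a2 (e1 ▸ t'))
    by_cases e2 : i = c
    · exact key y₂ (by simp) (hy₂ u a1 a2 (e2 ▸ t'))
    have e3 : i = j - c := by
      refine mul_left_cancel₀ (mul_ne_zero (mul_ne_zero (sub_ne_zero.2 e2) fx) a0) ?_
      linear_combination val i hi i0 e1 - val c hc c0 cj
    have k := t.act t'
    have e4 : a1 • (i ^ 2 • f + i • ξ) - ((a1 • (i ^ 2 • f + i • ξ)) ⬝ᵥ x) • a • (j ^ 2 • f + j • ξ) =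
        a1 • (c ^ 2 • f + c • ξ) := by
      have := val i hi i0 e1
      rw [smul_dotProduct, dot_ax, show i * f ⬝ᵥ x + ξ ⬝ᵥ x = (i - j) * f ⬝ᵥ x by linear_combination ej,
        smul_smul, smul_eq_mul, show a1 * (i * ((i - j) * f ⬝ᵥ x)) * a = a1 by linear_combination a1 * this, e3]
      match_scalars
      · linear_combination (-a1 * j * c) * h2
      · linear_combination (-a1 * c) * h2
    rw [e4] at k
    have k1 := key y₂ (by simp) (hy₂ _ a1 a2 k)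
    rwa [dotProduct_add, dotProduct_smul, key y₁ (by simp) (hy₁ x a a0 t), smul_zero, add_zero] at k1
  have cen' : ∀ u η, Fl ρ u η → f ⬝ᵥ u ≠ 0 → ξ ⬝ᵥ u ≠ 0 → χ ⬝ᵥ u = 0 := fun u η hu f0 x0 => by
    obtain ⟨i, hi, i0, a, a0, t⟩ := s.adj h2 m (hs v) hu f0 x0
    exact cen u i hi i0 a a0 t
  refine χ0 (h.b_span hv χv fun w ψ tw ψv => ?_)
  by_cases n : ¬ NA ρ v w
  · simp only [NA, not_forall] at n
    obtain ⟨φ, t, e, φ0⟩ := n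
    obtain ⟨i, hi, rfl⟩ := (s.ax φ).1 t
    exact cen w i hi (fun e => φ0 (by simp [e])) _ ψv (t.comm tw e)
  rw [not_not] at n
  have nz : ∀ i ∈ K1, i ≠ 0 → (i ^ 2 • f + i • ξ) ⬝ᵥ w ≠ 0 := fun i hi i0 e => s.ne i0 (n _ (s.T hi) e)
  have hw : Fl ρ w ψ := Fl.of_dot tw (nz j hj j0) ψv
  have or : f ⬝ᵥ w = 0 ∨ ξ ⬝ᵥ w = 0 := by
    by_contra k
    exact s.zero h2 m (hs v) hw (fun e => k (Or.inl e)) (fun e => k (Or.inr e)) n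
  have fin : ∀ u η η', f ⬝ᵥ u ≠ 0 → ξ ⬝ᵥ u ≠ 0 → χ ⬝ᵥ u = 0 → T ρ u η → T ρ u η' → η ⬝ᵥ w ≠ 0 → η' ⬝ᵥ w ≠ 0 →
      η ⬝ᵥ w ≠ η' ⬝ᵥ w → χ ⬝ᵥ w = 0 := by
    intro u η η' fu xu χu t t' e e' ne
    have key : ∀ η, T ρ u η → f ⬝ᵥ w + η ⬝ᵥ w * f ⬝ᵥ u ≠ 0 → ξ ⬝ᵥ w + η ⬝ᵥ w * ξ ⬝ᵥ u ≠ 0 → χ ⬝ᵥ w = 0 :=
      fun η t k1 k2 => by
        simpa [χu] using cen' _ _ (Fl.act t hw) (by simpa using k1) (by simpa using k2)
    rcases or with o | o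
    · by_cases k : ξ ⬝ᵥ w + η ⬝ᵥ w * ξ ⬝ᵥ u = 0
      · exact key η' t' (by rw [o, zero_add]; exact mul_ne_zero e' fu)
          fun k' => ne (mul_right_cancel₀ xu (by linear_combination k - k'))
      · exact key η t (by rw [o, zero_add]; exact mul_ne_zero e fu) k
    · by_cases k : f ⬝ᵥ w + η ⬝ᵥ w * f ⬝ᵥ u = 0
      · exact key η' t' (fun k' => ne (mul_right_cancel₀ fu (by linear_combination k - k')))
          (by rw [o, zero_add]; exact mul_ne_zero e' xu)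
      · exact key η t k (by rw [o, zero_add]; exact mul_ne_zero e xu)
  have χx := cen x j hj j0 a a0 t
  have flx : Fl ρ x (a • (j ^ 2 • f + j • ξ)) := ⟨t, hx.2.1, smul_ne_zero a0 (s.ne j0)⟩
  have t1 : (a • (j ^ 2 • f + j • ξ)) ⬝ᵥ w ≠ 0 := by
    rw [smul_dotProduct]; exact mul_ne_zero a0 (nz j hj j0)
  have last : ∀ η, T ρ x η → η ≠ 0 → η ⬝ᵥ w = 0 → χ ⬝ᵥ w = 0 := by
    intro η tη η0 e
    have sx : (c ^ 2 • f + c • ξ) ⬝ᵥ x ≠ 0 := by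
      rw [dot_ax, show c * f ⬝ᵥ x + ξ ⬝ᵥ x = (c - j) * f ⬝ᵥ x by linear_combination ej]
      exact mul_ne_zero c0 (mul_ne_zero (sub_ne_zero.2 cj) fx)
    have ηv : η ⬝ᵥ v ≠ 0 := fun k => smul_ne_zero sx η0 (n _ (tη.comm (s.T hc) k) (by rw [smul_dotProduct, e, smul_zero]))
    have ea : η ⬝ᵥ v / a = 1 := (hs _ _ _ flx (by
      rw [smul_smul, div_mul_cancel₀ _ a0]
      exact (s.T hj).comm tη (by rw [dot_ax, ej, mul_zero]))).resolve_left (div_ne_zero ηv a0)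
    rw [div_eq_one_iff_eq a0] at ea
    have u1 := (s.T hc).act t
    have u2 := (s.T hc).act tη
    rw [smul_dotProduct a, jv, smul_zero, zero_smul, sub_zero] at u1
    refine fin _ _ _ (by simpa [s.fv] using fx) (by simpa [s.xv] using ξx) (by simp [χx, χv]) u1 u2 t1 ?_ ?_
    · rw [sub_dotProduct, e, smul_dotProduct, zero_sub]
      exact neg_ne_zero.2 (mul_ne_zero ηv (nz c hc c0))
    · rw [sub_dotProduct, e, smul_dotProduct, smul_dotProduct, ea, dot_ax, dot_ax]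
      intro k
      refine mul_ne_zero a0 (nz (j + c) (K1.add_mem hj hc) fun k => cj ?_) ?_
      · linear_combination k - j * h2
      · rw [dot_ax]
        simp only [smul_eq_mul] at k
        linear_combination k + a * j * c * f ⬝ᵥ w * h2
  obtain ⟨η, tη, η0, η1⟩ := multi_tr h h2 flx m
  by_cases e : η ⬝ᵥ w = 0
  · exact last η tη η0 e
  by_cases e' : (a • (j ^ 2 • f + j • ξ)) ⬝ᵥ w = η ⬝ᵥ w
  · exact last _ (tη.sub t) (sub_ne_zero.2 η1) (by rw [sub_dotProduct, e', sub_self])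
  · exact fin x _ _ fx ξx χx t tη t1 e e'

end Cfsg.Agent.D4
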