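import Cfsg.Agent.D4.TConn
import Cfsg.Agent.D4.Desc
import Cfsg.Agent.DIM5.G33

/-!
Traces of the transvection group `SU₄(2)`.
-/

set_option autoImplicit false

open Matrix
open scoped MatrixGroups

namespace Cfsg.Agent.D4

variable {K : Type*} [Field K] {Γ X : Type*} [Group Γ] [Group X] {ρ : Γ →* M4 K} {π : Γ →* X}

namespace U4T

/-- The elements on which `J` intertwines two representations. -/
def intw (α β : Γ →* M4 K) (J : M4 K) : Subgroup Γ where
  carrier := {g | α g * J = J * β g}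
  one_mem' := by simp
  mul_mem' {a b} ha hb := by
    rw [Set.mem_setOf_eq] at ha hb ⊢
    rw [map_mul, map_mul, mul_assoc, hb, ← mul_assoc, ha, mul_assoc]
  inv_mem' {a} ha := by
    rw [Set.mem_setOf_eq] at ha ⊢
    calc α a⁻¹ * J = α a⁻¹ * (J * β a) * β a⁻¹ := by
          rw [mul_assoc, mul_assoc, mul_inv_rho, mul_one]
      _ = J * β a⁻¹ := by rw [← ha, ← mul_assoc, inv_mul_rho, one_mul]

theorem trace_intw {α β : Γ →* M4 K} {J J' : M4 K} (hJ : J' * J = 1) {g : Γ}
    (hg : g ∈ intw α β J) : (α g).trace = (β g).trace := by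
  have e : α g * J = J * β g := hg
  rw [← one_mul (β g), ← hJ, mul_assoc, ← e, ← mul_assoc, trace_mul_cycle, mul_eq_one_comm.1 hJ,
    one_mul]

theorem map_refl (φ : K →+* K) (v f : V4 K) :
    (1 - vecMulVec v f).map φ = 1 - vecMulVec (φ ∘ v) (φ ∘ f) := by
  ext i j; simp [vecMulVec_apply, one_apply, apply_ite φ]

/-- Traces are conjugated by `φ` if the transvections preserve a hermitian form. -/
theorem inv_of (h : Hyp ρ π) (h2 : (2 : K) = 0) {v0 f0 : V4 K} (h0 : D ρ v0 f0) (φ : K →+* K)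
    (hφ : ∀ v f, D ρ v f → vecMulVec f v = vecMulVec (φ ∘ v) (φ ∘ f)) (g : Γ) :
    φ (ρ g).trace = (ρ g⁻¹).trace := by
  have : CharP K 2 := CharTwo.of_one_ne_zero_of_two_eq_zero one_ne_zero h2
  rw [← trace_ext, ← trace_dual]
  refine (trace_intw (one_mul 1) (h.tv_ind ((D_iff_fl h2).1 h0) (intw _ _ 1)
    (fun k v f a b => ?_) g)).symm
  change (ρ k⁻¹)ᵀ * 1 = 1 * (ρ k).map φ
  have a' := (D_iff_fl h2).2 a
  rw [← CharTwo.sub_eq_add] at b
  rw [rho_inv_eq (b ▸ refl_sq a'.1), b, map_refl, transpose_sub, transpose_one,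
    transpose_vecMulVec, mul_one, one_mul, hφ v f a']

theorem vv_smul {c : K} (hc : c ≠ 0) (v f : V4 K) :
    vecMulVec (c • v) (c⁻¹ • f) = vecMulVec v f := by
  rw [smul_vecMulVec, vecMulVec_smul, smul_inv_smul₀ hc]

theorem comp_smul (φ : K →+* K) (c : K) (v : V4 K) : φ ∘ (c • v) = φ c • (φ ∘ v) := by
  ext i; simp

end U4T

open U4T

theorem Hyp.u4t [Finite Γ] (h : Hyp ρ π) (e : IsU4T ρ) : FrobInv ρ 2 ∧
    ∀ (F : Type*) [Field F] [Fintype F], Fintype.card F = 4 →
      Nat.card (H10.SUG 4 F 2) ≤ Nat.card Γ := by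
  obtain ⟨h2, ⟨ω, hω⟩, B, e⟩ := e
  have : CharP K 2 := CharTwo.of_one_ne_zero_of_two_eq_zero one_ne_zero h2
  refine ⟨fun g => ?_, fun F _ _ hF => ?_⟩
  · have h0 := (e _ _).2 ⟨1, ![1, 1, 0, 0], one_ne_zero, fun e => by simpa using congrFun e 0,
      fun i => by fin_cases i <;> simp, by simp [Fin.sum_univ_four, CharTwo.add_self_eq_zero],
      rfl, rfl⟩
    rw [← trace_cnj B g, ← trace_cnj B g⁻¹]
    refine inv_of (h.cnj B) h2 h0 (frobenius K 2) (fun v f a => ?_) g
    obtain ⟨c, z, hc, -, h4, -, rfl, rfl⟩ := (e _ _).1 a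
    have e1 : (frobenius K 2 ∘ fun i => z i ^ 2) = z := funext fun i => by
      rw [← h4 i, Function.comp, frobenius_def, h4 i, ← pow_mul, h4 i]
    rw [comp_smul, comp_smul, map_inv₀, vv_smul ((map_ne_zero _).2 hc),
      smul_vecMulVec, vecMulVec_smul, inv_smul_smul₀ hc, e1]
    rfl
  · obtain ⟨φ⟩ := D5.G33.exists_hom h2 hω F hF
    have : Fact (Fintype.card F = 2 ^ 2) := ⟨hF⟩
    have p4 : ∀ x : F, x ^ 4 = x := fun x => hF ▸ FiniteField.pow_card x
    let H : Subgroup (SU 4 F 2) :=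
      { carrier := {u | ∃ g, D4.cnj ρ B g = (H10.sm u).map φ}
        one_mem' := ⟨1, by simp [H10.sm_one]⟩
        mul_mem' := fun ⟨a, ha⟩ ⟨b, hb⟩ => ⟨a * b, by
          rw [map_mul, ha, hb, H10.sm_mul, Matrix.map_mul]⟩
        inv_mem' := fun {u} ⟨a, ha⟩ => ⟨a⁻¹, rho_inv_eq (by
          rw [ha, ← Matrix.map_mul, H10.sm_mul_inv]; simp)⟩ }
    have hH : H = ⊤ := by
      rw [eq_top_iff, ← H10.closure_ut_eq_top (by decide), Subgroup.closure_le]
      rintro u ⟨v, c, hv, hu⟩
      change ∃ g, D4.cnj ρ B g = (H10.sm u).map φ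
      by_cases v0 : v = 0
      · exact ⟨1, by simp [hu, v0, unitaryTransvection]⟩
      by_cases c0 : c = 0
      · exact ⟨1, by simp [hu, c0, unitaryTransvection]⟩
      have hc := (H10.isIsom_ut_iff v0).1 (hu ▸ H10.sm_isIsom u)
      rw [hv, mul_zero, add_zero, H10.cj_apply] at hc
      have c1 : φ c = 1 := by
        have := congrArg φ hc
        rw [map_add, map_pow, map_zero] at this
        exact mul_left_cancel₀ ((map_ne_zero φ).2 c0) (by
          linear_combination this - (φ c) * h2)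
      obtain ⟨-, -, -, k⟩ := (e _ _).2 ⟨1, φ ∘ v, one_ne_zero,
        fun e => v0 (funext fun i => (map_eq_zero φ).1 (congrFun e i)),
        fun i => by rw [Function.comp, ← map_pow, p4], by
          have := congrArg φ hv
          simpa [hermForm, ← pow_succ'] using this, rfl, rfl⟩
      obtain ⟨k, hk⟩ := k
      refine ⟨k, ?_⟩
      rw [CharTwo.sub_eq_add] at hk
      rw [hk, hu]
      ext i j
      simp [unitaryTransvection, vecMulVec_apply, c1, one_apply, apply_ite φ]
    have hs : ∀ u, ∃ g, D4.cnj ρ B g = (H10.sm u).map φ := fun u => (hH ▸ Subgroup.mem_top u : u ∈ H)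
    choose s hs using hs
    rw [H10.card_SUG]
    exact Nat.card_le_card_of_injective s fun a b e =>
      H10.sm_injective (Matrix.map_injective φ.injective (by
        change (H10.sm a).map φ = (H10.sm b).map φ
        rw [← hs, ← hs, e]))

end Cfsg.Agent.D4
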