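import Cfsg.Agent.D4.Small
import Cfsg.Agent.D4.LQ1
import Cfsg.Agent.D4.U4T
import Cfsg.Agent.H56.Mod.U42
import Cfsg.Agent.H14.Code

/-!
The group `U₄(2)` in odd characteristic.
-/

set_option autoImplicit false

open Matrix
open scoped MatrixGroups commutatorElement

namespace Cfsg.Agent.D4

variable {K : Type*} [Field K] {Γ X : Type*} [Group Γ] [Group X] {ρ : Γ →* M4 K} {π : Γ →* X}

namespace U42x

open H14 U4T

/-- Four braided elements of order three and a Heisenberg group. -/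
structure Dat (x : Fin 4 → X) (a b : X) : Prop where
  cube : ∀ i, x i ^ 3 = 1
  inj : ∀ i j, x i = x j → i = j
  ne : x 0 ≠ 1
  br : ∀ i : Fin 3, x i.castSucc * x i.succ * x i.castSucc = x i.succ * x i.castSucc * x i.succ
  c02 : x 0 * x 2 = x 2 * x 0
  c03 : x 0 * x 3 = x 3 * x 0
  c13 : x 1 * x 3 = x 3 * x 1
  a3 : a ^ 3 = 1
  b3 : b ^ 3 = 1
  ab : a * b = x 0 * b * a
  ax : a * x 0 = x 0 * a
  bx : b * x 0 = x 0 * b
  gen : ∀ H : Subgroup X, (∀ i, x i ∈ H) → H = ⊤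

/-- The elements in the permutation model. -/
def xl : List ℕ := [nat_lit 0x44d94e8c52217de05c0da9c05d69a426265061455b2d32a01c648431d08f,
  nat_lit 0x71a94a0c48627e474218d65b1565475120518ce98c2de2574d82203e7400,
  nat_lit 0x8649497e20db71e76365a8184175135522163ca39118d98c1c414b9c2040,
  nat_lit 0x8a62c28ca3a495c8446da4981d65414491573dd34c7e76544064de0e0200]

/-- The generators of the Heisenberg group. -/
def yl : List ℕ := [nat_lit 0x6ce94a5986515de89021a31d10690998f0cb0935217153671e301f812141,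
  nat_lit 0x4c01c28d13a45e584b55a29b1166014a725c31d3cd40589478665f9a0203]

theorem xl_mem : H56.memOK 6 64 40 H56.U42.certL xl = true := by decide +kernel

theorem yl_mem : H56.memOK 6 64 40 H56.U42.certL yl = true := by decide +kernel

theorem xl_nth : (∀ i : Fin 4, nth xl i ∈ xl) ∧ (∀ P ∈ xl, ∃ i : Fin 4, nth xl i = P) ∧
    ∀ i : Fin 2, nth yl i ∈ yl := by decide +kernel

theorem xl_gen : slpOK 6 64 40 xl [[3, 0, 3, 5, 6], [6, 3, 5, 3, 9, 6, 5]] H56.U42.gens = true := by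
  decide +kernel

theorem exists_dat (e : IsU42 X) : ∃ (x : Fin 4 → X) (a b : X), Dat x a b := by
  obtain ⟨F, _, _, hF, ⟨e0⟩⟩ := e
  obtain ⟨ψ⟩ := H56.U42.equiv hF
  let e := e0.trans ψ
  choose x hx using fun i => H56.U42.chain.cd_ex e xl_mem (xl_nth.1 i)
  choose y hy using fun i => H56.U42.chain.cd_ex e yl_mem (xl_nth.2.2 i)
  refine ⟨x, y 0, y 1, ?_, ?_, ?_, ?_, ?_, ?_, ?_, ?_, ?_, ?_, ?_, ?_, fun H hH => ?_⟩
  iterate 12
    simp only [ne_eq, ← H56.U42.E.cd_inj e, Enc.cd_mul, Enc.cd_pow, Enc.cd_one, hx, hy]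
    decide +kernel
  have : H56.U42.K ≤ H.map (H56.U42.K.subtype.comp e.toMonoidHom) := by
    refine Enc.grp_le (Enc.inG_of_slpOK _ (fun P hP => ?_) xl_gen)
    obtain ⟨i, rfl⟩ := xl_nth.2.1 P hP
    exact ⟨e (x i), ⟨_, hH i, rfl⟩, hx i⟩
  refine eq_top_iff.2 fun g _ => ?_
  obtain ⟨g', h1, h2⟩ := this (e g).2
  exact e.injective (Subtype.ext h2) ▸ h1

theorem pg_zp {a : X} (h : a ^ 3 = 1) : IsPGroup 3 (Subgroup.zpowers a) := fun ⟨_, k, e⟩ =>
  ⟨1, Subtype.ext (by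
    simp only [pow_one, SubmonoidClass.mk_pow, ← e, OneMemClass.coe_one]
    rw [← zpow_natCast, ← _root_.zpow_mul, mul_comm, _root_.zpow_mul, zpow_natCast, h, _root_.one_zpow])⟩

theorem le_norm [Finite X] {a : X} {S : Subgroup X} (h : S ≤ S.comap (MulAut.conj a).toMonoidHom) :
    Subgroup.zpowers a ≤ Subgroup.normalizer (S : Set X) :=
  Subgroup.zpowers_le.2 (Subgroup.mem_normalizer_fintype fun _ hn => h hn)

theorem pg_heis [Finite X] {a b z : X} (a3 : a ^ 3 = 1) (b3 : b ^ 3 = 1) (z3 : z ^ 3 = 1)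
    (ab : a * b = z * b * a) (az : a * z = z * a) (bz : b * z = z * b) :
    IsPGroup 3 (Subgroup.zpowers a ⊔ (Subgroup.zpowers b ⊔ Subgroup.zpowers z) : Subgroup X) := by
  have hb : b ∈ Subgroup.zpowers b ⊔ Subgroup.zpowers z := Subgroup.mem_sup_left (Subgroup.mem_zpowers b)
  have hz : z ∈ Subgroup.zpowers b ⊔ Subgroup.zpowers z := Subgroup.mem_sup_right (Subgroup.mem_zpowers z)
  refine (pg_zp a3).to_sup_of_normal_right' ((pg_zp b3).to_sup_of_normal_right' (pg_zp z3)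
    (le_norm (Subgroup.zpowers_le.2 ?_))) (le_norm (sup_le (Subgroup.zpowers_le.2 ?_) (Subgroup.zpowers_le.2 ?_)))
  · change b * z * b⁻¹ ∈ Subgroup.zpowers z
    rw [bz, mul_inv_cancel_right]; exact Subgroup.mem_zpowers z
  · change a * b * a⁻¹ ∈ Subgroup.zpowers b ⊔ Subgroup.zpowers z
    rw [ab, mul_inv_cancel_right]; exact mul_mem hz hb
  · change a * z * a⁻¹ ∈ Subgroup.zpowers b ⊔ Subgroup.zpowers z
    rw [az, mul_inv_cancel_right]; exact hz

/-- A scalar multiple of a homology. -/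
def Hm (ρ : Γ →* M4 K) (g : Γ) (l : K) (v φ : V4 K) : Prop :=
  φ ⬝ᵥ v = 1 ∧ ρ g = l • (1 : M4 K) + (1 - l) • vecMulVec v φ

variable {g g' : Γ} {l : K} {v φ w ψ : V4 K}

theorem Hm.conj (h : Hm ρ g l v φ) (k : Γ) : Hm ρ (k * g * k⁻¹) l (ρ k *ᵥ v) (φ ᵥ* ρ k⁻¹) := by
  refine ⟨(dot_rho ρ k φ v).trans h.1, ?_⟩
  rw [map_mul, map_mul, h.2, mul_add, add_mul, mul_smul_comm, mul_smul_comm, smul_mul_assoc, smul_mul_assoc,
    mul_one, mul_inv_rho, mul_vecMulVec, vecMulVec_mul]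

theorem Hm.smul (h : Hm ρ g l v φ) {c : K} (hc : c ≠ 0) : Hm ρ g l (c • v) (c⁻¹ • φ) :=
  ⟨by rw [smul_dotProduct, dotProduct_smul, h.1, inv_smul_smul₀ hc], by rw [vv_smul hc, h.2]⟩

theorem Hm.ne (hρ : Function.Injective ρ) (h : Hm ρ g l v φ) (h' : Hm ρ g' l w ψ) (e : g ≠ g') :
    vecMulVec v φ ≠ vecMulVec w ψ := fun k => e (hρ (by rw [h.2, h'.2, k]))

theorem Hm.comm (hρ : Function.Injective ρ) (h : Hm ρ g l v φ) (h' : Hm ρ g' l w ψ) (l1 : l ≠ 1)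
    (e : g ≠ g') (c : g * g' = g' * g) : φ ⬝ᵥ w = 0 := by
  by_contra k
  have m1 : (1 - l) * (1 - l) ≠ 0 := mul_ne_zero (sub_ne_zero.2 l1.symm) (sub_ne_zero.2 l1.symm)
  have c1 := congrArg ρ c
  rw [map_mul, map_mul, h.2, h'.2] at c1
  have c2 : vecMulVec v φ * vecMulVec w ψ = vecMulVec w ψ * vecMulVec v φ := by
    refine smul_right_injective _ m1 ?_
    simp only [mul_add, add_mul, mul_smul_comm, smul_mul_assoc, mul_one, one_mul, smul_add, smul_smul] at c1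
    linear_combination (norm := module) c1
  have p1 : vecMulVec v φ * vecMulVec v φ = vecMulVec v φ := by rw [vv_mul, h.1, one_smul]
  have p2 : vecMulVec w ψ * vecMulVec w ψ = vecMulVec w ψ := by rw [vv_mul, h'.1, one_smul]
  -- both idempotents are multiples of their product
  have t1 : vecMulVec v φ * vecMulVec w ψ = ((φ ⬝ᵥ w) * (ψ ⬝ᵥ v)) • vecMulVec v φ := by
    calc _ = vecMulVec v φ * vecMulVec w ψ * vecMulVec v φ := by
          rw [mul_assoc, ← c2, ← mul_assoc, p1]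
      _ = _ := by rw [vv_mul, smul_mul_assoc, vv_mul, smul_smul]
  have t2 : vecMulVec v φ * vecMulVec w ψ = ((φ ⬝ᵥ w) * (ψ ⬝ᵥ v)) • vecMulVec w ψ := by
    calc _ = vecMulVec w ψ * (vecMulVec v φ * vecMulVec w ψ) := by
          rw [← mul_assoc, ← c2, mul_assoc, p2]
      _ = _ := by rw [vv_mul, mul_smul_comm, vv_mul, smul_smul]
  have t0 : (φ ⬝ᵥ w) * (ψ ⬝ᵥ v) ≠ 0 := fun t => by
    rw [t, zero_smul, vv_mul, smul_eq_zero] at t1
    rcases vv_eq_zero (t1.resolve_left k) with z | z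
    · simpa [z] using h.1
    · simpa [z] using h'.1
  exact h.ne hρ h' e (smul_right_injective _ t0 (t1.symm.trans t2))

theorem Hm.braid (hρ : Function.Injective ρ) (h : Hm ρ g l v φ) (h' : Hm ρ g' l w ψ)
    (hl : l ^ 2 + l + 1 = 0) (l1 : l ≠ 1) (e : g ≠ g') (c : g * g' * g = g' * g * g') :
    3 * ((φ ⬝ᵥ w) * (ψ ⬝ᵥ v)) = 1 := by
  have c1 := congrArg ρ c
  rw [map_mul, map_mul, map_mul, map_mul, h.2, h'.2] at c1
  have hn := sub_ne_zero.2 (h.ne hρ h' e)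
  have p1 : vecMulVec v φ * vecMulVec v φ = vecMulVec v φ := by rw [vv_mul, h.1, one_smul]
  have p2 : vecMulVec w ψ * vecMulVec w ψ = vecMulVec w ψ := by rw [vv_mul, h'.1, one_smul]
  have t1 : vecMulVec v φ * vecMulVec w ψ * vecMulVec v φ = ((φ ⬝ᵥ w) * (ψ ⬝ᵥ v)) • vecMulVec v φ := by
    rw [vv_mul, smul_mul_assoc, vv_mul, smul_smul]
  have t2 : vecMulVec w ψ * vecMulVec v φ * vecMulVec w ψ = ((φ ⬝ᵥ w) * (ψ ⬝ᵥ v)) • vecMulVec w ψ := by
    rw [vv_mul, smul_mul_assoc, vv_mul, smul_smul, mul_comm]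
  generalize vecMulVec v φ = P, vecMulVec w ψ = Q, (φ ⬝ᵥ w) * (ψ ⬝ᵥ v) = t at *
  simp only [mul_add, add_mul, mul_smul_comm, smul_mul_assoc, mul_one, one_mul, smul_add, smul_smul, p1, p2,
    t1, t2] at c1
  have c2 : ((1 - l) * (l + (1 - l) ^ 2 * t)) • (P - Q) = 0 := by
    linear_combination (norm := module) c1
  have c3 := (mul_eq_zero.1 ((smul_eq_zero.1 c2).resolve_right hn)).resolve_left (sub_ne_zero.2 l1.symm)
  linear_combination (l + 1) * c3 - (1 + (l - 2) * t) * hl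

theorem Hm.next (hρ : Function.Injective ρ) (h : Hm ρ g l v φ) (hl : l ^ 2 + l + 1 = 0) (l1 : l ≠ 1)
    (e : g ≠ g') (c : g * g' * g = g' * g * g') :
    ∃ w ψ, Hm ρ g' l w ψ ∧ φ ⬝ᵥ w = 1 ∧ 3 * (ψ ⬝ᵥ v) = 1 := by
  have h' := h.conj (g * g')
  rw [c, show g' * g * g' * (g * g')⁻¹ = g' by group] at h'
  have b := h.braid hρ h' hl l1 e c
  generalize ρ (g * g') *ᵥ v = w, φ ᵥ* ρ (g * g')⁻¹ = ψ at h' b
  have k : φ ⬝ᵥ w ≠ 0 := fun k => by simp [k] at b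
  refine ⟨_, _, h'.smul (inv_ne_zero k), ?_, ?_⟩
  · rw [dotProduct_smul, smul_eq_mul, inv_mul_cancel₀ k]
  · rw [smul_dotProduct, smul_eq_mul, inv_inv, b]

theorem fourth_pt : ∀ a b c : Fin 4, a ≠ b → b ≠ c → a ≠ c →
    ∃ d, ∀ k, k ≠ d → k = a ∨ k = b ∨ k = c := by decide

theorem exists_hm [IsAlgClosed K] (h : Hyp ρ π) (h3 : (3 : K) ≠ 0) {z a b : Γ} (z1 : z ≠ 1) (z3 : z ^ 3 = 1)
    (b3 : b ^ 3 = 1) (zb : z * b = b * z) (az : a * z * a⁻¹ = z) (ab : a * b * a⁻¹ = z * b) :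
    ∃ (B : (M4 K)ˣ) (l : K) (v φ : V4 K), l ^ 3 = 1 ∧ l ≠ 1 ∧ Hm (cnj ρ B) z l v φ := by
  obtain ⟨B, d, hd⟩ := exists_diag ρ ![z, b] (by simp [Fin.forall_fin_two, zb])
    (by simpa [Fin.forall_fin_two] using ⟨⟨3, h3, z3⟩, 3, h3, b3⟩)
  have h0 : cnj ρ B z = diagonal (d 0) := hd 0
  have h1 : cnj ρ B b = diagonal (d 1) := hd 1
  have h' := h.cnj B
  obtain ⟨τ, -, hτ⟩ := wt_perm (cnj ρ B) a
  have t0 := hτ z _ _ h0 (az.symm ▸ h0)
  have t1 := hτ b _ (fun i => d 0 i * d 1 i) h1 (by rw [ab, map_mul, h0, h1, diagonal_mul_diagonal])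
  have cu : ∀ {y : Γ} {f : Fin 4 → K}, y ^ 3 = 1 → cnj ρ B y = diagonal f → ∀ k, f k ^ 3 = 1 :=
    fun {y f} e1 e2 k => by
      have := congrArg (fun M : M4 K => M k k) ((map_pow (cnj ρ B) y 3).symm.trans (by rw [e1, map_one]))
      simpa [e2, diagonal_pow] using this
  obtain ⟨k, hk⟩ : ∃ k, d 0 k ≠ 1 := by
    by_contra! e
    exact z1 (h'.inj (by rw [h0, map_one, ← diagonal_one]; exact congrArg _ (funext e)))
  have n0 : ∀ k, d 1 k ≠ 0 := fun k e => by simpa [e] using cu b3 h1 k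
  have l3 := cu z3 h0 k
  have e1 := t1 k
  have e2 := t1 (τ k)
  simp only [t0] at e1 e2
  obtain ⟨j, hj⟩ := fourth_pt k (τ k) (τ (τ k))
    (fun e => hk (mul_right_cancel₀ (n0 k) (by rw [one_mul]; rwa [← e] at e1)))
    (fun e => hk (mul_right_cancel₀ (n0 (τ k)) (by rw [one_mul]; rwa [← e] at e2)))
    (fun e => hk (mul_right_cancel₀ (n0 k) (by
      rw [← e] at e2
      linear_combination (-(d 0 k)) * e1 - d 0 k ^ 2 * e2 + (d 1 k) * l3)))
  have hl : ∀ i, i ≠ j → d 0 i = d 0 k := fun i hi => by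
    rcases hj i hi with rfl | rfl | rfl <;> simp only [t0]
  have dj : d 0 j = 1 := by
    have := h'.det z
    rw [h0, det_diagonal, ← Finset.mul_prod_erase _ _ (Finset.mem_univ j),
      Finset.prod_congr rfl fun i hi => hl i (Finset.ne_of_mem_erase hi), Finset.prod_const] at this
    simpa [l3] using this
  refine ⟨B, d 0 k, Pi.single j 1, Pi.single j 1, l3, hk, by simp, ?_⟩
  rw [h0]
  ext r s
  by_cases r1 : r = s
  · subst r1
    by_cases r2 : r = j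
    · simp [r2, dj, vecMulVec_apply]
    · simp [r2, hl r r2, vecMulVec_apply]
  · by_cases r2 : r = j
    · subst r2
      simp [r1, Ne.symm r1, vecMulVec_apply]
    · simp [r1, r2, vecMulVec_apply]

/-- The Gram matrix. -/
def Gm (K : Type*) [Field K] : M4 K := !![1, 1, 0, 0; 3⁻¹, 1, 1, 0; 0, 3⁻¹, 1, 1; 0, 0, 3⁻¹, 1]

/-- The invariant form. -/
def Jf (K : Type*) [Field K] : M4 K := !![1, 1, 0, 0; 1, 3, 3, 0; 0, 3, 9, 9; 0, 0, 9, 27]

/-- The generators in the standard basis. -/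
def Mt (l : K) (i : Fin 4) : M4 K := l • (1 : M4 K) + (1 - l) • vecMulVec (Pi.single i 1) (Gm K i)

theorem det_Gm (h3 : (3 : K) ≠ 0) : (Gm K).det ≠ 0 := by
  have : (Gm K).det = 3⁻¹ * 3⁻¹ := by
    simp [Gm, det_succ_row_zero, Fin.sum_univ_succ, Fin.succAbove]
    field_simp
    ring
  rw [this]
  exact mul_ne_zero (inv_ne_zero h3) (inv_ne_zero h3)

theorem det_Jf (h3 : (3 : K) ≠ 0) : (Jf K).det ≠ 0 := by
  have : (Jf K).det = 3 ^ 4 := by
    simp [Jf, det_succ_row_zero, Fin.sum_univ_succ, Fin.succAbove]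
    ring
  rw [this]
  exact pow_ne_zero _ h3

theorem Mt_map (f : K →+* K) (l : K) (i : Fin 4) : (Mt l i).map f = Mt (f l) i := by
  have : ∀ r s, f (Gm K r s) = Gm K r s := fun r s => by
    fin_cases r <;> fin_cases s <;> simp [Gm, map_ofNat]
  ext r s
  simp [Mt, vecMulVec_apply, one_apply, Pi.single_apply, apply_ite f, this]

theorem Mt_inv {l : K} (l3 : l ^ 3 = 1) (i : Fin 4) : Mt l i * Mt (l ^ 2) i = 1 := by
  have p : vecMulVec (Pi.single i 1) (Gm K i) * vecMulVec (Pi.single i 1) (Gm K i) =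
      vecMulVec (Pi.single i 1) (Gm K i) := by
    rw [vv_mul, show Gm K i ⬝ᵥ Pi.single i 1 = 1 by fin_cases i <;> simp [Gm], one_smul]
  simp only [Mt, mul_add, add_mul, mul_smul_comm, smul_mul_assoc, mul_one, one_mul, smul_add, smul_smul, p]
  linear_combination (norm := module) l3 • (1 : M4 K) - l3 • vecMulVec (Pi.single i 1) (Gm K i)

theorem Mt_form (h3 : (3 : K) ≠ 0) (l : K) (i : Fin 4) : (Mt l i)ᵀ * Jf K = Jf K * Mt l i := by
  have : (vecMulVec (Pi.single i 1) (Gm K i))ᵀ * Jf K = Jf K * vecMulVec (Pi.single i 1) (Gm K i) := by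
    rw [transpose_vecMulVec, mul_vecMulVec, vecMulVec_mul]
    ext r s
    fin_cases i <;> fin_cases r <;> fin_cases s <;> simp [Gm, Jf, vecMulVec_apply] <;> field_simp <;> ring
  simp only [Mt, transpose_add, transpose_smul, transpose_one, mul_add, add_mul, mul_smul_comm, smul_mul_assoc,
    mul_one, one_mul, this]

theorem exists_std (h3 : (3 : K) ≠ 0) {g : Fin 4 → Γ} {v φ : Fin 4 → V4 K}
    (h : ∀ i, Hm ρ (g i) l (v i) (φ i)) (e : ∀ i j, φ i ⬝ᵥ v j = Gm K i j) :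
    ∃ B : (M4 K)ˣ, ∀ i, cnj ρ B (g i) = Mt l i := by
  have e1 : (of φ : M4 K) * (of v : M4 K)ᵀ = Gm K := by
    ext i j; rw [← e]; rfl
  have d : IsUnit ((of v : M4 K)ᵀ) := by
    rw [isUnit_iff_isUnit_det, isUnit_iff_ne_zero]
    exact fun k => det_Gm h3 (by rw [← e1, det_mul, k, mul_zero])
  obtain ⟨B, hB⟩ := d
  refine ⟨B, fun i => ?_⟩
  rw [cnj_apply, mul_assoc, Units.inv_mul_eq_iff_eq_mul, (h i).2, Mt, hB, mul_add, add_mul, mul_smul_comm,
    mul_smul_comm, smul_mul_assoc, smul_mul_assoc, mul_one, one_mul, mul_vecMulVec, vecMulVec_mul]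
  congr 3
  · ext r; simp
  · ext r; rw [← e]; rfl

theorem gen_top (h : Hyp ρ π) {H : Subgroup Γ} (e : H.map π = ⊤) : H = ⊤ := by
  have k : ∀ g, ∃ y ∈ H, ∃ z, π z = 1 ∧ g = z * y := fun g => by
    obtain ⟨y, h1, h2⟩ := (e ▸ Subgroup.mem_top _ : π g ∈ H.map π)
    exact ⟨y, h1, h.exists_ker_of_eq h2.symm⟩
  rw [eq_top_iff, ← h.perfect, commutator_def, Subgroup.commutator_le]
  intro a _ b _
  obtain ⟨a', ha, z, hz, rfl⟩ := k a
  obtain ⟨b', hb, w, hw, rfl⟩ := k b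
  have : ⁅z * a', w * b'⁆ = ⁅a', b'⁆ := by
    simp only [commutatorElement_def]
    calc z * a' * (w * b') * (z * a')⁻¹ * (w * b')⁻¹ = z * (a' * (w * b') * a'⁻¹) * z⁻¹ * (w * b')⁻¹ := by group
      _ = a' * w * (b' * a'⁻¹ * b'⁻¹) * w⁻¹ := by rw [h.ker_comm hz]; group
      _ = w * (a' * b' * a'⁻¹ * b'⁻¹) * w⁻¹ := by rw [← h.ker_comm hw]; group
      _ = _ := by rw [h.ker_comm hw, mul_inv_cancel_right]
  rw [this, commutatorElement_def]
  exact mul_mem (mul_mem (mul_mem ha hb) (inv_mem ha)) (inv_mem hb)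

end U42x

open U42x U4T

variable [IsAlgClosed K] [Finite Γ]
variable (p : ℕ) [Fact p.Prime] [CharP K p]

theorem Hyp.u42 (h : Hyp ρ π) (n : NoTv ρ) (h2 : (2 : K) ≠ 0) (e : IsU42 X) :
    (p % 6 = 1 ∧ FrobFix ρ p) ∨ (p % 6 = 5 ∧ FrobInv ρ p) := by
  obtain ⟨x, a, b, D⟩ := exists_dat e
  have := h.finiteX
  have h3 : (3 : K) ≠ 0 := fun h3 => D.ne (by
    have := h.syl3X n h3 (pg_heis D.a3 D.b3 (D.cube 0) D.ab D.ax D.bx)
      (Subgroup.mem_sup_left (Subgroup.mem_zpowers a))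
      (Subgroup.mem_sup_right (Subgroup.mem_sup_left (Subgroup.mem_zpowers b)))
    rw [D.ab, mul_assoc] at this
    exact mul_eq_right.1 this)
  have co : Nat.Coprime 3 4 := by decide
  choose g g1 g3 using fun i => h.exists_lift co (D.cube i)
  obtain ⟨a', ha⟩ := h.surj a
  obtain ⟨b', hb, b3⟩ := h.exists_lift co D.b3
  have zb : g 0 * b' = b' * g 0 := h.comm_of_lift co b3 (by rw [g1, hb, D.bx])
  obtain ⟨B, l, v0, φ0, l3, l1, H0⟩ := exists_hm h h3 (a := a') (fun k => D.ne (by rw [← g1, k, map_one])) (g3 0)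
    b3 zb (h.conj_lift co (g3 0) (g3 0) (by rw [g1, ha, D.ax, mul_inv_cancel_right]))
    (h.conj_lift co b3 (by rw [Commute.mul_pow zb, g3, b3, one_mul])
      (by rw [map_mul, g1, ha, hb, D.ab, mul_inv_cancel_right]))
  have hl : l ^ 2 + l + 1 = 0 := mul_left_cancel₀ (sub_ne_zero.2 l1) (by linear_combination l3)
  have ne : ∀ i j, i ≠ j → g i ≠ g j := fun i j k e => k (D.inj i j (by rw [← g1, ← g1, e]))
  have br : ∀ i : Fin 3, g i.castSucc * g i.succ * g i.castSucc = g i.succ * g i.castSucc * g i.succ :=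
    fun i => by
      have := h.conj_lift (k := g i.castSucc * g i.succ) co (g3 i.castSucc) (g3 i.succ) (by
        rw [map_mul, g1, g1, D.br]; group)
      rw [mul_inv_eq_iff_eq_mul.1 this, mul_assoc]
  have cm : ∀ {i j}, x i * x j = x j * x i → g i * g j = g j * g i := fun e =>
    h.comm_of_lift co (g3 _) (by rw [g1, g1, e])
  have hi := (h.cnj B).inj
  obtain ⟨v1, φ1, H1, e01, e10⟩ := H0.next hi hl l1 (ne 0 1 (by decide)) (br 0)
  obtain ⟨v2, φ2, H2, e12, e21⟩ := H1.next hi hl l1 (ne 1 2 (by decide)) (br 1)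
  obtain ⟨v3, φ3, H3, e23, e32⟩ := H2.next hi hl l1 (ne 2 3 (by decide)) (br 2)
  have e02 := H0.comm hi H2 l1 (ne _ _ (by decide)) (cm D.c02)
  have e20 := H2.comm hi H0 l1 (ne _ _ (by decide)) (cm D.c02.symm)
  have e03 := H0.comm hi H3 l1 (ne _ _ (by decide)) (cm D.c03)
  have e30 := H3.comm hi H0 l1 (ne _ _ (by decide)) (cm D.c03.symm)
  have e13 := H1.comm hi H3 l1 (ne _ _ (by decide)) (cm D.c13)
  have e31 := H3.comm hi H1 l1 (ne _ _ (by decide)) (cm D.c13.symm)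
  obtain ⟨C, hC⟩ := exists_std (ρ := D4.cnj ρ B) (l := l) h3 (g := g) (v := ![v0, v1, v2, v3])
    (φ := ![φ0, φ1, φ2, φ3]) (fun i => by fin_cases i <;> assumption) (fun i j => by
      fin_cases i <;> fin_cases j <;>
        simp [Gm, H0.1, H1.1, H2.1, H3.1, e01, e12, e23, e02, e20, e03, e30, e13, e31,
          eq_inv_of_mul_eq_one_right e10, eq_inv_of_mul_eq_one_right e21, eq_inv_of_mul_eq_one_right e32])
  rw [← cnj_mul] at hC
  have gen : ∀ H : Subgroup Γ, (∀ i, g i ∈ H) → ∀ y, y ∈ H := fun H hH y =>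
    gen_top h (D.gen _ fun i => ⟨g i, hH i, g1 i⟩) ▸ Subgroup.mem_top y
  have hp : p.Prime := Fact.out
  have p2 : ¬ 2 ∣ p := fun k => h2 (by
    simpa [← (Nat.prime_dvd_prime_iff_eq Nat.prime_two hp).1 k] using CharP.cast_eq_zero K p)
  have p3 : ¬ 3 ∣ p := fun k => h3 (by
    simpa [← (Nat.prime_dvd_prime_iff_eq Nat.prime_three hp).1 k] using CharP.cast_eq_zero K p)
  have lp : frobenius K p l = l ^ (p % 3) := by rw [frobenius_def, pow_eq_pow_mod p l3]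
  rcases (by omega : p % 6 = 1 ∧ p % 3 = 1 ∨ p % 6 = 5 ∧ p % 3 = 2) with ⟨q1, q2⟩ | ⟨q1, q2⟩
  · refine Or.inl ⟨q1, fun y => ?_⟩
    rw [← trace_cnj (B * C) y, ← frobenius_def, ← trace_ext]
    refine trace_intw (one_mul 1) (gen (intw _ _ 1) (fun i => ?_) y)
    change (D4.cnj ρ (B * C) (g i)).map (frobenius K p) * 1 = 1 * D4.cnj ρ (B * C) (g i)
    rw [hC, Mt_map, lp, q2, pow_one, mul_one, one_mul]
  · refine Or.inr ⟨q1, fun y => ?_⟩
    rw [← trace_cnj (B * C) y, ← trace_cnj (B * C) y⁻¹, ← frobenius_def, ← trace_ext, ← trace_dual]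
    refine (trace_intw (nonsing_inv_mul _ (det_Jf h3).isUnit) (gen (intw _ _ (Jf K)) (fun i => ?_) y)).symm
    change (D4.cnj ρ (B * C) (g i)⁻¹)ᵀ * Jf K = Jf K * (D4.cnj ρ (B * C) (g i)).map (frobenius K p)
    rw [rho_inv_eq ((hC i).symm ▸ Mt_inv l3 i), hC, Mt_map, lp, q2, Mt_form h3]

end Cfsg.Agent.D4
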