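import Cfsg.Agent.D4.WFrm
import Cfsg.Agent.NG.Defs
import Cfsg.Agent.H65.AlMod0
import Cfsg.Agent.H13.SzInst
import Cfsg.Agent.H13.SzGroup
import Cfsg.Agent.H10.Isotropic
import Cfsg.Agent.H20.U3Syl

/-!
Groups which do not occur in the orthogonal model.
-/

set_option autoImplicit false

open Matrix
open scoped MatrixGroups

namespace Cfsg.Agent.D4

variable {K : Type*} [Field K] {G X : Type*} [Group G] [Group X] {σ : G →* M6 K} {π : G →* X}
variable [IsAlgClosed K] [Finite G]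

theorem WX.no87 (h : HW σ π) {t : Fin 8 → X} (hi : Function.Injective t)
    (hm : ∀ i j, t (i ^^^ j) = t i * t j) {n : X} {M : Fin 8 → Fin 8}
    (hn : ∀ i, n * t i * n⁻¹ = t (M i)) (hM : ∀ i, M i = i → i = 0) : False := by
  have := h.finiteX
  have t0 : t 0 = 1 := left_eq_mul.1 (hm 0 0)
  have sq : ∀ i, t i * t i = 1 := fun i => by
    rw [← hm, (by decide : ∀ i : Fin 8, i ^^^ i = 0), t0]
  let E : Subgroup X :=
    { carrier := Set.range t
      one_mem' := ⟨0, t0⟩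
      mul_mem' := by rintro _ _ ⟨i, rfl⟩ ⟨j, rfl⟩; exact ⟨_, hm i j⟩
      inv_mem' := by rintro _ ⟨i, rfl⟩; exact ⟨i, (inv_eq_of_mul_eq_one_right (sq i)).symm⟩ }
  obtain ⟨_, ⟨i, rfl⟩, h1, h2⟩ := h.e8 E (by rintro _ ⟨i, rfl⟩; exact sq i)
    ((Nat.card_range_of_injective hi).trans (by simp))
  have := h2 n (Subgroup.mem_normalizer_fintype (by rintro _ ⟨i, rfl⟩; exact ⟨_, (hn i).symm⟩))
  exact h1 (by rw [hM i (hi ((hn i).symm.trans this)), t0])

/-- translations of the affine space with eight points -/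
def WX.tr (i : Fin 8) : Equiv.Perm (Fin 8) :=
  Function.Involutive.toPerm (· ^^^ i) ((by decide : ∀ i x : Fin 8, (x ^^^ i) ^^^ i = x) i)

/-- a Singer cycle -/
def WX.n7 : Equiv.Perm (Fin 8) :=
  ⟨![0, 2, 4, 6, 3, 1, 7, 5], ![0, 5, 1, 4, 2, 7, 3, 6], by decide, by decide⟩

theorem WX.tr_spec : (∀ i, Equiv.Perm.sign (WX.tr i) = 1) ∧ Equiv.Perm.sign WX.n7 = 1 ∧
    (∀ i j, WX.tr (i ^^^ j) = WX.tr i * WX.tr j) ∧ (∀ i j, WX.tr i = WX.tr j → i = j) ∧
    (∀ i, WX.n7 * WX.tr i * WX.n7⁻¹ = WX.tr (WX.n7 i)) ∧ ∀ i, WX.n7 i = i → i = 0 := by decide +kernel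

open H65.Alt in
theorem HW.alt (h : HW σ π) {n : ℕ} (hn : 8 ≤ n) : ¬ IsAlt X n := by
  rintro ⟨e⟩
  obtain ⟨s1, s2, s3, s4, s5, s6⟩ := WX.tr_spec
  have hv := Fin.castLE_injective hn
  refine WX.no87 h (t := fun i => e.symm (m0A hv _ (s1 i))) (n := e.symm (m0A hv _ s2))
    (fun i j e' => s4 i j (m0_inj hv (congrArg Subtype.val (e.symm.injective e')))) (fun i j => ?_)
    (fun i => ?_) s6
  · rw [← map_mul]
    exact congrArg _ (Subtype.ext ((congrArg _ (s3 i j)).trans (map_mul (m0T hv) _ _)))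
  · rw [← map_inv, ← map_mul, ← map_mul]
    refine congrArg _ (Subtype.ext ?_)
    show m0T hv _ * m0T hv _ * (m0T hv _)⁻¹ = m0T hv _
    rw [← s5, map_mul, map_mul, map_inv]

theorem HW.alt' (h : HW σ π) (F : Frm σ) (n : ℕ) : ¬ IsAlt X n := by
  by_cases hn : 8 ≤ n
  · exact h.alt hn
  rintro ⟨e⟩
  have h1 := Subgroup.card_subgroup_dvd_card ((MG σ ⊥).map π)
  rw [WF.card_A h F, Nat.card_congr e.toEquiv] at h1
  have h2 := Subgroup.card_subgroup_dvd_card (alternatingGroup (Fin n))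
  have h3 : ∀ k, Nat.card (Equiv.Perm (Fin k)) = k.factorial := fun k => by simp [Fintype.card_perm]
  by_cases h4 : n ≤ 5
  · have := h1.trans (h2.trans (h3 n ▸ Nat.factorial_dvd_factorial h4))
    revert this; decide
  have : Nontrivial (Fin n) := Fin.nontrivial_iff_two_le.2 (by omega)
  have h5 := Nat.mul_dvd_mul_left 2 h1
  rw [two_mul_nat_card_alternatingGroup, h3] at h5
  exact absurd (h5.trans (Nat.factorial_dvd_factorial (show n ≤ 7 by omega))) (by decide)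

theorem HW.sz (h : HW σ π) : ¬ Lie.IsoSuzuki X := by
  rintro ⟨F, _, _, m, hm, hF, ⟨e⟩⟩
  let _ := H13.titsOfCard hF
  let M := (H13.lieModel (H13.titsOfCard_θ hF)).ofEquiv e
  have sq : ∀ x ∈ M.Z, x * x = 1 := fun x hx => by
    obtain ⟨b, rfl⟩ := M.mem_Z.1 hx
    rw [← pow_two, M.u_sq, M.u_eq_one]; simp
  have h1 := h.rank M.Z ⟨⟨fun a b => Subtype.ext (by
    obtain ⟨c, hc⟩ := M.mem_Z.1 a.2
    obtain ⟨d, hd⟩ := M.mem_Z.1 b.2
    simp only [Subgroup.coe_mul, hc, hd, M.u_zero_comm c])⟩⟩ fun a ha => by rw [pow_two, sq a ha]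
  rw [M.card_Z, Nat.card_eq_fintype_card, hF, Nat.pow_le_pow_iff_right one_lt_two] at h1
  obtain rfl : m = 1 := by omega
  obtain ⟨s, s1, s2, s3⟩ := h.e8 M.Z sq (by rw [M.card_Z, Nat.card_eq_fintype_card, hF]; rfl)
  obtain ⟨b, rfl⟩ := M.mem_Z.1 s1
  have : Nontrivial Fˣ := Finite.one_lt_card_iff_nontrivial.1 (by
    rw [Nat.card_units, Nat.card_eq_fintype_card, hF]; norm_num)
  obtain ⟨t, ht⟩ := exists_ne (1 : Fˣ)
  have h2 := s3 (M.h t) (M.normalizer_Z ▸ M.h_mem_B t)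
  rw [M.h_u_conj, M.u_inj] at h2
  exact ht (Units.ext (H13.sq_mul_θ_eq_one ((mul_eq_right₀ fun e => s2 (by rw [e, M.u_eq_one]; simp)).1 h2.2)))

theorem WX.zero (h2 : (2 : K) ≠ 0) {M : M6 K} {i j : Fin 6} (c : M * aa i j = aa i j * M) {p q : Fin 6}
    (hpq : ¬ ((p = i ∨ p = j) ↔ (q = i ∨ q = j))) : M p q = 0 := by
  have := congrFun (congrFun c p) q
  rw [aa, mul_diagonal, diagonal_mul] at this
  refine (mul_eq_zero.1 (show 2 * M p q = 0 from ?_)).resolve_left h2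
  by_cases h1 : p = i ∨ p = j <;> by_cases h3 : q = i ∨ q = j <;> simp only [h1, h3, if_true, if_false] at this
  exacts [absurd (iff_of_true h1 h3) hpq, by linear_combination this, by linear_combination -this,
    absurd (iff_of_false h1 h3) hpq]

set_option synthInstance.maxSize 1024 in
theorem WX.types : ∀ i j k l : Fin 6, i ≠ j → k ≠ l → (∀ q, (q = i ∨ q = j) ↔ (q = k ∨ q = l)) ∨
    (i ≠ k ∧ i ≠ l ∧ j ≠ k ∧ j ≠ l) ∨ ∃ p p', (p = i ∨ p = j) ∧ ¬ (p' = i ∨ p' = j) ∧ ∀ r, r = p ∨ r = p' →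
      ∀ q, q ≠ r → ¬ ((q = i ∨ q = j) ↔ (r = i ∨ r = j)) ∨ ¬ ((q = k ∨ q = l) ↔ (r = k ∨ r = l)) := by
  decide +kernel

omit [IsAlgClosed K] in
theorem WX.sq_comm {u v : Matrix (Fin 2) (Fin 2) K} (hu : uᵀ * u = 1) (hv : vᵀ * v = 1) :
    u * u * (v * v) = v * v * (u * u) := by
  have k : ∀ {u : Matrix (Fin 2) (Fin 2) K}, uᵀ * u = 1 → ∃ a b, u * u = !![a, -b; b, a] := fun {u} hu => by
    have h1 := fun i j => congrFun (congrFun hu i) j
    have hu' : u * uᵀ = 1 := mul_eq_one_comm.1 hu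
    have h2 := fun i j => congrFun (congrFun hu' i) j
    have a1 := h1 0 0; have a2 := h1 0 1; have a3 := h2 1 1; have a4 := h2 0 1
    simp [Matrix.mul_apply, Fin.sum_univ_two] at a1 a2 a3 a4
    refine ⟨(u * u) 0 0, (u * u) 1 0, ?_⟩
    ext i j
    fin_cases i <;> fin_cases j <;> simp [Matrix.mul_apply, Fin.sum_univ_two]
    · linear_combination a2 + a4
    · linear_combination a3 - a1
  obtain ⟨a, b, e⟩ := k hu
  obtain ⟨c, d, e'⟩ := k hv
  rw [e, e']
  ext i j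
  fin_cases i <;> fin_cases j <;> simp [Matrix.mul_apply, Fin.sum_univ_two] <;> ring

theorem WX.syn (h2 : (2 : K) ≠ 0) {i j k l : Fin 6} (hn : Function.Injective ![i, j, k, l]) {M N : M6 K}
    (o : Mᵀ * M = 1) (o' : Nᵀ * N = 1) (c1 : M * aa i j = aa i j * M) (c2 : M * aa k l = aa k l * M)
    (c3 : N * aa i j = aa i j * N) (c4 : N * aa k l = aa k l * N) : M * M * (N * N) = N * N * (M * M) := by
  obtain ⟨w, hw⟩ := Equiv.Perm.exists_extending_pair _ _ (by decide : Function.Injective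
    fun t : Fin 4 => (finProdFinEquiv (![(0, 0), (1, 0), (0, 1), (1, 1)] t : Fin 2 × Fin 3) : Fin 6)) hn
  let e : Fin 2 × Fin 3 ≃ Fin 6 := finProdFinEquiv.trans w
  obtain rfl : e (0, 0) = i := hw 0
  obtain rfl : e (1, 0) = j := hw 1
  obtain rfl : e (0, 1) = k := hw 2
  obtain rfl : e (1, 1) = l := hw 3
  have bd : ∀ {M : M6 K}, Mᵀ * M = 1 → M * aa (e (0, 0)) (e (1, 0)) = aa (e (0, 0)) (e (1, 0)) * M →
      M * aa (e (0, 1)) (e (1, 1)) = aa (e (0, 1)) (e (1, 1)) * M →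
      ∃ f, M.submatrix e e = blockDiagonal f ∧ ∀ t, (f t)ᵀ * f t = 1 := fun {M} o c1 c2 => by
    have e1 : M.submatrix e e = blockDiagonal fun t => of fun a b => M (e (a, t)) (e (b, t)) := by
      ext p q
      rw [blockDiagonal_apply]
      split_ifs with h
      · simp only [submatrix_apply, of_apply]
        congr 2
        exact Prod.ext rfl h.symm
      · refine ((by decide : ∀ p q : Fin 2 × Fin 3, p.2 ≠ q.2 →
          ¬ ((p = (0, 0) ∨ p = (1, 0)) ↔ (q = (0, 0) ∨ q = (1, 0))) ∨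
          ¬ ((p = (0, 1) ∨ p = (1, 1)) ↔ (q = (0, 1) ∨ q = (1, 1)))) p q h).elim
          (fun h => WX.zero h2 c1 ?_) fun h => WX.zero h2 c2 ?_ <;> simpa only [e.injective.eq_iff] using h
    generalize (fun t => of fun a b => M (e (a, t)) (e (b, t))) = f at e1
    refine ⟨f, e1, congrFun (blockDiagonal_injective (a₁ := fun t => (f t)ᵀ * f t) (a₂ := 1) ?_)⟩
    rw [blockDiagonal_mul, ← blockDiagonal_transpose, ← e1, transpose_submatrix, submatrix_mul_equiv, o,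
      submatrix_one_equiv, blockDiagonal_one]
  obtain ⟨f, f1, f2⟩ := bd o c1 c2
  obtain ⟨g, g1, g2⟩ := bd o' c3 c4
  refine (reindex e.symm e.symm).injective ?_
  simp only [reindex_apply, Equiv.symm_symm, ← submatrix_mul_equiv _ _ e e e, f1, g1, ← blockDiagonal_mul]
  exact congrArg _ (funext fun t => WX.sq_comm (f2 t) (g2 t))

theorem HW.u3loc (h : HW σ π) {a b x y s k : X} (ha : orderOf a = 2) (hb : orderOf b = 2)
    (hab : a ≠ b) (c : Commute a b) (xa : Commute x a) (xb : Commute x b) (ya : Commute y a)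
    (yb : Commute y b) (sa : Commute s a) (sb : Commute s b) (ka : Commute k a) (kb : Commute k b)
    (e : x * y * x⁻¹ * y⁻¹ = a) (o : Odd (orderOf k)) (f : (s * k * s⁻¹ * k⁻¹) ^ 4 = 1) :
    Commute s k := by
  obtain ⟨a, rfl, a1, a2⟩ := h.exists_inv ha
  obtain ⟨b, rfl, b1, b2⟩ := h.exists_inv hb
  obtain ⟨x, rfl⟩ := h.surj x
  obtain ⟨y, rfl⟩ := h.surj y
  obtain ⟨s, rfl⟩ := h.surj s
  obtain ⟨k, rfl⟩ := h.surj k
  have l : ∀ {a g : G}, (σ a).trace = 2 → Commute (π g) (π a) → Commute g a := fun t c =>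
    mul_inv_eq_iff_eq_mul.1 (h.conj_lift t t (mul_inv_eq_iff_eq_mul.2 c))
  obtain ⟨B, hB⟩ := h.exists_diag ![a, b] (fun i => by fin_cases i <;> assumption) fun i j => by
    fin_cases i <;> fin_cases j
    exacts [rfl, l b2 c, l a2 c.symm, rfl]
  have h' := h.cw B
  obtain ⟨i, j, ij, ea⟩ := h'.aa_of_diag (hB 0) ((WB.cw_trace B _).trans a2)
  obtain ⟨i', j', ij', eb⟩ := h'.aa_of_diag (hB 1) ((WB.cw_trace B _).trans b2)
  change D4.cw σ B a = _ at ea
  change D4.cw σ B b = _ at eb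
  generalize D4.cw σ B = τ at h' ea eb
  have ca : ∀ {g}, Commute g a → τ g * aa i j = aa i j * τ g := fun c => by
    rw [← ea, ← map_mul, c, map_mul]
  have cb : ∀ {g}, Commute g b → τ g * aa i' j' = aa i' j' * τ g := fun c => by
    rw [← eb, ← map_mul, c, map_mul]
  rcases WX.types i j i' j' ij ij' with t | t | ⟨p, p', p1, p2, t⟩
  · refine (hab (congrArg π (h'.inj ?_))).elim
    simp only [ea, eb, aa, t]
  · obtain ⟨m, hm⟩ := o
    have tw : ∀ g : G, π g = 1 → g ^ 2 = 1 := fun g hg => h.inj (by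
      rcases (h.ker g).1 hg with e | e <;> simp [e])
    have k1 : π (k ^ (m + 1) * k ^ (m + 1)) = π k := by
      rw [← pow_add, map_pow, show m + 1 + (m + 1) = (2 * m + 1) + 1 by ring, pow_succ, ← hm,
        pow_orderOf_eq_one, one_mul]
    have k2 : (k ^ (m + 1) * k ^ (m + 1)) ^ (2 * m + 1) = 1 := by
      rw [← pow_two, ← pow_mul, ← pow_mul, show (m + 1) * (2 * (2 * m + 1)) = (2 * m + 1) * 2 * (m + 1) by ring,
        pow_mul, pow_mul, tw _ (by rw [map_pow, ← hm, pow_orderOf_eq_one]), one_pow]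
    have ra := (l a2 ka).pow_left (m + 1)
    have rb := (l b2 kb).pow_left (m + 1)
    generalize k ^ (m + 1) = r at k1 k2 ra rb
    have cm : Commute (s * (r * r) * s⁻¹) (r * r) := h'.inj (by
      rw [← conj_mul]
      simp only [map_mul τ (s * r * s⁻¹), map_mul τ (r * r), map_mul τ (s * r * s⁻¹ * _), map_mul τ r]
      exact WX.syn h.two (List.nodup_ofFn.1 (by simp [ij, ij', t])) (h'.orth _) (h'.orth _)
        (ca (((l a2 sa).mul_left ra).mul_left (l a2 sa).inv_left))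
        (cb (((l b2 sb).mul_left rb).mul_left (l b2 sb).inv_left)) (ca ra) (cb rb))
    have w1 : (s * (r * r) * s⁻¹ * (r * r)⁻¹) ^ (2 * m + 1) = 1 := by
      rw [cm.inv_right.mul_pow, conj_pow, inv_pow, k2]; simp
    have w2 : (s * (r * r) * s⁻¹ * (r * r)⁻¹) ^ 2 ^ 3 = 1 := by
      rw [show 2 ^ 3 = 4 * 2 from rfl, pow_mul]
      exact tw _ (by rw [map_pow, map_mul, map_mul, map_mul, map_inv, map_inv, k1, f])
    have w3 := orderOf_eq_one_iff.1 (Nat.eq_one_of_dvd_coprimes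
      (Nat.Coprime.pow_right 3 ((Nat.coprime_two_right).2 ⟨m, rfl⟩)) (orderOf_dvd_of_pow_eq_one w1)
      (orderOf_dvd_of_pow_eq_one w2))
    have := congrArg π w3
    rw [map_mul, map_mul, map_mul, map_inv, map_inv, k1, map_one] at this
    exact commutatorElement_eq_one_iff_commute.1 this
  · exfalso
    have col : ∀ {g}, Commute g a → Commute g b → ∀ r, r = p ∨ r = p' → ∀ M : M6 K,
        (M * τ g) r r = M r r * τ g r r := fun {g} c1 c2 r hr M => by
      rw [Matrix.mul_apply, Finset.sum_eq_single r (fun q _ hq => ?_) (by simp)]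
      rw [(t r hr q hq).elim (WX.zero h.two (ca c1)) (WX.zero h.two (cb c2)), mul_zero]
    have cx := col (l a2 xa) (l b2 xb)
    have cy := col (l a2 ya) (l b2 yb)
    have u : ∀ r, r = p ∨ r = p' → τ x r r * τ x r r = 1 ∧ τ y r r * τ y r r = 1 := fun r hr =>
      ⟨by simpa [h'.orth] using (cx r hr (τ x)ᵀ).symm, by simpa [h'.orth] using (cy r hr (τ y)ᵀ).symm⟩
    have v : ∀ r, r = p ∨ r = p' → τ (x * y) r r = τ x r r * τ y r r ∧
        τ (a * (y * x)) r r = (if r = i ∨ r = j then -1 else 1) * (τ y r r * τ x r r) := fun r hr => by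
      rw [map_mul, map_mul, map_mul, ea, aa, diagonal_mul, cx r hr, cy r hr]
      exact ⟨rfl, rfl⟩
    rcases h'.eq_of (a := x * y) (b := a * (y * x)) (by simp only [map_mul, ← e]; group) with e1 | e1
    · obtain ⟨u1, u2⟩ := u p (Or.inl rfl)
      obtain ⟨v1, v2⟩ := v p (Or.inl rfl)
      rw [e1, v2, if_pos p1] at v1
      exact h.two (by linear_combination (-τ x p p * τ y p p) * v1 - 2 * τ y p p * τ y p p * u1 - 2 * u2)
    · obtain ⟨u1, u2⟩ := u p' (Or.inr rfl)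
      obtain ⟨v1, v2⟩ := v p' (Or.inr rfl)
      rw [e1, neg_apply, v2, if_neg p2] at v1
      exact h.two (by linear_combination (-τ x p' p' * τ y p' p') * v1 - 2 * τ y p' p' * τ y p' p' * u1 - 2 * u2)

section
open H10
variable {F : Type*} [Field F] [Fintype F] {q : ℕ} [hF : Fact (Fintype.card F = q ^ 2)] [CharP F 2]

/-- the unipotent elements -/
def WX.un (q : ℕ) [Fact (Fintype.card F = q ^ 2)] (x b : F) : Matrix (Fin 3) (Fin 3) F :=
  !![1 + b, cj F q x, b; x, 1, x; b, cj F q x, 1 + b]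

theorem WX.un_mul (x b y c : F) : WX.un q x b * WX.un q y c = WX.un q (x + y) (b + c + y * cj F q x) := by
  have : (2 : F) = 0 := CharTwo.two_eq_zero
  ext i j
  fin_cases i <;> fin_cases j <;> simp [WX.un, Matrix.mul_apply, Fin.sum_univ_three] <;> grind

theorem WX.un_ex {x b : F} (h : b + cj F q b = x * cj F q x) : ∃ g : SU 3 F q, sm g = WX.un q x b := by
  have : (2 : F) = 0 := CharTwo.two_eq_zero
  refine ⟨mkSU _ ((isIsom_iff _).2 ?_) ?_, rfl⟩
  · ext i j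
    fin_cases i <;> fin_cases j <;> simp [WX.un, Matrix.mul_apply, Fin.sum_univ_three, cj_cj] <;> grind
  · simp [WX.un, det_fin_three]; grind

theorem WX.un_zero : WX.un q (0 : F) 0 = 1 := by
  ext i j
  fin_cases i <;> fin_cases j <;> simp [WX.un]

theorem WX.un_four {g : SU 3 F q} {x b : F} (h : sm g = WX.un q x b) : g * g * (g * g) = 1 :=
  sm_injective (by
    simp only [sm_mul, h, WX.un_mul, CharTwo.add_self_eq_zero, map_zero, mul_zero, add_zero, sm_one,
      WX.un_zero])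

theorem WX.tor {l : F} (h : l * cj F q l = 1) : ∃ k : SU 3 F q, k ^ (q + 1) = 1 ∧
    ∀ x b, sm k * WX.un q x b = WX.un q (cj F q l ^ 3 * x) b * sm k := by
  have e : (!![l, 0, 0; 0, cj F q l ^ 2, 0; 0, 0, l] : Matrix (Fin 3) (Fin 3) F) =
      diagonal ![l, cj F q l ^ 2, l] := by
    ext i j
    fin_cases i <;> fin_cases j <;> simp
  refine ⟨mkSU !![l, 0, 0; 0, cj F q l ^ 2, 0; 0, 0, l] ((isIsom_iff _).2 ?_) ?_, sm_injective ?_,
    fun x b => ?_⟩
  · ext i j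
    fin_cases i <;> fin_cases j <;> simp [Matrix.mul_apply, Fin.sum_univ_three, cj_cj] <;> grind
  · simp [det_fin_three]; grind
  · change (!![l, 0, 0; 0, cj F q l ^ 2, 0; 0, 0, l] : Matrix (Fin 3) (Fin 3) F) ^ (q + 1) = 1
    rw [e, diagonal_pow, ← diagonal_one]
    congr 1
    funext i
    fin_cases i <;> simp [← mul_cj_eq_pow, cj_cj] <;> grind
  · change !![l, 0, 0; 0, cj F q l ^ 2, 0; 0, 0, l] * _ = _ * !![l, 0, 0; 0, cj F q l ^ 2, 0; 0, 0, l]
    ext i j
    fin_cases i <;> fin_cases j <;> simp [WX.un, Matrix.mul_apply, Fin.sum_univ_three, cj_cj] <;> grind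

end

open H10 in
theorem HW.u3e (h : HW σ π) : ¬ NG.IsoU3Even X := by
  rintro ⟨F, _, _, n, hn, hF, ⟨e⟩⟩
  have := H20.charP_two_of_card_pow (hF.trans (pow_mul 2 n 2).symm)
  have q4 : 4 ≤ 2 ^ n := Nat.pow_le_pow_right two_pos hn
  have qe : Even (2 ^ n) := Nat.even_pow.2 ⟨even_two, by omega⟩
  obtain ⟨q, hq⟩ : ∃ q, q = 2 ^ n := ⟨_, rfl⟩
  rw [← hq] at hF q4 qe
  replace e : X ≃* PSU 3 F q := hq ▸ e
  have := Fact.mk hF
  have t2 : (2 : F) = 0 := CharTwo.two_eq_zero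
  obtain ⟨l, l1, l3⟩ : ∃ l : F, l * cj F q l = 1 ∧ l ^ 3 ≠ 1 := by
    obtain ⟨s, hs⟩ := IsCyclic.exists_ofOrder_eq_natCard (α := Fˣ)
    rw [Nat.card_units, Nat.card_eq_fintype_card, hF, show q ^ 2 - 1 = (q - 1) * (q + 1) by
      rw [mul_comm, ← Nat.sq_sub_sq]] at hs
    refine ⟨(s ^ (q - 1) : Fˣ), ?_, fun e => ?_⟩
    · rw [mul_cj_eq_pow, ← Units.val_pow_eq_pow_val, ← pow_mul, ← hs, pow_orderOf_eq_one, Units.val_one]
    · have : orderOf s ∣ (q - 1) * 3 := orderOf_dvd_of_pow_eq_one (by rw [pow_mul]; exact Units.ext e)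
      have := Nat.le_of_dvd (by norm_num) (Nat.dvd_of_mul_dvd_mul_left (by omega) (hs ▸ this))
      omega
  let g : SU 3 F q →* X := e.symm.toMonoidHom.comp (QuotientGroup.mk' _)
  have ker : ∀ s, g s = 1 → ∃ t : F, sm s = t • 1 := fun s hs =>
    (mem_center_SU_iff (by norm_num) s).1 ((QuotientGroup.eq_one_iff s).1 (e.symm.map_eq_one_iff.1 hs))
  obtain ⟨k, k1, k2⟩ := WX.tor l1
  obtain ⟨a, ha⟩ := WX.un_ex (q := q) (x := (0 : F)) (b := 1) (by simp; grind)
  obtain ⟨b, hb⟩ := WX.un_ex (q := q) (x := (0 : F)) (b := l + cj F q l) (by simp [cj_cj]; grind)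
  obtain ⟨u, hu⟩ := exists_trace_eq (F := F) (q := q) (t := 1) (map_one _)
  obtain ⟨v, hv⟩ := exists_trace_eq (cj_norm (q := q) u)
  obtain ⟨x, hx⟩ := WX.un_ex hv
  obtain ⟨y, hy⟩ := WX.un_ex (x := 1) (hu.trans (by simp))
  have ne : ∀ {s c}, sm s = WX.un q 0 c → g s = 1 → c = 0 := fun {s c} h1 h2 => by
    obtain ⟨t, ht⟩ := ker s h2
    simpa [h1, WX.un] using congrFun (congrFun ht 0) 2
  have sq : ∀ {s c}, sm s = WX.un q 0 c → g s ^ 2 = 1 := fun {s c} h1 => by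
    rw [pow_two, ← map_mul, show s * s = 1 from sm_injective (by
      simp [sm_mul, h1, WX.un_mul, CharTwo.add_self_eq_zero, sm_one, WX.un_zero]), map_one]
  have cm : ∀ {s s' z c c'}, sm s = WX.un q z c → sm s' = WX.un q 0 c' → Commute (g s) (g s') :=
    fun h1 h2 => Commute.map (sm_injective (by simp [sm_mul, h1, h2, WX.un_mul, add_comm])) g
  have ck : ∀ {s c}, sm s = WX.un q 0 c → Commute (g k) (g s) :=
    fun h1 => Commute.map (sm_injective (by rw [sm_mul, sm_mul, h1, k2, mul_zero])) g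
  have y3 : y⁻¹ = y * (y * y) := inv_eq_of_mul_eq_one_right (by rw [← mul_assoc, WX.un_four hy])
  have := Fact.mk Nat.prime_two
  have := h.u3loc (s := g y) (orderOf_eq_prime (sq ha) fun e => one_ne_zero (ne ha e))
    (orderOf_eq_prime (sq hb) fun e => l3 (by have := ne hb e; grind))
    (fun e => l3 (by
      have := ne (s := a * b) (by rw [sm_mul, ha, hb, WX.un_mul, add_zero])
        (by rw [map_mul, ← e, ← pow_two, sq ha])
      grind))
    (cm ha hb) (cm hx ha) (cm hx hb) (cm hy ha) (cm hy hb) (cm hy ha) (cm hy hb) (ck ha) (ck hb)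
    (by
      rw [mul_inv_eq_iff_eq_mul, mul_inv_eq_iff_eq_mul, ← map_mul, ← map_mul, ← map_mul]
      refine congrArg g (sm_injective ?_)
      simp only [sm_mul, ha, hx, hy, WX.un_mul, map_zero, map_add, map_one]
      congr 1 <;> grind)
    (Odd.of_dvd_nat qe.add_one (orderOf_dvd_of_pow_eq_one (by rw [← map_pow, k1, map_one])))
    (by
      obtain ⟨z, c, this⟩ : ∃ z c, sm (y * k * y⁻¹ * k⁻¹) = WX.un q z c := by
        rw [y3, mul_assoc y k, sm_mul, sm_mul, sm_mul k, sm_mul y, sm_mul y, hy, WX.un_mul, WX.un_mul, k2,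
          ← mul_assoc, mul_assoc _ (sm k), ← sm_mul, mul_inv_cancel, sm_one, mul_one, WX.un_mul]
        exact ⟨_, _, rfl⟩
      rw [← map_inv, ← map_inv, ← map_mul, ← map_mul, ← map_mul, ← map_pow, show 4 = 2 + 2 from rfl, pow_add,
        pow_two, WX.un_four this, map_one])
  obtain ⟨t, ht⟩ := ker (k * y * k⁻¹ * y⁻¹) (by
    rw [map_mul, map_mul, map_mul, map_inv, map_inv, ← this.eq]; group)
  rw [y3, sm_mul, sm_mul, sm_mul k, hy, k2, mul_assoc _ (sm k), ← sm_mul, mul_inv_cancel, sm_one, mul_one,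
    sm_mul, sm_mul, hy, WX.un_mul, WX.un_mul, WX.un_mul] at ht
  have := congrFun (congrFun ht 1) 0
  simp [WX.un] at this
  exact l3 (by grind)

end Cfsg.Agent.D4
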