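import Cfsg.Agent.D4.WAlt
import Cfsg.Agent.D4.LQ3
import Cfsg.Agent.D4.WQuad0

/-!
Unipotent elements and involutions in the exterior square.
-/

set_option autoImplicit false

open Matrix
open scoped MatrixGroups

namespace Cfsg.Agent.D4

variable {K : Type*} [Field K] {Γ G X : Type*} [Group Γ] [Group G] [Group X] {ρ : Γ →* M4 K}
  {π : Γ →* X} {σ : G →* M6 K} {π' : G →* X} {ι : Γ →* G} {i : K}

namespace WQ

theorem par {y w : V4 K} (hy : y ≠ 0) (e : wq y w = 0) : ∃ c : K, w = c • y := by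
  obtain ⟨φ, hφ⟩ := exists_dot_ne_zero hy
  have := congrArg (· *ᵥ φ) e
  simp only [wq, sub_mulVec, vv_mulVec, zero_mulVec, sub_eq_zero] at this
  refine ⟨(y ⬝ᵥ φ)⁻¹ * (w ⬝ᵥ φ), ?_⟩
  rw [mul_smul, this, smul_smul, inv_mul_cancel₀ (by rwa [dotProduct_comm]), one_smul]

theorem nrt_aux (h2 : (2 : K) ≠ 0) {N : M4 K} (hN : IsNilpotent N)
    (e : ∀ u w, wq ((1 + N) *ᵥ ((1 + N) *ᵥ u)) ((1 + N) *ᵥ ((1 + N) *ᵥ w)) -
      (2 : K) • wq ((1 + N) *ᵥ u) ((1 + N) *ᵥ w) + wq u w = 0) (h0 : N ≠ 0) :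
    ∃ v φ : V4 K, N = vecMulVec v φ ∧ φ ⬝ᵥ v = 0 ∧ v ≠ 0 ∧ φ ≠ 0 := by
  have k1 : ∀ u w, N *ᵥ w = 0 → wq ((N * N) *ᵥ u) w = 0 := fun u w hw => by
    rw [← e u w]
    simp only [add_mulVec, one_mulVec, mulVec_add, hw, add_zero, ← mulVec_mulVec]
    ext a b
    simp [wq, vecMulVec_apply]
    ring
  have sq : N * N = 0 := by
    obtain ⟨w, hw, hw0⟩ := (exists_mulVec_eq_zero_iff (M := N)).2 (by
      obtain ⟨m, hm⟩ := hN
      have := congrArg det hm
      rw [det_pow, det_zero] at this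
      exact eq_zero_of_pow_eq_zero this)
    have h3 : N ^ 3 = 0 := by
      refine ext_of_mulVec_single fun j => ?_
      have := congrArg (N * ·) (k1 (Pi.single j 1) w hw0)
      simp only [wq, mul_sub, mul_vecMulVec, hw0, zero_vecMulVec, sub_zero, mul_zero] at this
      rw [pow_succ', sq, ← mulVec_mulVec, (vv_eq_zero this).resolve_right hw, zero_mulVec]
    refine ext_of_mulVec_single fun j => ?_
    rw [zero_mulVec]
    by_contra hy
    have h1 : LinearMap.ker N.mulVecLin ≤ K ∙ ((N * N) *ᵥ Pi.single j 1) := fun z hz => by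
      obtain ⟨c, hc⟩ := par hy (k1 _ z hz)
      exact Submodule.mem_span_singleton.2 ⟨c, hc.symm⟩
    have := Submodule.finrank_mono h1
    rw [finrank_span_singleton hy] at this
    have := rank_cube h3
    have := rk_rank_add N
    omega
  have k2 : ∀ u w, wq (N *ᵥ u) (N *ᵥ w) = 0 := fun u w => by
    refine (smul_eq_zero.1 ?_).resolve_left h2
    rw [← e u w]
    have sq' : ∀ u, N *ᵥ N *ᵥ u = 0 := fun u => by rw [mulVec_mulVec, sq, zero_mulVec]
    simp only [add_mulVec, one_mulVec, mulVec_add, sq', add_zero]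
    ext a b
    simp [wq, vecMulVec_apply]
    ring
  obtain ⟨j, hj⟩ : ∃ j, N *ᵥ Pi.single j 1 ≠ 0 := by
    by_contra hc
    push Not at hc
    exact h0 (ext_of_mulVec_single fun j => by rw [hc, zero_mulVec])
  choose φ hφ using fun k => par hj (k2 _ (Pi.single k 1))
  have eN : N = vecMulVec (N *ᵥ Pi.single j 1) φ := by
    ext a b
    have := congrFun (hφ b) a
    simp only [mulVec_single_one, col_apply, Pi.smul_apply, smul_eq_mul] at this
    simp only [vecMulVec_apply, mulVec_single_one, col_apply]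
    rw [this, mul_comm]
  generalize N *ᵥ Pi.single j 1 = y at eN hj
  have hφ0 : φ ≠ 0 := fun e => h0 (by rw [eN, e, vecMulVec_zero])
  refine ⟨y, φ, eN, ?_, hj, hφ0⟩
  rw [eN, vv_mul, smul_eq_zero] at sq
  exact sq.resolve_right fun e => (vv_eq_zero e).elim hj hφ0

/-- The projection onto the first two coordinates. -/
def E0 : M4 K := !![1, 0, 0, 0; 0, 1, 0, 0; 0, 0, 0, 0; 0, 0, 0, 0]

theorem blk_sq (h2 : (2 : K) ≠ 0) {Z : M4 K} (c : Commute Z E0) (hZ : IsNilpotent Z) :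
    Z * Z = 0 := by
  have c' : Commute Z (1 - E0) := (Commute.one_right Z).sub_right c
  have tr : ∀ {M : M4 K}, IsNilpotent M → M.trace = 0 := fun h =>
    isNilpotent_iff_eq_zero.1 (isNilpotent_trace_of_isNilpotent h)
  have t1 := tr (c.isNilpotent_mul_right hZ)
  have t2 := tr (c'.isNilpotent_mul_right hZ)
  have t3 := tr (((Commute.refl Z).mul_right c).isNilpotent_mul_right hZ)
  have t4 := tr (((Commute.refl Z).mul_right c').isNilpotent_mul_right hZ)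
  have z := fun a b => congrFun (congrFun c.eq a) b
  have z02 := z 0 2
  have z03 := z 0 3
  have z12 := z 1 2
  have z13 := z 1 3
  have z20 := z 2 0
  have z21 := z 2 1
  have z30 := z 3 0
  have z31 := z 3 1
  simp [E0, mul_apply, Fin.sum_univ_succ, eq_comm (a := (0 : K))] at z02 z03 z12 z13 z20 z21 z30 z31
  simp [E0, mul_apply, Fin.sum_univ_succ, trace, mul_sub, z02, z03, z12, z13, z20, z21, z30,
    z31] at t1 t2 t3 t4
  have a1 : Z 1 1 = -Z 0 0 := by linear_combination t1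
  have a2 : Z 3 3 = -Z 2 2 := by linear_combination t2
  have b1 : Z 0 0 * Z 0 0 + Z 0 1 * Z 1 0 = 0 :=
    mul_left_cancel₀ h2 (by rw [a1] at t3; linear_combination t3)
  have b2 : Z 2 2 * Z 2 2 + Z 2 3 * Z 3 2 = 0 :=
    mul_left_cancel₀ h2 (by rw [a2] at t4; linear_combination t4)
  ext a b
  fin_cases a <;> fin_cases b <;>
    simp [mul_apply, Fin.sum_univ_succ, z02, z03, z12, z13, z20, z21, z30, z31, a1, a2] <;>
    first | ring1 | linear_combination b1 | linear_combination b2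

theorem comm_E0 {M N : M4 K} (e : N * M = 1)
    (e1 : M * wq (Pi.single 0 1) (Pi.single 1 1) * Mᵀ = wq (Pi.single 0 1) (Pi.single 1 1))
    (e2 : M * wq (Pi.single 2 1) (Pi.single 3 1) * Mᵀ = wq (Pi.single 2 1) (Pi.single 3 1)) :
    Commute M E0 := by
  have k : ∀ {W : M4 K}, M * W * Mᵀ = W → ∀ a b, (M * W) a b = (W * Nᵀ) a b := fun {W} h a b => by
    conv_rhs => rw [← h, mul_assoc, ← transpose_mul, e, transpose_one, mul_one]
  have z1 := k e1 2 0
  have z2 := k e1 2 1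
  have z3 := k e1 3 0
  have z4 := k e1 3 1
  have z5 := k e2 0 2
  have z6 := k e2 0 3
  have z7 := k e2 1 2
  have z8 := k e2 1 3
  simp [wq, mul_sub, sub_mul, mul_vecMulVec, vecMulVec_mul, vecMulVec_apply] at z1 z2 z3 z4 z5 z6 z7 z8
  ext a b
  fin_cases a <;> fin_cases b <;>
    simp [E0, mul_apply, Fin.sum_univ_succ, z1, z2, z3, z4, z5, z6, z7, z8]

theorem basis (hi : i * i = -1) (h2 : (2 : K) ≠ 0) {x y : V6 K} (hx : x ⬝ᵥ x = 1)
    (hy : y ⬝ᵥ y = 1) (hxy : x ⬝ᵥ y = 0) : ∃ P : (M4 K)ˣ,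
      alt i (x + i • y) = P.val * wq (Pi.single 0 1) (Pi.single 1 1) * P.valᵀ ∧
      alt i (x + (-i) • y) = P.val * wq (Pi.single 2 1) (Pi.single 3 1) * P.valᵀ := by
  have hyx : y ⬝ᵥ x = 0 := by rwa [dotProduct_comm]
  obtain ⟨u0, u1, e1⟩ := alt_wq hi (x := x + i • y) (by simp [hx, hy, hxy, hyx, hi])
  obtain ⟨u2, u3, e2⟩ := alt_wq hi (x := x + (-i) • y) (by simp [hx, hy, hxy, hyx, hi])
  set P : M4 K := (of ![u0, u1, u2, u3])ᵀ with hP
  have f1 : alt i (x + i • y) = P * wq (Pi.single 0 1) (Pi.single 1 1) * Pᵀ := by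
    rw [mul_wq, e1]; simp [hP]
  have f2 : alt i (x + (-i) • y) = P * wq (Pi.single 2 1) (Pi.single 3 1) * Pᵀ := by
    rw [mul_wq, e2]; simp [hP]
  have f3 := alt_mul hi ((2 : K) • x)
  rw [show alt i ((2 : K) • x) = alt i (x + i • y) + alt i (x + (-i) • y) by
    rw [← alt_add]; congr 1; module, f1, f2, mul_assoc P, mul_assoc P, ← mul_add, mul_assoc] at f3
  have : IsUnit P := by
    refine (isUnit_iff_isUnit_det P).2 (IsUnit.mk0 _ fun h0 => ?_)
    have := congrArg det f3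
    rw [det_mul, h0, zero_mul, det_smul, det_one] at this
    simp [hx, h2, eq_comm (a := (0 : K))] at this
  exact ⟨this.unit, f1, f2⟩

theorem noTv_cnj (n : NoTv ρ) (B : (M4 K)ˣ) : NoTv (cnj ρ B) := fun v φ h =>
  n (B.val *ᵥ v) (φ ᵥ* B⁻¹.val) ⟨by simpa [cnj_cnj_inv] using h.1.cnj B⁻¹,
    fun e => h.2.1 (units_mulVec_inj B (by simpa using e)),
    fun e => h.2.2 (vecMul_units_inj B⁻¹ (by simpa using e))⟩

theorem cnj_fix {P : (M4 K)ˣ} {g : Γ} {W : M4 K}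
    (e : ρ g * (P.val * W * P.valᵀ) * (ρ g)ᵀ = P.val * W * P.valᵀ) :
    cnj ρ P g * W * (cnj ρ P g)ᵀ = W := by
  calc _ = P⁻¹.val * (ρ g * (P.val * W * P.valᵀ) * (ρ g)ᵀ) * P⁻¹.valᵀ := by
        simp only [cnj_apply, transpose_mul, mul_assoc]
    _ = (P⁻¹.val * P.val) * W * (P⁻¹.val * P.val)ᵀ := by
        rw [e]; simp only [transpose_mul, mul_assoc]
    _ = W := by simp

theorem nil_cnj (P : (M4 K)ˣ) {g : Γ} (h : IsNilpotent (ρ g - 1)) :
    IsNilpotent (cnj ρ P g - 1) := by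
  have : cnj ρ P g - 1 = P⁻¹.val * (ρ g - 1) * P⁻¹⁻¹.val := by simp [cnj_apply, mul_sub, sub_mul]
  obtain ⟨m, hm⟩ := h
  exact ⟨m, by rw [this, Units.conj_pow, hm, mul_zero, zero_mul]⟩

end WQ

variable [IsAlgClosed K] [Finite Γ]

set_option linter.unusedSectionVars false

theorem Lk.nsq (l : Lk ρ π σ π' ι i) (h : Hyp ρ π) (h2 : (2 : K) ≠ 0) (n : NoRf ρ) (g : G) :
    σ g * σ g ≠ -1 := by
  intro e
  obtain ⟨γ, hγ⟩ := l.sj g
  obtain ⟨c, e1, e2⟩ := WQ.scal l h2 (g := γ * γ) (ε := -1) (by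
    rw [map_mul, map_mul, neg_smul, one_smul, ← e]
    rcases hγ with e | e <;> simp [e])
  have k : ∀ d : K, d ^ 4 = 1 → c = d * d → False := fun d a b =>
    h2 (by rw [b] at e2; linear_combination e2 - a)
  by_cases h1 : π γ = 1
  · obtain ⟨d, hd⟩ := (h.ker γ).1 h1
    refine k d (h.fourth hd) (smul_one_inj ?_)
    rw [← e1, map_mul, hd, smul_mul_smul_comm, one_mul]
  · obtain ⟨B, d, h4, hd⟩ := h.inv_std n h2 ((h.ker _).2 ⟨c, e1⟩) h1
    refine k d h4 ?_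
    have : cnj ρ B (γ * γ) = c • 1 := by simp [cnj_apply, e1]
    rw [map_mul, hd, diagonal_mul_diagonal] at this
    simpa using (congrFun (congrFun this 0) 0).symm

theorem Lk.nrt (l : Lk ρ π σ π' ι i) (h : Hyp ρ π) (h2 : (2 : K) ≠ 0) (n : NoTv ρ) (g : G)
    (e : (σ g - 1) * (σ g - 1) = 0) : σ g = 1 := by
  obtain ⟨γ, q, e1, -, -, hN⟩ := WQ.lift l h2 (g := g) ⟨2, by rw [sq, e]⟩
  by_cases h0 : ρ γ - 1 = 0
  · rw [← e1, h.inj (a₁ := γ) (a₂ := 1) (by rw [map_one]; exact sub_eq_zero.1 h0), map_one,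
      map_one]
  obtain ⟨v, φ, a, b, c, d⟩ := WQ.nrt_aux h2 hN (fun u w => by
    obtain ⟨x, hx⟩ := WQ.exists_alt l.hi h2 u w
    have f1 := WQ.act_wq l (g := γ) hx
    have f2 := WQ.act_wq l (g := γ) f1
    rw [add_sub_cancel, ← f2, ← f1, ← hx, e1, sub_eq_add_neg, ← neg_smul, ← WQ.alt_smul,
      ← WQ.alt_add, ← WQ.alt_add]
    have : σ g *ᵥ σ g *ᵥ x + (-2 : K) • σ g *ᵥ x + x = (0 : K) • x := by
      have := congrArg (· *ᵥ x) e
      simp only [← mulVec_mulVec, sub_mulVec, mulVec_sub, one_mulVec, zero_mulVec] at this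
      rw [zero_smul, ← this]
      module
    rw [this, WQ.alt_smul, zero_smul]) h0
  exact (n v φ ⟨⟨b, γ, by rw [← a, add_sub_cancel]⟩, c, d⟩).elim

theorem Lk.quad (l : Lk ρ π σ π' ι i) (h : Hyp ρ π) (lf : LF K) (h2 : (2 : K) ≠ 0) (n : NoTv ρ)
    (g k : G) (x y : V6 K) (hx : x ⬝ᵥ x = 1) (hy : y ⬝ᵥ y = 1) (hxy : x ⬝ᵥ y = 0)
    (ug : IsNilpotent (σ g - 1)) (uk : IsNilpotent (σ k - 1)) (c : g * k = k * g)
    (e1 : σ g *ᵥ x = x) (e2 : σ g *ᵥ y = y) (e3 : σ k *ᵥ x = x) (e4 : σ k *ᵥ y = y) :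
    σ g = 1 ∨ σ k = 1 ∨ σ k = σ g ∨ σ k * σ g = 1 := by
  obtain ⟨γ, q, a1, a2, a3, a4⟩ := WQ.lift l h2 ug
  obtain ⟨κ, -, b1, -, -, b4⟩ := WQ.lift l h2 uk
  have cm : κ * γ = γ * κ := by
    obtain ⟨d, hd, -⟩ := WQ.scal l h2 (g := κ * γ * (γ * κ)⁻¹) (ε := 1) (by
      have : σ (ι (κ * γ)) = σ (ι (γ * κ)) := by
        simp only [map_mul, a1, b1]
        rw [← map_mul, ← map_mul, c]
      rw [map_mul, map_mul, this, ← map_mul, ← map_mul, mul_inv_cancel, map_one, map_one,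
        one_smul])
    have := (h.ker _).2 ⟨d, hd⟩
    rw [map_mul, map_inv, mul_inv_eq_one, map_mul, map_mul] at this
    exact h.comm_of_lift a3 a2 this
  obtain ⟨P, f1, f2⟩ := WQ.basis l.hi h2 hx hy hxy
  have blk : ∀ δ, σ (ι δ) *ᵥ x = x → σ (ι δ) *ᵥ y = y → Commute (cnj ρ P δ - 1) WQ.E0 :=
    fun δ s t => (WQ.comm_E0 (inv_mul_rho _ δ)
      (WQ.cnj_fix (by rw [← f1, ← l.act, mulVec_add, mulVec_smul, s, t]))
      (WQ.cnj_fix (by rw [← f2, ← l.act, mulVec_add, mulVec_smul, s, t]))).sub_left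
        (Commute.one_left _)
  have c1 := blk γ (a1 ▸ e1) (a1 ▸ e2)
  have c2 := blk κ (b1 ▸ e3) (b1 ▸ e4)
  have n1 := WQ.nil_cnj P a4
  have n2 := WQ.nil_cnj P b4
  have c3 : Commute (cnj ρ P γ - 1) (cnj ρ P κ - 1) :=
    ((((show Commute γ κ from cm.symm).map _).sub_left (Commute.one_left _)).sub_right
      (Commute.one_right _))
  have s1 := WQ.blk_sq h2 c1 n1
  have s2 := WQ.blk_sq h2 c2 n2
  have s3 := WQ.blk_sq h2 (c1.add_left c2) (c3.isNilpotent_add n1 n2)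
  set N := cnj ρ P γ - 1 with hN
  set L := cnj ρ P κ - 1 with hL
  have s4 : N * L = 0 := by
    rw [add_mul, mul_add, mul_add, s1, s2, ← c3.eq, zero_add, add_zero, ← two_smul K] at s3
    exact (smul_eq_zero.1 s3).resolve_left h2
  have fx : ∀ {δ u}, (cnj ρ P δ - 1) *ᵥ u = 0 → cnj ρ P δ *ᵥ u = u := fun e => by
    rwa [sub_mulVec, one_mulVec, sub_eq_zero] at e
  rcases (h.cnj P).lemQ lf h2 (WQ.noTv_cnj n P) (g := γ) (k := κ)
    (U := LinearMap.ker N.mulVecLin ⊓ LinearMap.ker L.mulVecLin)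
    ⟨fun v => ⟨by simp [← hN, s1], by simp [← hN, ← c3.eq, s4]⟩, fun u hu => fx hu.1⟩
    ⟨fun v => ⟨by simp [← hL, s4], by simp [← hL, s2]⟩, fun u hu => fx hu.2⟩ with e | e | e | e
  · exact Or.inl (by rw [← a1, e, map_one, map_one])
  · exact Or.inr (Or.inl (by rw [← b1, e, map_one, map_one]))
  · exact Or.inr (Or.inr (Or.inl (by rw [← b1, e, a1])))
  · exact Or.inr (Or.inr (Or.inr (by rw [← b1, ← a1, ← map_mul, ← map_mul, e, map_one, map_one])))

end Cfsg.Agent.D4
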